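import Cfsg.Agent.SURegGen.Element

/-!
From two centres `E`, `D` and a regular unipotent element to all isotropic centres.
-/

set_option autoImplicit false

namespace CfsgLib.SURegGen

open Matrix CfsgLib.TransvGL CfsgLib.UnitCentres

variable {n : ℕ} {F : Type*} [Field F] {σ : F ≃+* F} {f : (Fin n → F) → (Fin n → F) → F}
  {hf : Cfsg.Geo.IsUnitaryForm σ f}

local notation "V" => (Fin n → F)
local notation:70 g:71 " ⋆ " x:70 => act g x

/-- All isotropic translates of `x` along `E` are centres. -/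
def Good (hf : Cfsg.Geo.IsUnitaryForm σ f) (H : Subgroup (GL (Fin n) F)) (E x : Fin n → F) : Prop :=
  ∀ r : F, f (x + r • E) (x + r • E) = 0 → Centre hf H (x + r • E)

/-- Good points are preserved by translation along `c`. -/
def Trans (hf : Cfsg.Geo.IsUnitaryForm σ f) (H : Subgroup (GL (Fin n) F)) (E c : Fin n → F) : Prop :=
  f c E = 0 ∧ ∀ x : Fin n → F, f x E = 1 → Good hf H E x → Good hf H E (x + c)

open Polynomial in
/-- An anisotropic vector has few isotropic translates. -/
lemma exists_aniso_translate [Fintype F] (hf : Cfsg.Geo.IsUnitaryForm σ f) {q : ℕ} (hσ : ∀ x, σ x = x ^ q) (hF : Fintype.card F = q ^ 2) (hq : 3 ≤ q) {d e : V} (he : f e e ≠ 0) (τ : F) :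
    ∃ s : F, f (d - s • e) (d - s • e) ≠ 0 ∧ f (d - (s - τ) • e) (d - (s - τ) • e) ≠ 0 := by
  classical
  set P : F[X] := Polynomial.C (f e e) * X ^ (q + 1) +
    (Polynomial.C (-f d e) * X ^ q + (Polynomial.C (-f e d) * X + Polynomial.C (f d d))) with hP
  have hev : ∀ s, P.eval s = f (d - s • e) (d - s • e) := fun s => by
    rw [show d - s • e = d + (-s) • e by module, norm_add_smul hf, map_neg, hσ, hP]
    simp only [eval_add, eval_mul, eval_C, eval_pow, eval_X]
    ring
  have hcoeff : P.coeff (q + 1) = f e e := by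
    simp [hP, Polynomial.coeff_X, Polynomial.coeff_C, Polynomial.coeff_X_pow, show (1 : ℕ) ≠ q + 1 by omega]
    omega
  have hP0 : P ≠ 0 := fun h => he (by rw [← hcoeff, h, Polynomial.coeff_zero])
  have hdeg : P.natDegree ≤ q + 1 := by
    rw [hP]
    compute_degree
    all_goals omega
  set Z := P.roots.toFinset with hZ
  have hZc : Z.card ≤ q + 1 := (Multiset.toFinset_card_le _).trans ((Polynomial.card_roots' P).trans hdeg)
  have hlt : (Z ∪ Z.image (· + τ)).card < (Finset.univ : Finset F).card := by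
    rw [Finset.card_univ, hF]
    refine (Finset.card_union_le _ _).trans_lt ?_
    have := Finset.card_image_le (s := Z) (f := (· + τ))
    nlinarith
  obtain ⟨s, hs⟩ : ∃ s, s ∉ Z ∪ Z.image (· + τ) := by
    by_contra h
    push Not at h
    rw [Finset.eq_univ_iff_forall.2 h] at hlt
    exact lt_irrefl _ hlt
  rw [Finset.mem_union, not_or] at hs
  refine ⟨s, fun h => hs.1 ?_, fun h => hs.2 ?_⟩
  · rw [hZ, Multiset.mem_toFinset, Polynomial.mem_roots hP0, Polynomial.IsRoot, hev, h]
  · refine Finset.mem_image.2 ⟨s - τ, ?_, sub_add_cancel s τ⟩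
    rw [hZ, Multiset.mem_toFinset, Polynomial.mem_roots hP0, Polynomial.IsRoot, hev, h]

namespace Reg

variable {u : GL (Fin n) F} {E D : Fin n → F} {c : F} {H : Subgroup (GL (Fin n) F)}
  (R : Reg f u E D c)
include R

lemma good_shift {x : V} (h : Good hf H E x) (s : F) : Good hf H E (x + s • E) := by
  intro r hr
  have e : x + s • E + r • E = x + (s + r) • E := by module
  rw [e] at hr ⊢
  exact h _ hr

lemma good_of_centre (hE : Centre hf H E) {x : V} (hx : f x E = 1) (h : Centre hf H x) : Good hf H E x := by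
  intro r hr
  have hs : r + σ r = 0 := by
    rw [norm_add_smul hf, h.iso, R.isoE hf, hx, hf.herm E x, hx, map_one] at hr
    linear_combination hr
  obtain ⟨hEE, hE⟩ := hE
  have := h.image (hE r hs) (uT_iso hf hEE hs)
  rwa [uT_mulVec, hx, mul_one] at this

lemma good_u (hu : u ∈ H) {x : V} (h : Good hf H E x) : Good hf H E (u ⋆ x) := by
  intro r hr
  have e : u ⋆ x + r • E = u ⋆ (x + r • E) := by rw [act_add, act_smul, R.fix_E]
  rw [e, form_act R.iso] at hr
  rw [e]
  exact (h r hr).image hu R.iso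

lemma good_u_inv (hu : u ∈ H) {x : V} (h : Good hf H E x) : Good hf H E (u⁻¹ ⋆ x) := by
  intro r hr
  have e : u⁻¹ ⋆ x + r • E = u⁻¹ ⋆ (x + r • E) := by rw [act_add, act_smul, R.inv_fix_E]
  rw [e, form_act (UnitCentres.Iso.inv R.iso)] at hr
  rw [e]
  exact (h r hr).image (H.inv_mem hu) (UnitCentres.Iso.inv R.iso)

/-- Points of an anisotropic line through two good points, off the fixed field. -/
lemma good_line_aux (hE : Centre hf H E) {x x' : V} (hx : f x E = 1) (hx' : f x' E = 1)
    (gx : Good hf H E x) (gx' : Good hf H E x') (hd : f (x' - x) (x' - x) ≠ 0) {μ : F} (hμ : σ μ ≠ μ) :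
    Good hf H E (x + μ • (x' - x)) := by
  obtain ⟨r, hr⟩ := R.exists_iso_shift hf hx
  obtain ⟨r', hr'⟩ := R.exists_iso_shift hf hx'
  set x1 := x + r • E with hx1
  set x2 := x' + r' • E with hx2
  have e1 : f x1 E = 1 := by rw [hx1, hf.add_left, hf.smul_left, hx, R.isoE hf, mul_zero, add_zero]
  have e2 : f x2 E = 1 := by rw [hx2, hf.add_left, hf.smul_left, hx', R.isoE hf, mul_zero, add_zero]
  have e2' : f E x2 = 1 := by rw [hf.herm, e2, map_one]
  set P := f x1 x2 with hP
  have hdE : f (x' - x) E = 0 := by rw [UnitCentres.sub_left hf, hx, hx', sub_self]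
  have hPd : P + σ P = -f (x' - x) (x' - x) := by
    have h : f (x2 - x1) (x2 - x1) = f (x' - x) (x' - x) := by
      rw [show x2 - x1 = (x' - x) + (r' - r) • E by rw [hx1, hx2]; module, norm_add_smul hf, hdE,
        UnitCentres.orth_comm hf hdE, R.isoE hf]
      ring
    rw [UnitCentres.sub_left hf, UnitCentres.sub_right hf, UnitCentres.sub_right hf, hr, hr',
      hf.herm x2 x1, ← hP] at h
    linear_combination -h
  set p := (1 - μ) * σ μ with hp
  have hσp : σ p = (1 - σ μ) * μ := by rw [hp, map_mul, map_sub, map_one, hf.involutive]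
  have hne : p - σ p ≠ 0 := by
    rw [hσp, hp]
    intro e
    exact hμ (by linear_combination e)
  set ε := -(p * P + σ (p * P)) / (p - σ p) with hε
  have hσε : σ ε = -ε := by
    rw [hε, map_div₀, map_neg, map_add, map_sub, hf.involutive, hf.involutive, ← neg_sub p (σ p), div_neg,
      add_comm (σ (p * P))]
  have hεp : ε * (p - σ p) = -(p * P + σ (p * P)) := div_mul_cancel₀ _ hne
  have hiso1 : f (x1 + ε • E) (x1 + ε • E) = 0 := by
    rw [norm_add_smul hf, hr, e1, R.isoE hf, hf.herm E x1, e1, map_one, hσε]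
    ring
  have hc1 : Centre hf H (x1 + ε • E) := by
    have e : x1 + ε • E = x + (r + ε) • E := by rw [hx1]; module
    rw [e] at hiso1 ⊢
    exact gx _ hiso1
  have hc2 : Centre hf H x2 := gx' _ hr'
  have hne12 : f (x1 + ε • E) x2 ≠ 0 := by
    rw [hf.add_left, hf.smul_left, e2', mul_one, ← hP]
    intro e
    apply hd
    have h := congrArg σ e
    rw [map_add, hσε, map_zero] at h
    linear_combination hPd - e - h
  have hy : f ((1 - μ) • (x1 + ε • E) + μ • x2) ((1 - μ) • (x1 + ε • E) + μ • x2) = 0 := by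
    have h12 : f (x1 + ε • E) x2 = P + ε := by rw [hf.add_left, hf.smul_left, e2', mul_one, hP]
    have h21 : f x2 (x1 + ε • E) = σ P - ε := by
      rw [hf.herm, h12, map_add, hσε, sub_eq_add_neg]
    have hex : ∀ (a b : F) (A B : V), f (a • A + b • B) (a • A + b • B) =
        a * σ a * f A A + a * σ b * f A B + (b * σ a * f B A + b * σ b * f B B) := by
      intro a b A B
      simp only [hf.add_left, hf.smul_left, UnitCentres.add_right hf, UnitCentres.smul_right hf]
      ring
    rw [hex]
    rw [hiso1, hr', h12, h21]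
    rw [map_mul σ p P, hσp, hp] at hεp
    rw [map_sub, map_one]
    linear_combination hεp
  have hfin := R.good_of_centre hE (x := (1 - μ) • (x1 + ε • E) + μ • x2) (by
    rw [hf.add_left, hf.smul_left, hf.smul_left, hf.add_left, hf.smul_left, e1, e2, R.isoE hf]
    ring) (hc1.line hc2 hne12 hy)
  have h := R.good_shift hfin (-((1 - μ) * (r + ε) + μ * r'))
  rwa [show (1 - μ) • (x1 + ε • E) + μ • x2 + -((1 - μ) * (r + ε) + μ * r') • E = x + μ • (x' - x) by
    rw [hx1, hx2]; module] at h

/-- Anisotropic lines through two good points. -/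
lemma good_line (hE : Centre hf H E) {x x' : V} (hx : f x E = 1) (hx' : f x' E = 1)
    (gx : Good hf H E x) (gx' : Good hf H E x') (hd : f (x' - x) (x' - x) ≠ 0) (μ : F) :
    Good hf H E (x + μ • (x' - x)) := by
  by_cases h0 : μ = 0
  · rwa [h0, zero_smul, add_zero]
  by_cases hμ : σ μ = μ
  · obtain ⟨ν, hν⟩ : ∃ ν, σ ν ≠ ν := by
      by_contra h
      push Not at h
      exact hf.ne_refl (RingEquiv.ext h)
    have hν0 : ν ≠ 0 := fun h => hν (by rw [h, map_zero])
    have hy : f (x + ν • (x' - x)) E = 1 := by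
      rw [hf.add_left, hf.smul_left, UnitCentres.sub_left hf, hx, hx', sub_self, mul_zero, add_zero]
    have h := R.good_line_aux hE hx hy gx (R.good_line_aux hE hx hx' gx gx' hd hν) (μ := μ / ν)
      (by rw [add_sub_cancel_left, hf.smul_left, UnitCentres.smul_right hf]
          exact mul_ne_zero hν0 (mul_ne_zero ((map_ne_zero σ).2 hν0) hd))
      (by
        intro e
        rw [map_div₀, hμ, div_eq_div_iff ((map_ne_zero σ).2 hν0) hν0] at e
        exact hν (mul_left_cancel₀ h0 e).symm)
    rwa [add_sub_cancel_left, smul_smul, div_mul_cancel₀ _ hν0] at h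
  · exact R.good_line_aux hE hx hx' gx gx' hd hμ

/-- One translation step along an anisotropic good line. -/
lemma translate_step (hE : Centre hf H E) {x0 e : V}
    (hx0 : f x0 E = 1) (heE : f e E = 0) (g0 : Good hf H E x0) (g1 : Good hf H E (x0 + e))
    (he : f e e ≠ 0) {x' : V} (hx' : f x' E = 1) (gx' : Good hf H E x')
    (hs : ∀ τ : F, ∃ s : F, f (x' - x0 - s • e) (x' - x0 - s • e) ≠ 0 ∧
      f (x' - x0 - (s - τ) • e) (x' - x0 - (s - τ) • e) ≠ 0) (b : F) : Good hf H E (x' + b • e) := by
  have hline : ∀ t : F, Good hf H E (x0 + t • e) := fun t => by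
    have h := R.good_line hE hx0 (x' := x0 + e) (by rw [hf.add_left, hx0, heE, add_zero]) g0 g1
      (by rwa [add_sub_cancel_left]) t
    rwa [add_sub_cancel_left] at h
  have hlE : ∀ t : F, f (x0 + t • e) E = 1 := fun t => by
    rw [hf.add_left, hf.smul_left, hx0, heE, mul_zero, add_zero]
  obtain ⟨μ, hμ⟩ : ∃ μ : F, σ μ ≠ μ := by
    by_contra h
    push Not at h
    exact hf.ne_refl (RingEquiv.ext h)
  have hμ0 : μ ≠ 0 := fun h => hμ (by rw [h, map_zero])
  have hμ1 : 1 - μ ≠ 0 := fun h => hμ (by rw [← sub_eq_zero.1 h, map_one])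
  set d := x' - x0 with hd
  obtain ⟨s, hs1, hs2⟩ := hs (b / μ)
  set z := x0 + s • e with hz
  set m := x' + μ • (z - x') with hm
  have gm : Good hf H E m := R.good_line hE hx' (hlE s) gx' (hline s) (by
    rw [show x0 + s • e - x' = (-1 : F) • (d - s • e) by rw [hd]; module, hf.smul_left,
      UnitCentres.smul_right hf, map_neg, map_one]
    simpa using hs1) μ
  have hmE : f m E = 1 := by
    rw [hm, hf.add_left, hf.smul_left, UnitCentres.sub_left hf, hx', hlE s, sub_self, mul_zero, add_zero]
  set z' := x0 + (s - b * (1 - μ) / μ) • e with hz'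
  have hdiff : z' - m = (-(1 - μ)) • (d - (s - b / μ) • e) := by
    rw [hz', hm, hz, hd]
    match_scalars <;> field_simp <;> ring
  have h := R.good_line hE hmE (hlE (s - b * (1 - μ) / μ)) gm (hline _) (by
    rw [← hz', hdiff, hf.smul_left, UnitCentres.smul_right hf]
    exact mul_ne_zero (neg_ne_zero.2 hμ1) (mul_ne_zero ((map_ne_zero σ).2 (neg_ne_zero.2 hμ1)) hs2))
    (-μ / (1 - μ))
  rw [← hz', hdiff, smul_smul] at h
  have e' : m + (-μ / (1 - μ) * -(1 - μ)) • (d - (s - b / μ) • e) = x' + b • e := by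
    rw [show -μ / (1 - μ) * -(1 - μ) = μ by field_simp, hm, hz, hd]
    match_scalars <;> field_simp <;> ring
  rwa [e'] at h

section Finite

variable [Fintype F] {q : ℕ} (hσ : ∀ x, σ x = x ^ q)

include hσ in
/-- The direction of an anisotropic good line is a translation. -/
lemma trans_of_aniso (hF : Fintype.card F = q ^ 2) (hq : 3 ≤ q) (hE : Centre hf H E) {x0 e : V}
    (hx0 : f x0 E = 1) (heE : f e E = 0) (g0 : Good hf H E x0) (g1 : Good hf H E (x0 + e))
    (he : f e e ≠ 0) (b : F) : Trans hf H E (b • e) :=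
  ⟨by rw [hf.smul_left, heE, mul_zero], fun _ hx' gx' =>
    R.translate_step hE hx0 heE g0 g1 he hx' gx' (fun τ => exists_aniso_translate hf hσ hF hq he τ) b⟩

end Finite

lemma trans_zero : Trans hf H E 0 := ⟨UnitCentres.zero_left hf _, fun x _ h => by rwa [add_zero]⟩

lemma trans_add {a b : V} (ha : Trans hf H E a) (hb : Trans hf H E b) : Trans hf H E (a + b) := by
  refine ⟨by rw [hf.add_left, ha.1, hb.1, add_zero], fun x hx h => ?_⟩
  rw [← add_assoc]
  exact hb.2 _ (by rw [hf.add_left, hx, ha.1, add_zero]) (ha.2 x hx h)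

lemma trans_u (hu : u ∈ H) {a : V} (ha : Trans hf H E a) : Trans hf H E (u ⋆ a) := by
  refine ⟨by rw [R.form_act_E hf, ha.1], fun x hx h => ?_⟩
  have h1 := R.good_u hu (ha.2 _ (by rw [R.form_act_inv_E hf, hx]) (R.good_u_inv hu h))
  rwa [act_add, act_act_inv] at h1

/-- All translations from those along the image of `D`. -/
lemma trans_all_of_ND (hu : u ∈ H) (hN : ∀ b : F, Trans hf H E (b • (nilPart u *ᵥ D))) {x : V} (hx : f x E = 0) :
    Trans hf H E x := by
  have hall : ∀ (j : ℕ) (b : F), Trans hf H E (b • (nilPart u ^ (j + 1) *ᵥ D)) := by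
    intro j
    induction j with
    | zero => intro b; rw [pow_one]; exact hN b
    | succ j ih =>
      intro b
      have h := R.trans_add (R.trans_u hu (ih b)) (ih (-b))
      rw [act_smul, act_eq u, ← pow_succ_mulVec] at h
      rwa [show b • (nilPart u ^ (j + 1) *ᵥ D + nilPart u ^ (j + 1 + 1) *ᵥ D) +
        -b • (nilPart u ^ (j + 1) *ᵥ D) = b • (nilPart u ^ (j + 1 + 1) *ᵥ D) by module] at h
  obtain ⟨y, hy⟩ := R.exists_decomp hf x
  rw [hx, zero_smul, zero_add] at hy
  rw [hy]
  have hy' : y ∈ Submodule.span F (Set.range fun i : Fin n => nilPart u ^ (i : ℕ) *ᵥ D) := by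
    rw [R.span_eq_top hf]; trivial
  clear hy
  suffices h : ∀ b : F, Trans hf H E (b • (nilPart u *ᵥ y)) by simpa using h 1
  induction hy' using Submodule.span_induction with
  | mem y hy =>
    obtain ⟨i, rfl⟩ := hy
    intro b
    rw [← pow_succ_mulVec]
    exact hall _ b
  | zero => intro b; rw [mulVec_zero, smul_zero]; exact R.trans_zero
  | add a a' _ _ ha ha' => intro b; rw [mulVec_add, smul_add]; exact R.trans_add (ha b) (ha' b)
  | smul r a _ ha => intro b; rw [mulVec_smul, smul_smul]; exact ha _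

variable [Fintype F] {q : ℕ}

/-- All translations. -/
lemma trans_all (hσ : ∀ x, σ x = x ^ q) (hF : Fintype.card F = q ^ 2) (hq : 3 ≤ q) (hu : u ∈ H)
    (hE : Centre hf H E) (hD : Centre hf H D)
    (hk : ∃ k : ℕ, f ((u ^ k) ⋆ D - D) ((u ^ k) ⋆ D - D) ≠ 0) {x : V} (hx : f x E = 0) :
    Trans hf H E x := by
  have hDE := R.pair' hf
  have gD : Good hf H E D := R.good_of_centre hE hDE hD
  have gk : ∀ k : ℕ, Good hf H E ((u ^ k) ⋆ D) := by
    intro k
    induction k with
    | zero => rwa [pow_zero, act_one]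
    | succ k ih => rw [pow_succ', act_mul]; exact R.good_u hu ih
  obtain ⟨k, hk⟩ := hk
  set e := (u ^ k) ⋆ D - D with he
  have heE : f e E = 0 := by rw [he, UnitCentres.sub_left hf, R.form_act_pow_E hf, sub_self]
  have hTe : ∀ b : F, Trans hf H E (b • e) := R.trans_of_aniso hσ hF hq hE hDE heE gD
    (by rw [he, add_sub_cancel]; exact gk k) hk
  have hN : ∀ b : F, Trans hf H E (b • (nilPart u *ᵥ D)) := by
    intro b
    obtain ⟨s, hs, -⟩ := exists_aniso_translate hf hσ hF hq (d := nilPart u *ᵥ D) hk 0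
    have hd : f (nilPart u *ᵥ D - s • e) E = 0 := by
      rw [UnitCentres.sub_left hf, hf.smul_left, R.form_nil_E hf, heE, mul_zero, sub_self]
    have g1 : Good hf H E (D + (nilPart u *ᵥ D - s • e)) := by
      have h := (hTe (-s)).2 (u ⋆ D) (by rw [R.form_act_E hf, hDE]) (R.good_u hu gD)
      rwa [show u ⋆ D + -s • e = D + (nilPart u *ᵥ D - s • e) by rw [act_eq u D]; module] at h
    have h := R.trans_add (R.trans_of_aniso hσ hF hq hE hDE hd gD g1 hs b) (hTe (b * s))
    rwa [show b • (nilPart u *ᵥ D - s • e) + (b * s) • e = b • (nilPart u *ᵥ D) by module] at h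
  exact R.trans_all_of_ND hu hN hx

/-- Every isotropic vector is a centre once translations are available. -/
theorem all_centres (hE : Centre hf H E) (hD : Centre hf H D)
    (hT : ∀ x : V, f x E = 0 → Trans hf H E x) {x : V} (hx : f x x = 0) : Centre hf H x := by
  have hDE := R.pair' hf
  have haff : ∀ y : V, f y E = 1 → f y y = 0 → Centre hf H y := by
    intro y hy hyy
    have hd : f (y - D) E = 0 := by rw [UnitCentres.sub_left hf, hy, hDE, sub_self]
    have h := (hT _ hd).2 D hDE (R.good_of_centre hE hDE hD)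
    rw [add_sub_cancel] at h
    simpa using h 0 (by simpa using hyy)
  have hgen : ∀ y : V, f y E ≠ 0 → f y y = 0 → Centre hf H y := by
    intro y hy hyy
    have h := (haff ((f y E)⁻¹ • y) (by rw [hf.smul_left, inv_mul_cancel₀ hy])
      (by rw [hf.smul_left, UnitCentres.smul_right hf, hyy, mul_zero, mul_zero])).smul (f y E)
    rwa [smul_smul, mul_inv_cancel₀ hy, one_smul] at h
  by_cases hxE : f x E ≠ 0
  · exact hgen x hxE hx
  push Not at hxE
  by_cases h0 : x = 0
  · subst h0
    simpa using hE.smul 0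
  obtain ⟨z, hzE, hxz, hz⟩ : ∃ z, f z E = 1 ∧ f x z ≠ 0 ∧ f z z = 0 := by
    by_cases hxD : f x D ≠ 0
    · exact ⟨D, hDE, hxD, R.isoD⟩
    push Not at hxD
    obtain ⟨-, z0, hz0⟩ := hf.nondegenerate x h0
    set z1 := D + z0 - f z0 E • D with hz1
    have h1 : f z1 E = 1 := by
      rw [hz1, UnitCentres.sub_left hf, hf.add_left, hf.smul_left, hDE]; ring
    obtain ⟨s, hs⟩ := R.exists_iso_shift hf h1
    refine ⟨z1 + s • E, by rw [hf.add_left, hf.smul_left, R.isoE hf, h1, mul_zero, add_zero], ?_, hs⟩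
    rw [UnitCentres.add_right hf, UnitCentres.smul_right hf, hxE, mul_zero, add_zero, hz1,
      UnitCentres.sub_right hf, UnitCentres.add_right hf, UnitCentres.smul_right hf, hxD]
    simpa using hz0
  obtain ⟨c0, hc0, hc1⟩ := UnitCentres.exists_traceZero hf
  have hzx : f z x ≠ 0 := fun e => hxz (UnitCentres.orth_comm hf e)
  set t := c0 / f z x with ht
  have ht0 : t ≠ 0 := div_ne_zero hc0 hzx
  have hiso : f (x + t • z) (x + t • z) = 0 := by
    rw [norm_add_smul hf, hx, hz, hf.herm x z, ← map_mul, ht, div_mul_cancel₀ _ hzx]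
    linear_combination hc1
  have hz' : Centre hf H (x + t • z) := hgen _ (by
    rw [hf.add_left, hf.smul_left, hxE, hzE, zero_add, mul_one]; exact ht0) hiso
  have hne : f (x + t • z) z ≠ 0 := by
    rw [hf.add_left, hf.smul_left, hz, mul_zero, add_zero]; exact hxz
  have h := hz'.line (hgen z (by rw [hzE]; exact one_ne_zero) hz) hne (a := 1) (b := -t)
    (by rw [show (1 : F) • (x + t • z) + -t • z = x by module]; exact hx)
  rwa [show (1 : F) • (x + t • z) + -t • z = x by module] at h

end Reg

end CfsgLib.SURegGen
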