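import Cfsg.Agent.SURegGen.Element
import Cfsg.Agent.SympRegGen.Fields
import Cfsg.Agent.Classical.Unitary.Field

/-!
Full centres from single transvections.
-/

set_option autoImplicit false

namespace CfsgLib.SURegGen

open Matrix CfsgLib.TransvGL CfsgLib.UnitCentres

variable {n : ℕ} {F : Type*} [Field F] {σ : F ≃+* F} {f : (Fin n → F) → (Fin n → F) → F}

local notation "V" => (Fin n → F)
local notation:70 g:71 " ⋆ " x:70 => act g x

section Basic

variable (hf : Cfsg.Geo.IsUnitaryForm σ f)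

lemma uT_congr {v w : Fin n → F} (hv : f v v = 0) (hw : f w w = 0) (e : v = w) (c : F) :
    uT hf hv c = uT hf hw c := by subst e; rfl

lemma uT_add {v : Fin n → F} (hv : f v v = 0) (a b : F) :
    uT hf hv (a + b) = uT hf hv a * uT hf hv b := ext_mulVec fun x => by
  rw [Units.val_mul, ← mulVec_mulVec, uT_mulVec, uT_mulVec, uT_mulVec, hf.add_left, hf.smul_left, hv]
  module

lemma uT_zero {v : Fin n → F} (hv : f v v = 0) : uT hf hv 0 = 1 := ext_mulVec fun x => by
  rw [uT_mulVec]; simp

lemma uT_neg {v : Fin n → F} (hv : f v v = 0) (a : F) : uT hf hv (-a) = (uT hf hv a)⁻¹ :=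
  eq_inv_of_mul_eq_one_left (by rw [← uT_add, neg_add_cancel, uT_zero])

lemma uT_smul {v : Fin n → F} (hv : f v v = 0) (s : F) (hv' : f (s • v) (s • v) = 0) (c : F) :
    uT hf hv' c = uT hf hv (c * (s * σ s)) := ext_mulVec fun x => by
  rw [uT_mulVec, uT_mulVec, UnitCentres.smul_right hf, smul_smul]
  congr 2
  ring

lemma uT_conj {v : Fin n → F} (hv : f v v = 0) {g : GL (Fin n) F} (hg : Iso f g)
    (hgv : f (g ⋆ v) (g ⋆ v) = 0) (c : F) : g * uT hf hv c * g⁻¹ = uT hf hgv c := by
  rw [mul_inv_eq_iff_eq_mul]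
  refine ext_mulVec fun x => ?_
  simp only [act, Units.val_mul, ← mulVec_mulVec, uT_mulVec, mulVec_add, mulVec_smul]
  rw [hg]

/-- The parameters of the transvections of `H` centred at `v`. -/
def skVals (H : Subgroup (GL (Fin n) F)) {v : Fin n → F} (hv : f v v = 0) : AddSubgroup F where
  carrier := {t | uT hf hv t ∈ H}
  zero_mem' := by
    show uT hf hv 0 ∈ H
    rw [uT_zero]; exact H.one_mem
  add_mem' {a b} ha hb := by
    show uT hf hv (a + b) ∈ H
    rw [uT_add]; exact H.mul_mem ha hb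
  neg_mem' {a} ha := by
    show uT hf hv (-a) ∈ H
    rw [uT_neg]; exact H.inv_mem ha

/-- A centre from one transvection and stability under a generator of the fixed field. -/
lemma centre_of_stable {H : Subgroup (GL (Fin n) F)} {v : Fin n → F} (hv : f v v = 0) (A : AddSubgroup F)
    (hA : ∀ t ∈ A, uT hf hv t ∈ H) {a k : F} (ha : a ≠ 0) (has : a + σ a = 0) (haA : a ∈ A)
    (hk : ∀ x ∈ A, k * x ∈ A) (hgen : ∀ K : Subring F, k ∈ K → ∀ x, σ x = x → x ∈ K) :
    Centre hf H v := by
  refine ⟨hv, fun t ht => hA t ?_⟩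
  let S : Subring F :=
    { carrier := {z | ∀ y ∈ A, z * y ∈ A}
      one_mem' := fun y hy => by rwa [one_mul]
      mul_mem' := fun hz hw y hy => by rw [mul_assoc]; exact hz _ (hw y hy)
      zero_mem' := fun y _ => by rw [zero_mul]; exact A.zero_mem
      add_mem' := fun hz hw y hy => by rw [add_mul]; exact A.add_mem (hz y hy) (hw y hy)
      neg_mem' := fun hz y hy => by rw [neg_mul]; exact A.neg_mem (hz y hy) }
  have hS : t / a ∈ S := hgen S hk _ (by
    rw [map_div₀, eq_neg_of_add_eq_zero_right ht, eq_neg_of_add_eq_zero_right has, neg_div_neg_eq])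
  have := hS a haA
  rwa [div_mul_cancel₀ _ ha] at this

end Basic

/-- Generators of the fixed field. -/
lemma fixed_generated [Fintype F] {q : ℕ} (hσ : ∀ x, σ x = x ^ q) (hF : Fintype.card F = q ^ 2) {κ : F}
    (hκ : σ κ = κ) (h : ∀ k : ℕ, 2 ≤ k → k ^ 2 ≤ q → k ∣ q → κ ^ k ≠ κ) :
    ∀ K : Subring F, κ ∈ K → ∀ x, σ x = x → x ∈ K := by
  classical
  intro K hK x hx
  let F0 : Subfield F :=
    { carrier := {y | σ y = y}
      one_mem' := map_one σ
      mul_mem' := fun {a b} ha hb => by
        show σ (a * b) = a * b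
        rw [map_mul, ha, hb]
      zero_mem' := map_zero σ
      add_mem' := fun {a b} ha hb => by
        show σ (a + b) = a + b
        rw [map_add, ha, hb]
      neg_mem' := fun {a} ha => by
        show σ (-a) = -a
        rw [map_neg, ha]
      inv_mem' := fun a ha => by
        show σ a⁻¹ = a⁻¹
        rw [map_inv₀, ha] }
  have hcard : Fintype.card F0 = q := by
    rw [← Nat.card_eq_fintype_card, ← CfsgLib.Unitary.card_fixed hF]
    exact Nat.card_congr (Equiv.subtypeEquivRight fun y => by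
      show σ y = y ↔ _
      rw [hσ])
  let K' : Subring F0 := K.comap F0.subtype
  by_contra hxK
  have hne : SympRegGen.toSubfield K' ≠ ⊤ := by
    intro e
    have : (⟨x, hx⟩ : F0) ∈ SympRegGen.toSubfield K' := by rw [e]; trivial
    exact hxK this
  have hle := SympRegGen.card_sq_le _ hne
  rw [hcard] at hle
  have h2 : 2 ≤ Nat.card (SympRegGen.toSubfield K') := Finite.one_lt_card
  have hdvd : Nat.card (SympRegGen.toSubfield K') ∣ q := by
    have e : Nat.card F0 = Nat.card (SympRegGen.toSubfield K') ^ Module.finrank (SympRegGen.toSubfield K') F0 :=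
      Module.natCard_eq_pow_finrank
    rw [Nat.card_eq_fintype_card, hcard] at e
    rw [e]
    exact dvd_pow_self _ Module.finrank_pos.ne'
  refine h _ h2 hle hdvd ?_
  by_cases h0 : κ = 0
  · subst h0
    exact zero_pow (by omega)
  · have e := SympRegGen.pow_card_sub_one (SympRegGen.toSubfield K') (x := (⟨κ, hκ⟩ : F0))
      (show _ ∈ K' from hK) (fun e => h0 (congrArg Subtype.val e))
    have e' := congrArg Subtype.val e
    simp only [SubmonoidClass.coe_pow, OneMemClass.coe_one] at e'
    have hlast : κ ^ (Nat.card (SympRegGen.toSubfield K') - 1 + 1) = κ := by rw [pow_succ, e', one_mul]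
    rwa [Nat.sub_add_cancel (by omega)] at hlast

namespace Reg

variable {u : GL (Fin n) F} {E D : Fin n → F} {c : F} {H : Subgroup (GL (Fin n) F)}
  {hf : Cfsg.Geo.IsUnitaryForm σ f}

/-- Centres `E` and `D` from a semisimple product of two transvections. -/
lemma centres_of_semisimple (R : Reg f u E D c) {lam α ρ κ : F} {v : GL (Fin n) F} (hv' : Iso f v)
    (hu : u ∈ H) (hv : v ∈ H) (hT : uT hf (R.isoE hf) lam ∈ H) (hvE : v ⋆ E = α • D)
    (hvuv : v ⋆ (u ⋆ (v ⋆ E)) = (α / σ α) • (E + ρ • D))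
    (hlam : lam ≠ 0) (hls : lam + σ lam = 0) (hρ : ρ + σ ρ = 0) (hα : α ≠ 0)
    (h1 : lam * ρ = κ - 1) (h2 : α * σ α * κ = ρ ^ 2)
    (hgen : ∀ K : Subring F, κ ^ 2 ∈ K → ∀ x, σ x = x → x ∈ K) : Centre hf H E ∧ Centre hf H D := by
  have hσα : σ α ≠ 0 := (map_ne_zero σ).2 hα
  have hEE := R.isoE hf
  set e := E + ρ • D with he
  have hee : f e e = 0 := by
    rw [he, norm_add_smul hf, hEE, R.pair, R.pair' hf, R.isoD]
    linear_combination hρ
  have hσκ : σ κ = κ := by
    have e1 : κ = lam * ρ + 1 := by linear_combination -h1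
    rw [e1, map_add, map_mul, map_one, eq_neg_of_add_eq_zero_right hls, eq_neg_of_add_eq_zero_right hρ,
      neg_mul_neg]
  -- the transvection at `D`
  have hαD : f (v ⋆ E) (v ⋆ E) = 0 := by rw [form_act hv', hEE]
  have hTD : uT hf R.isoD (lam * (α * σ α)) ∈ H := by
    have hαD' : f (α • D) (α • D) = 0 := hvE ▸ hαD
    rw [← uT_smul hf R.isoD α hαD', ← uT_congr hf hαD hαD' hvE, ← uT_conj hf hEE hv' hαD]
    exact H.mul_mem (H.mul_mem hv hT) (H.inv_mem hv)
  -- the transvection at `e`
  set w := v * u * v with hw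
  have hwi : Iso f w := (hv'.mul R.iso).mul hv'
  have hwH : w ∈ H := H.mul_mem (H.mul_mem hv hu) hv
  have hwE : w ⋆ E = (α / σ α) • e := by rw [hw, act_mul, act_mul, hvuv]
  have hωn : (α / σ α) * σ (α / σ α) = 1 := by
    rw [map_div₀, hf.involutive, div_mul_div_cancel₀ hσα, div_self hα]
  have hTe : uT hf hee lam ∈ H := by
    have h0 : f (w ⋆ E) (w ⋆ E) = 0 := by rw [form_act hwi, hEE]
    have h0' : f ((α / σ α) • e) ((α / σ α) • e) = 0 := hwE ▸ h0
    rw [show uT hf hee lam = uT hf h0' lam by rw [uT_smul hf hee _ h0', hωn, mul_one],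
      ← uT_congr hf h0 h0' hwE, ← uT_conj hf hEE hwi h0]
    exact H.mul_mem (H.mul_mem hwH hT) (H.inv_mem hwH)
  -- the product has eigenvector `e`
  set W := uT hf R.isoD (lam * (α * σ α)) * uT hf hEE lam with hW
  have hWH : W ∈ H := H.mul_mem hTD hT
  have hWi : Iso f W := by
    refine (uT_iso hf R.isoD ?_).mul (uT_iso hf hEE hls)
    rw [map_mul, map_mul, hf.involutive]
    linear_combination (α * σ α) * hls
  have hWe : W ⋆ e = κ • e := by
    have e1 : uT hf hEE lam ⋆ e = κ • E + ρ • D := by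
      rw [he, act, uT_mulVec, hf.add_left, hf.smul_left, hEE, R.pair' hf]
      match_scalars
      · linear_combination h1
      · ring
    rw [hW, act_mul, e1, act, uT_mulVec, hf.add_left, hf.smul_left, hf.smul_left, R.isoD, R.pair, he]
    match_scalars
    · ring
    · linear_combination lam * h2 + ρ * h1
  have hce : Centre hf H e := by
    refine centre_of_stable hf hee (skVals hf H hee) (fun t ht => ht) (k := κ ^ 2) hlam hls hTe
      (fun x hx => ?_) hgen
    show uT hf hee (κ ^ 2 * x) ∈ H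
    have h0 : f (W ⋆ e) (W ⋆ e) = 0 := by rw [form_act hWi, hee]
    have h0' : f (κ • e) (κ • e) = 0 := hWe ▸ h0
    rw [show uT hf hee (κ ^ 2 * x) = uT hf h0' x by rw [uT_smul hf hee _ h0', hσκ]; congr 1; ring,
      ← uT_congr hf h0 h0' hWe, ← uT_conj hf hee hWi h0]
    exact H.mul_mem (H.mul_mem hWH hx) (H.inv_mem hWH)
  have hcE : Centre hf H E := by
    have h := (hce.smul (α / σ α)).image (H.inv_mem hwH) (UnitCentres.Iso.inv hwi)
    rwa [← hwE, inv_mulVec_mulVec] at h
  refine ⟨hcE, ?_⟩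
  have h := (hcE.image hv hv').smul α⁻¹
  rwa [show (v : Matrix (Fin n) (Fin n) F) *ᵥ E = α • D from hvE, smul_smul, inv_mul_cancel₀ hα,
    one_smul] at h

end Reg

end CfsgLib.SURegGen
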