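import Cfsg.Agent.SURegGen.Odd
import Cfsg.Agent.SURegGen.Full
import Cfsg.Agent.SURegGen.Centres

/-!
Odd dimension at least five, at least three elements in the fixed field.
-/

set_option autoImplicit false

namespace CfsgLib.SURegGen

open Matrix CfsgLib.TransvGL CfsgLib.UnitCentres

variable {n : ℕ} {F : Type*} [Field F] {σ : F ≃+* F} {f : (Fin n → F) → (Fin n → F) → F}

local notation "V" => (Fin n → F)
local notation:70 g:71 " ⋆ " x:70 => act g x

/-- Three conjugates of `u` in the special group put every isotropic centre into the subgroup. -/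
def ThreeCentres (hf : Cfsg.Geo.IsUnitaryForm σ f) (u : GL (Fin n) F) : Prop :=
  ∃ g h : GL (Fin n) F, Iso f g ∧ (g : Matrix (Fin n) (Fin n) F).det = 1 ∧
    Iso f h ∧ (h : Matrix (Fin n) (Fin n) F).det = 1 ∧
    ∀ H : Subgroup (GL (Fin n) F), u ∈ H → g * u * g⁻¹ ∈ H → h * u * h⁻¹ ∈ H →
      ∀ x, f x x = 0 → Centre hf H x

namespace Reg

variable {u : GL (Fin n) F} {E D : Fin n → F} {c : F} (R : Reg f u E D c)
  (hf : Cfsg.Geo.IsUnitaryForm σ f)
include R hf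

lemma transvection_mem {h : GL (Fin n) F} {lam : F} (hh : h * u * h⁻¹ = uT hf (R.isoE hf) lam * u)
    {H : Subgroup (GL (Fin n) F)} (hu : u ∈ H) (hH : h * u * h⁻¹ ∈ H) : uT hf (R.isoE hf) lam ∈ H := by
  have := H.mul_mem hH (H.inv_mem hu)
  rwa [hh, mul_inv_cancel_right] at this

/-- The twist inside the special group. -/
theorem exists_twist_special [Finite F] (hn : 5 ≤ n) {E' y : Fin n → F} {c' : F} (R' : Reg f u E' y c') {α ρ : F}
    (hα : α ≠ 0) (hy : f (u ⋆ y) y = α) (hρ : ρ + σ ρ = 0)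
    (hδ : α ^ 2 * f D (u ⋆ D) = σ (f y ((u ^ 2) ⋆ y)) - ρ * (α / σ α)) :
    ∃ g : GL (Fin n) F, Iso f g ∧ (g : Matrix (Fin n) (Fin n) F).det = 1 ∧
      (g * u * g⁻¹) ⋆ E = α • D ∧
      (g * u * g⁻¹) ⋆ (u ⋆ ((g * u * g⁻¹) ⋆ E)) = (α / σ α) • (E + ρ • D) := by
  have hσα : σ α ≠ 0 := (map_ne_zero σ).2 hα
  obtain ⟨g, hg, g0, g1, g2⟩ := R.exists_twist hf R' hα hy hρ hδ
  obtain ⟨g', hg', hd, hgi⟩ := exists_det_one hf hn hg ![E, D, u ⋆ D]
    ((-σ (f D (u ⋆ D))) • E + (-1 : F) • D + u ⋆ D) (fun a ha => by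
      have h0 := ha 0
      have h1 := ha 1
      simp only [Fin.sum_univ_three, Matrix.cons_val_zero, Matrix.cons_val_one, Matrix.cons_val,
        hf.add_left, hf.smul_left, R.isoE hf, R.pair' hf, R.form_act_E hf, R.pair, R.isoD] at h0 h1
      rw [hf.herm (u ⋆ D) D] at h1
      refine ⟨a 2, ?_⟩
      simp only [Fin.sum_univ_three, Matrix.cons_val_zero, Matrix.cons_val_one, Matrix.cons_val]
      match_scalars
      · linear_combination h1
      · linear_combination h0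
      · ring)
  refine ⟨g', hg', hd, ?_⟩
  have k0 : g' ⋆ y = E := hgi y 0 g0
  have k1 : g' ⋆ (u ⋆ y) = α • D := by
    have h := hgi (α⁻¹ • (u ⋆ y)) 1 (by
      rw [act_smul, g1, smul_smul, inv_mul_cancel₀ hα, one_smul]; rfl)
    rw [act_smul] at h
    rw [← show (![E, D, u ⋆ D] : Fin 3 → V) 1 = D from rfl, ← h, smul_smul, mul_inv_cancel₀ hα, one_smul]
  have k2 : g' ⋆ (u⁻¹ ⋆ y) = σ α • (u ⋆ D) - (ρ / α) • E := by
    have h := hgi ((σ α)⁻¹ • (u⁻¹ ⋆ y + (ρ / α) • y)) 2 (by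
      rw [act_smul, act_add, act_smul, g2, g0, sub_add_cancel, smul_smul, inv_mul_cancel₀ hσα, one_smul]
      rfl)
    rw [act_smul, act_add, act_smul, k0] at h
    rw [← show (![E, D, u ⋆ D] : Fin 3 → V) 2 = u ⋆ D from rfl, ← h, smul_smul, mul_inv_cancel₀ hσα,
      one_smul, add_sub_cancel_right]
  exact R.twist_act hf hα k0 k1 k2

/-- The case of at least three fixed scalars. -/
theorem threeCentres_large [Fintype F] {q : ℕ} (hσ : ∀ x, σ x = x ^ q) (hF : Fintype.card F = q ^ 2)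
    (hq : 3 ≤ q) {h : ℕ} (hh : n = 2 * h + 1) (hn : 5 ≤ n) : ThreeCentres hf u := by
  classical
  obtain ⟨g, hg⟩ := IsCyclic.exists_generator (α := Fˣ)
  have hord : orderOf g = (q - 1) * (q + 1) := by
    rw [orderOf_eq_card_of_forall_mem_zpowers hg, CfsgLib.Unitary.card_units_eq hF]
  set κ := ((g : F)) ^ (q + 1) with hκ
  have hκpow : ∀ m : ℕ, κ ^ m = 1 → q - 1 ∣ m := by
    intro m hm
    rw [hκ, ← pow_mul, ← Units.val_pow_eq_pow_val, Units.val_eq_one, ← orderOf_dvd_iff_pow_eq_one, hord,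
      mul_comm (q + 1) m] at hm
    exact Nat.dvd_of_mul_dvd_mul_right (by omega) hm
  have hσκ : σ κ = κ := by rw [hσ, hκ]; exact CfsgLib.Unitary.norm_pow_q hF _
  have hκ0 : κ ≠ 0 := pow_ne_zero _ g.ne_zero
  have hκ1 : κ ≠ 1 := fun e => by
    have := Nat.le_of_dvd one_pos (hκpow 1 (by rw [pow_one, e]))
    omega
  obtain ⟨ρ, hρ0, hρ⟩ := UnitCentres.exists_traceZero hf
  have hσρ : σ ρ = -ρ := eq_neg_of_add_eq_zero_right hρ
  obtain ⟨α, hα⟩ := UnitCentres.exists_norm hf (r := ρ ^ 2 / κ) (by rw [map_div₀, map_pow, hσρ, hσκ, neg_sq])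
  have hα0 : α ≠ 0 := fun e => by
    rw [e, zero_mul] at hα
    exact div_ne_zero (pow_ne_zero 2 hρ0) hκ0 hα.symm
  set lam := (κ - 1) / ρ with hlam
  have hls : lam + σ lam = 0 := by rw [hlam, map_div₀, map_sub, map_one, hσκ, hσρ, div_neg]; ring
  obtain ⟨y, hy1, hy2, hy3⟩ := R.exists_delta hf hn (σ α)
  have hy : f (u ⋆ y) y = α := by rw [hf.herm, hy3, hf.involutive]
  obtain ⟨D2, hD1, hD2, hD3⟩ := R.exists_delta hf hn
    ((σ (f y ((u ^ 2) ⋆ y)) - ρ * (α / σ α)) / α ^ 2)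
  have R2 := R.change hf hD1 hD2
  obtain ⟨g', hg', hgd, hvE, hvu⟩ := R2.exists_twist_special hf hn (R.change hf hy1 hy2) hα0 hy hρ
    (by rw [hD3, mul_div_cancel₀ _ (pow_ne_zero 2 hα0)])
  obtain ⟨h', hh', hhd, hT⟩ := R2.exists_conj_transvection hf hls
  refine ⟨g', h', hg', hgd, hh', hhd, fun H hu hv hH x hx => ?_⟩
  obtain ⟨hE, hD⟩ := R2.centres_of_semisimple (hf := hf) (H := H) (lam := lam) (α := α) (ρ := ρ) (κ := κ)
    ((hg'.mul R.iso).mul (UnitCentres.Iso.inv hg')) hu hv (R2.transvection_mem hf hT hu hH) hvE hvu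
    (div_ne_zero (sub_ne_zero.2 hκ1) hρ0) hls hρ hα0 (div_mul_cancel₀ _ hρ0)
    (by rw [hα, div_mul_cancel₀ _ hκ0])
    (fixed_generated hσ hF (by rw [map_pow, hσκ]) fun k hk2 hk _ e => by
      have h1 : κ ^ (2 * k - 2) = 1 := by
        refine mul_right_cancel₀ (pow_ne_zero 2 hκ0) ?_
        rw [one_mul, ← pow_add, Nat.sub_add_cancel (by omega), pow_mul]
        exact e
      have h2 := Nat.le_of_dvd (by omega) (hκpow _ h1)
      rw [Nat.sub_le_iff_le_add] at h2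
      have h3 : q ≤ 2 * k - 1 := by omega
      have h4 : k ^ 2 + 1 ≤ 2 * k := by omega
      nlinarith)
  exact R2.all_centres hE hD
    (fun y hy => R2.trans_all hσ hF hq hu hE hD (R2.exists_aniso_power hf h hh) hy) hx

end Reg

end CfsgLib.SURegGen
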