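import Cfsg.Agent.SURegGen.OddTwoWitness
import Cfsg.Agent.SURegGen.OddLarge

/-!
Odd dimension at least five over the field with four elements.
-/

set_option autoImplicit false

namespace CfsgLib.SURegGen

open Matrix CfsgLib.TransvGL CfsgLib.UnitCentres

variable {n : ℕ} {F : Type*} [Field F] {σ : F ≃+* F} {f : (Fin n → F) → (Fin n → F) → F}
  {hf : Cfsg.Geo.IsUnitaryForm σ f}

local notation "V" => (Fin n → F)
local notation:70 g:71 " ⋆ " x:70 => act g x

namespace Reg

variable {u : GL (Fin n) F} {E D : Fin n → F} {c : F} {H : Subgroup (GL (Fin n) F)}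
  (R : Reg f u E D c)
include R

/-- A translation from two centres on a line through the fixed point at infinity. -/
lemma trans_pair (hE : Centre hf H E) {w : V} (hwE : f w E = 0) (hww : f w w = 0) {b b' : F}
    (hb : Centre hf H (w + b • E)) (hb' : Centre hf H (w + b' • E)) (h2 : (2 : F) = 0) :
    Trans hf H E (σ (b + b') • w) := by
  have hEw : f E w = 0 := orth_comm hf hwE
  have h1 : (1 : F) + σ 1 = 0 := by rw [map_one]; linear_combination h2
  refine ⟨by rw [hf.smul_left, hwE, mul_zero], fun x hx gx => ?_⟩
  obtain ⟨r, hr⟩ := R.exists_iso_shift hf hx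
  have c1 := gx r hr
  obtain ⟨hbb, hbM⟩ := hb
  obtain ⟨hbb', hbM'⟩ := hb'
  set q' := f (x + r • E) w with hq'
  have hf1 : f (x + r • E) (w + b • E) = q' + σ b := by
    rw [UnitCentres.add_right hf, UnitCentres.smul_right hf, ← hq', hf.add_left x (r • E) E, hf.smul_left,
      hx, R.isoE hf]
    ring
  have hf2 : f (x + r • E + (q' + σ b) • (w + b • E)) (w + b' • E) = q' + σ b' := by
    rw [hf.add_left, hf.smul_left, UnitCentres.add_right hf (x + r • E), UnitCentres.smul_right hf b',
      ← hq', hf.add_left x (r • E) E, hf.smul_left r, hx, R.isoE hf, hf.add_left w,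
      UnitCentres.add_right hf w, UnitCentres.add_right hf (b • E), hf.smul_left, hf.smul_left,
      UnitCentres.smul_right hf, UnitCentres.smul_right hf, hww, hwE, hEw, R.isoE hf]
    ring
  have c2 := c1.image (hbM 1 h1) (uT_iso hf hbb h1)
  rw [uT_mulVec, hf1, one_mul] at c2
  have c3 := c2.image (hbM' 1 h1) (uT_iso hf hbb' h1)
  rw [uT_mulVec, hf2, one_mul] at c3
  have hg := R.good_of_centre hE (by
    simp only [hf.add_left, hf.smul_left, hx, hwE, R.isoE hf]; ring) c3
  have h := R.good_shift hg (-(r + (q' + σ b) * b + (q' + σ b') * b'))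
  rwa [show x + r • E + (q' + σ b) • (w + b • E) + (q' + σ b') • (w + b' • E) +
      -(r + (q' + σ b) * b + (q' + σ b') * b') • E = x + σ (b + b') • w by
    rw [map_add]
    match_scalars
    · ring
    · ring
    · linear_combination q' * h2] at h

variable [Fintype F]

/-- Translations from an isotropic direction `w` with `f (N D) w = 1`. -/
lemma trans_all_two (hσ : ∀ x, σ x = x ^ 2) (hF : Fintype.card F = 2 ^ 2) (hu : u ∈ H)
    (hE : Centre hf H E) (hD : Centre hf H D) {w : V} (hwE : f w E = 0) (hww : f w w = 0)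
    (hND : f (nilPart u *ᵥ D) w = 1) (hw : ∀ t : F, Trans hf H E (t • w)) {x : V} (hx : f x E = 0) :
    Trans hf H E x := by
  classical
  obtain ⟨h2, hN, hfix⟩ := four_facts hσ hF
  refine R.trans_all_of_ND hu (fun b => ?_) hx
  have hDE := R.pair' hf
  have hwN : f w (nilPart u *ᵥ D) = 1 := by rw [hf.herm, hND, map_one]
  obtain ⟨z, hz⟩ := UnitCentres.exists_trace hf (r := 1 - f (nilPart u *ᵥ D) (nilPart u *ᵥ D))
    (by rw [map_sub, map_one, norm_fixed hf])
  set e := nilPart u *ᵥ D + z • w with he
  have heE : f e E = 0 := by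
    rw [he, hf.add_left, hf.smul_left, R.form_nil_E hf, hwE, mul_zero, add_zero]
  have hee : f e e = 1 := by
    rw [he, norm_add_smul hf, hww, hND, hwN]
    linear_combination hz
  have hwe : f w e = 1 := by
    rw [he, UnitCentres.add_right hf, UnitCentres.smul_right hf, hwN, hww, mul_zero, add_zero]
  have gD : Good hf H E D := R.good_of_centre hE hDE hD
  have g1 : Good hf H E (D + e) := by
    have h := (hw z).2 (u ⋆ D) (by rw [R.form_act_E hf, hDE]) (R.good_u hu gD)
    rwa [act_eq u D, add_assoc] at h
  have hTe : ∀ t : F, Trans hf H E (t • e) := by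
    intro s
    refine ⟨by rw [hf.smul_left, heE, mul_zero], fun x' hx' gx' => ?_⟩
    set d := x' - D with hd
    set A := f d d with hA
    set B := f d w with hB
    set C := f d e with hC
    obtain ⟨m, hm⟩ : ∃ m : F, A + σ (m - C) * B + (m - C) * σ B = m * σ m := by
      have hK : σ (A + σ (0 - C) * B + (0 - C) * σ B) = A + σ (0 - C) * B + (0 - C) * σ B := by
        rw [map_add, map_add, map_mul, map_mul, hf.involutive, hf.involutive, hA, norm_fixed hf]
        ring
      rcases hfix _ hK with h0 | h0
      · exact ⟨0, by rw [h0, map_zero, mul_zero]⟩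
      · by_cases hB0 : B = 0
        · refine ⟨1, ?_⟩
          rw [hB0, map_zero, mul_zero, mul_zero, add_zero, add_zero] at h0 ⊢
          rw [h0, map_one, mul_one]
        · refine ⟨B, ?_⟩
          rw [hN B hB0]
          rw [map_sub] at h0 ⊢
          rw [map_zero] at h0
          linear_combination h0 + (σ B * B) * h2
    set t := m - C with ht
    have hy : f (x' + t • w) E = 1 := by
      rw [hf.add_left, hf.smul_left, hx', hwE, mul_zero, add_zero]
    have gy := (hw t).2 x' hx' gx'
    have hde : f (d + t • w) e = m := by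
      rw [hf.add_left, hf.smul_left, hwe, ← hC, ht]; ring
    have hdd : f (d + t • w) (d + t • w) = m * σ m := by
      rw [norm_add_smul hf, hww, ← hA, ← hB, hf.herm w d, ← hB, mul_zero, add_zero, hm]
    have hval : ∀ r : F, f (d + t • w - r • e) (d + t • w - r • e) = (m - r) * σ (m - r) := by
      intro r
      rw [show d + t • w - r • e = (d + t • w) + (-r) • e by module, norm_add_smul hf, hdd, hde,
        hf.herm e (d + t • w), hde, hee, map_neg, map_sub]
      ring
    have key := R.translate_step hE hDE heE gD g1 (by rw [hee]; exact one_ne_zero) hy gy (fun τ => by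
      obtain ⟨r, hr⟩ : ∃ r : F, r ∉ ({m, m + τ} : Finset F) := by
        by_contra hno
        push Not at hno
        have h4 : Fintype.card F ≤ 2 := by
          rw [← Finset.card_univ]
          exact (Finset.card_le_card fun r _ => hno r).trans Finset.card_le_two
        rw [hF] at h4
        norm_num at h4
      simp only [Finset.mem_insert, Finset.mem_singleton, not_or] at hr
      refine ⟨r, ?_, ?_⟩
      · rw [show x' + t • w - D - r • e = d + t • w - r • e by rw [hd]; abel, hval]
        have : m - r ≠ 0 := sub_ne_zero.2 (Ne.symm hr.1)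
        exact mul_ne_zero this ((map_ne_zero σ).2 this)
      · rw [show x' + t • w - D - (r - τ) • e = d + t • w - (r - τ) • e by rw [hd]; abel, hval]
        have : m - (r - τ) ≠ 0 := fun e' => hr.2 (by linear_combination -e')
        exact mul_ne_zero this ((map_ne_zero σ).2 this)) s
    have h := (hw (-t)).2 (x' + t • w + s • e)
      (by rw [hf.add_left, hy, hf.smul_left, heE, mul_zero, add_zero]) key
    rwa [show x' + t • w + s • e + -t • w = x' + s • e by module] at h
  have h := R.trans_add (hTe b) (hw (-(b * z)))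
  rwa [show b • e + -(b * z) • w = b • (nilPart u *ᵥ D) by rw [he]; module] at h

omit H

/-- The case of two fixed scalars. -/
theorem threeCentres_two (hf : Cfsg.Geo.IsUnitaryForm σ f) (hσ : ∀ x, σ x = x ^ 2)
    (hF : Fintype.card F = 2 ^ 2) {h : ℕ} (hn : n = 2 * h + 1) (hh : 2 ≤ h) : ThreeCentres hf u := by
  obtain ⟨h2, hN, hfix⟩ := four_facts hσ hF
  obtain ⟨y, p', hp, hyy, f1, f3, f13, hli⟩ := R.exists_witness_two hf hσ hF hn hh
  -- the target
  set w0 := c • (nilPart u ^ (n - 2) *ᵥ D) with hw0
  have hw0E : f w0 E = 0 := by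
    rw [hw0, hf.smul_left, show n - 2 = n - 3 + 1 by omega, R.form_pow_E hf, mul_zero]
  have hNw0 : nilPart u *ᵥ w0 = E := by
    rw [hw0, mulVec_smul, ← pow_succ_mulVec, show n - 2 + 1 = n - 1 by omega, R.top]
  have hw00 : f w0 w0 = 0 := by
    rw [hw0, hf.smul_left, UnitCentres.smul_right hf, form_pow_pow hf R.iso R.nil _ _ (by omega),
      mul_zero, mul_zero]
  clear_value w0
  set w := w0 + σ (p' - f D w0) • E with hw
  have hwE : f w E = 0 := by rw [hw, hf.add_left, hf.smul_left, hw0E, R.isoE hf, mul_zero, add_zero]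
  have hEw : f E w = 0 := orth_comm hf hwE
  have hDw : f D w = p' := by
    rw [hw, UnitCentres.add_right hf, UnitCentres.smul_right hf, R.pair' hf, hf.involutive]; ring
  have hww : f w w = 0 := by
    rw [hw, norm_add_smul hf, hw00, hw0E, R.isoE hf, orth_comm hf hw0E]; ring
  have hNw : nilPart u *ᵥ w = E := by rw [hw, mulVec_add, mulVec_smul, hNw0, R.nil_E, smul_zero, add_zero]
  clear_value w
  set P := σ p' with hP
  have hwD : f w D = P := by rw [hf.herm, hDw]
  have hPP : P + σ P = 1 := by rw [hP, hf.involutive, add_comm]; exact hp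
  have hP0 : P ≠ 0 := fun e => by rw [e, map_zero, add_zero] at hPP; exact zero_ne_one hPP
  have hPn : P * σ P = 1 := hN P hP0
  have hP2 : P ^ 2 + P + 1 = 0 := by linear_combination P * hPP - hPn + P * h2
  have hσP : σ P = P + 1 := by linear_combination hPP - P * h2
  -- the twisting element
  have hB : LinearIndependent F ![E, D, w] := by
    rw [Fintype.linearIndependent_iff]
    intro a ha
    simp only [Fin.sum_univ_three, Matrix.cons_val_zero, Matrix.cons_val_one, Matrix.cons_val] at ha
    have k0 := congrArg (fun x => f x E) ha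
    simp only [hf.add_left, hf.smul_left, R.isoE hf, R.pair' hf, hwE, UnitCentres.zero_left hf] at k0
    have k1 : a 1 = 0 := by linear_combination k0
    have k2 := congrArg (fun x => nilPart u *ᵥ x) ha
    simp only [k1, zero_smul, add_zero, mulVec_add, mulVec_smul, R.nil_E, smul_zero, zero_add, hNw,
      mulVec_zero, smul_eq_zero] at k2
    have k2' := k2.resolve_right (R.E_ne hf)
    rw [k1, k2', zero_smul, zero_smul, add_zero, add_zero, smul_eq_zero] at ha
    intro i
    fin_cases i
    · exact ha.resolve_right (R.E_ne hf)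
    · exact k1
    · exact k2'
  obtain ⟨g0, hg0, hgi⟩ := CfsgLib.LinAlg.Witt.exists_unitary_family hf hli hB (fun i j => by
    fin_cases i <;> fin_cases j <;>
      simp only [Fin.zero_eta, Fin.mk_one, Fin.reduceFinMk, Matrix.cons_val_zero, Matrix.cons_val_one,
        Matrix.cons_val]
    · rw [hyy, R.isoE hf]
    · rw [f1, R.pair]
    · rw [f3, hEw]
    · rw [hf.herm, f1, map_one, R.pair' hf]
    · rw [form_act R.iso, hyy, R.isoD]
    · rw [f13, hDw]
    · rw [hf.herm, f3, map_zero, hwE]
    · rw [hf.herm, f13, hwD]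
    · rw [form_act R.iso, form_act R.iso, form_act R.iso, hyy, hww])
  obtain ⟨g, hg, hgd, hgA⟩ := exists_det_one hf (by omega) hg0 ![E, D, w] ((-P) • E + w) (fun a ha => by
    have h0 := ha 0
    have h1 := ha 1
    simp only [Fin.sum_univ_three, Matrix.cons_val_zero, Matrix.cons_val_one, Matrix.cons_val,
      hf.add_left, hf.smul_left, R.isoE hf, R.pair' hf, R.pair, R.isoD, hwE, hwD] at h0 h1
    refine ⟨a 2, ?_⟩
    simp only [Fin.sum_univ_three, Matrix.cons_val_zero, Matrix.cons_val_one, Matrix.cons_val]
    match_scalars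
    · linear_combination h1
    · linear_combination h0
    · ring)
  have k0 : g ⋆ y = E := hgA y 0 (hgi 0)
  have k1 : g ⋆ (u ⋆ y) = D := hgA (u ⋆ y) 1 (hgi 1)
  have k3 : g ⋆ (u ⋆ (u ⋆ (u ⋆ y))) = w := hgA _ 2 (hgi 2)
  have hls : (1 : F) + σ 1 = 0 := by rw [map_one]; linear_combination h2
  obtain ⟨h', hh', hhd, hT⟩ := R.exists_conj_transvection hf hls
  refine ⟨g, h', hg, hgd, hh', hhd, fun H hu hv hH x hx => ?_⟩
  set v := g * u * g⁻¹ with hvdef
  have hvi : Iso f v := (hg.mul R.iso).mul (UnitCentres.Iso.inv hg)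
  have hvg : ∀ z, v ⋆ (g ⋆ z) = g ⋆ (u ⋆ z) := fun z => by
    rw [hvdef, act_mul, act_mul, act_inv_act]
  have hvE : v ⋆ E = D := by rw [← k0, hvg, k1]
  have hcE : Centre hf H E := by
    refine ⟨R.isoE hf, fun t ht => ?_⟩
    rcases hfix t (by linear_combination ht - t * h2) with rfl | rfl
    · rw [uT_zero]; exact H.one_mem
    · exact R.transvection_mem hf hT hu hH
  have hcD : Centre hf H D := hvE ▸ hcE.image hv hvi
  have hcw : Centre hf H w := by
    have hv3 : v ⋆ (v ⋆ (v ⋆ E)) = w := by rw [← k0, hvg, hvg, hvg, k3]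
    exact hv3 ▸ ((hcE.image hv hvi).image hv hvi).image hv hvi
  have hcw1 : Centre hf H (w + (1 : F) • E) := by
    have h := hcw.image hu R.iso
    rwa [show ((u : Matrix (Fin n) (Fin n) F) *ᵥ w) = w + (1 : F) • E by
      rw [one_smul, ← hNw]; exact act_eq u w] at h
  -- secants
  obtain ⟨hDD, hDM⟩ := id hcD
  have cx0 : Centre hf H (w + P • D) := by
    have h := hcw.image (hDM 1 hls) (uT_iso hf hDD hls)
    rwa [uT_mulVec, hwD, one_mul] at h
  have cx1 : Centre hf H (w + (1 : F) • E + (P + 1) • D) := by
    have h := hcw1.image (hDM 1 hls) (uT_iso hf hDD hls)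
    rwa [uT_mulVec, hf.add_left, hf.smul_left, hwD, R.pair, one_mul, one_mul] at h
  have cx2 : Centre hf H (w + (P + 1) • D + P • E) := by
    have hne : f (w + (1 : F) • E + (P + 1) • D) E ≠ 0 := by
      simp only [hf.add_left, hf.smul_left, hwE, R.isoE hf, R.pair' hf]
      intro e
      exact one_ne_zero (α := F) (by linear_combination hP2 - P * e)
    have e : (1 : F) • (w + (1 : F) • E + (P + 1) • D) + (P + 1) • E = w + (P + 1) • D + P • E := by
      match_scalars
      · ring
      · linear_combination h2
      · ring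
    have h := cx1.line hcE hne (a := 1) (b := P + 1) (by
      rw [e]
      simp only [hf.add_left, hf.smul_left, UnitCentres.add_right hf, UnitCentres.smul_right hf, hww, hwD,
        hwE, hDw, hEw, R.isoD, R.isoE hf, R.pair, R.pair' hf, map_add, map_one, hσP,
        show p' = P + 1 by rw [← hσP, hP, hf.involutive]]
      linear_combination (2 * P + 2) * hP2 + (2 * P - P ^ 3) * h2)
    rwa [e] at h
  have cx3 : Centre hf H (w + (P + 1) • E) := by
    have hne : f (w + P • D) (w + (P + 1) • D + P • E) ≠ 0 := by
      simp only [hf.add_left, hf.smul_left, UnitCentres.add_right hf, UnitCentres.smul_right hf, hww, hwD,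
        hwE, hDw, R.isoD, R.pair' hf, map_add, map_one, hσP, show p' = P + 1 by rw [← hσP, hP, hf.involutive]]
      intro e
      exact hP0 (pow_eq_zero_iff two_ne_zero |>.1 (by linear_combination e - (P ^ 2 + 2 * P) * h2 : P ^ 2 = 0))
    have e : (P + 1) • (w + P • D) + P • (w + (P + 1) • D + P • E) = w + (P + 1) • E := by
      match_scalars
      · linear_combination P * h2
      · linear_combination (P ^ 2 + P) * h2
      · linear_combination hP2 - (P + 1) * h2
    have h := cx0.line cx2 hne (a := P + 1) (b := P) (by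
      rw [e, norm_add_smul hf, hww, hwE, hEw, R.isoE hf]; ring)
    rwa [e] at h
  have hwall : ∀ t : F, Trans hf H E (t • w) := by
    intro t
    have hs := R.trans_pair hcE hwE hww (b := 0) (b' := P + 1) (by simpa using hcw) cx3 h2
    have hs' := R.trans_pair hcE hwE hww hcw1 cx3 h2
    have hs1 := R.trans_pair hcE hwE hww (b := 0) (b' := 1) (by simpa using hcw) hcw1 h2
    rw [zero_add, map_add, map_one, hσP] at hs
    rw [map_add, map_add, map_one, hσP] at hs'
    rw [zero_add, map_one] at hs1
    rw [show P + 1 + 1 = P by linear_combination h2] at hs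
    rw [show 1 + (P + 1 + 1) = P + 1 by linear_combination h2] at hs'
    by_cases ht : t = 0
    · rw [ht, zero_smul]; exact R.trans_zero
    · have hcases : t = 1 ∨ t = P ∨ t = P + 1 := by
        have h3 : t ^ 3 = 1 := by
          have := hN t ht
          rw [hσ] at this
          linear_combination this
        have : (t - 1) * ((t - P) * (t - (P + 1))) = 0 := by
          linear_combination h3 + (t - 1) * hP2 + (-(P + 1) * t ^ 2 + t * P + 1) * h2
        rcases mul_eq_zero.1 this with h | h
        · exact Or.inl (sub_eq_zero.1 h)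
        · rcases mul_eq_zero.1 h with h | h
          · exact Or.inr (Or.inl (sub_eq_zero.1 h))
          · exact Or.inr (Or.inr (sub_eq_zero.1 h))
      rcases hcases with rfl | rfl | rfl
      · exact hs1
      · exact hs
      · exact hs'
  have hNDw : f (nilPart u *ᵥ D) w = 1 := by
    have h := form_nilPart_defect hf R.iso D w
    rw [hNw, R.pair' hf, R.form_nil_E hf, add_zero] at h
    linear_combination h - h2
  exact R.all_centres hcE hcD (fun z hz => R.trans_all_two hσ hF hu hcE hcD hwE hww hNDw hwall hz) hx

end Reg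

end CfsgLib.SURegGen
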