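import Cfsg.Agent.SURegGen.ThreeTwist
import Cfsg.Agent.SURegGen.Full

/-!
Dimension three over the field with twenty-five elements: one explicit word.
-/

set_option autoImplicit false

namespace CfsgLib.SURegGen

open Matrix CfsgLib.TransvGL CfsgLib.UnitCentres

/-- Pairs standing for `a + b i` with `i² = 2` modulo five. -/
abbrev K5 : Type := ZMod 5 × ZMod 5

/-- The product of pairs. -/
def k5mul (a b : K5) : K5 := (a.1 * b.1 + 2 * (a.2 * b.2), a.1 * b.2 + a.2 * b.1)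

/-- The action of `u` on coordinates. -/
def k5U (c : K5 × K5 × K5) : K5 × K5 × K5 :=
  (c.1 + k5mul (4, 0) c.2.1, c.2.1 + c.2.2, c.2.2)

/-- The action of `v` on coordinates. -/
def k5V (c : K5 × K5 × K5) : K5 × K5 × K5 :=
  (k5mul (0, 2) c.2.1 + k5mul (4, 1) c.2.2, k5mul (2, 3) c.2.1 + k5mul (3, 2) c.2.2,
    k5mul (3, 1) c.1 + k5mul (1, 1) c.2.1 + k5mul (1, 2) c.2.2)

variable {F : Type*} [Field F] {σ : F ≃+* F} {f : (Fin 3 → F) → (Fin 3 → F) → F}

local notation "V" => (Fin 3 → F)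
local notation:70 g:71 " ⋆ " x:70 => act g x

section Eval

variable [CharP F 5] (i : F)

/-- The value of a pair. -/
noncomputable def k5val (a : K5) : F := ZMod.castHom (dvd_refl 5) F a.1 + ZMod.castHom (dvd_refl 5) F a.2 * i

lemma k5val_add (a b : K5) : k5val i (a + b) = k5val i a + k5val i b := by
  simp only [k5val, Prod.fst_add, Prod.snd_add, map_add]; ring

lemma k5val_mul (hi : i ^ 2 = 2) (a b : K5) : k5val i (k5mul a b) = k5val i a * k5val i b := by
  simp only [k5val, k5mul, map_add, map_mul, map_ofNat]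
  linear_combination -(ZMod.castHom (dvd_refl 5) F a.2 * ZMod.castHom (dvd_refl 5) F b.2) * hi

end Eval

namespace Reg

variable {u : GL (Fin 3) F} {E D : Fin 3 → F} {c : F} (R : Reg f u E D c)
  (hf : Cfsg.Geo.IsUnitaryForm σ f)
include R hf

/-- The transvection given by the word. -/
theorem five_word [CharP F 5] {i : F} (hi : i ^ 2 = 2) (hσi : σ i = -i) {μ α : F}
    (hμ : μ = f (nilPart u *ᵥ D) (nilPart u *ᵥ D)) (hα : α * μ = 3 + i) {v : GL (Fin 3) F}
    (hvE : v ⋆ E = α • D) (hvu : v ⋆ (u ⋆ (v ⋆ E)) = (α / σ α) • (E + (2 * i / μ) • D))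
    (hvD : v ⋆ D = (3 : F) • D - (3 / α + 2 * i / μ / α ^ 2) • E + (σ α / α) • (u ⋆ D)) :
    (v * u * v * u * v) * (v * u * v * u * v) = uT hf (R.isoE hf) (3 * i * μ) := by
  have h5 : (5 : F) = 0 := by exact_mod_cast CharP.cast_eq_zero F 5
  have hμ0 : μ ≠ 0 := hμ ▸ R.mu_ne hf
  have hσμ : σ μ = μ := by rw [hμ]; exact UnitCentres.norm_fixed hf _
  have hp : (3 + i) * (4 + 2 * i) = 1 := by linear_combination 2 * hi + (2 * i + 3) * h5
  have hm : (3 - i) * (4 - 2 * i) = 1 := by linear_combination 2 * hi + (-2 * i + 3) * h5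
  have hα0 : α ≠ 0 := fun h => by
    rw [h, zero_mul] at hα
    rw [← hα, zero_mul] at hp
    exact zero_ne_one hp
  have hσα : σ α * μ = 3 - i := by
    have h := congrArg σ hα
    rw [map_mul, hσμ, map_add, map_ofNat, hσi] at h
    linear_combination h
  have hσα0 : σ α ≠ 0 := (map_ne_zero σ).2 hα0
  have hinv : α⁻¹ = μ * (4 + 2 * i) := by
    refine inv_eq_of_mul_eq_one_right ?_
    linear_combination (4 + 2 * i) * hα + hp
  have hinv' : (σ α)⁻¹ = μ * (4 - 2 * i) := by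
    refine inv_eq_of_mul_eq_one_right ?_
    linear_combination (4 - 2 * i) * hσα + hm
  set e1 := μ • E with he1
  set e2 := nilPart u *ᵥ D with he2
  set Φ : K5 × K5 × K5 → V := fun c => k5val i c.1 • e1 + k5val i c.2.1 • e2 + k5val i c.2.2 • D with hΦ
  have cv : ∀ a b : ℕ, k5val (F := F) i ((a : ZMod 5), (b : ZMod 5)) = (a : F) + (b : F) * i := fun a b => by
    simp [k5val]
  have hu1 : u ⋆ e1 = e1 := by rw [he1, act_smul, R.fix_E]
  have hu2 : u ⋆ e2 = e2 + (4 : F) • e1 := by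
    rw [act_eq u e2, he2, R.sq_D hf, ← hμ, he1, smul_smul]
    match_scalars <;> first | ring1 | linear_combination -μ * h5
  have hu3 : u ⋆ D = D + e2 := act_eq u D
  have hv1 : v ⋆ e1 = (3 + i) • D := by rw [he1, act_smul, hvE, smul_smul, mul_comm μ α, hα]
  have hρα : 3 / α + 2 * i / μ / α ^ 2 = μ * (1 + 4 * i) := by
    rw [div_eq_mul_inv, div_eq_mul_inv _ (α ^ 2), ← inv_pow, hinv, div_eq_mul_inv _ μ]
    linear_combination ((2 * i) * (4 + 2 * i) ^ 2 * μ) * inv_mul_cancel₀ hμ0 +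
      μ * (8 * i + 32) * hi + μ * (15 + 10 * i) * h5
  have hr : σ α / α = 3 + 2 * i := by
    rw [div_eq_mul_inv, hinv]
    linear_combination (4 + 2 * i) * hσα + (-2) * hi + 1 * h5
  have hv3 : v ⋆ D = (4 + i) • e1 + (3 + 2 * i) • e2 + (1 + 2 * i) • D := by
    rw [hvD, hρα, hr, hu3, he1]
    match_scalars
    · linear_combination h5
    · linear_combination -μ * (1 + i) * h5
    · ring
  have hv2 : v ⋆ e2 = (2 * i) • e1 + (2 + 3 * i) • e2 + (1 + i) • D := by
    have h := hvu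
    rw [hvE, act_smul, act_smul] at h
    have h' := congrArg (fun x => α⁻¹ • x) h
    simp only [smul_smul, inv_mul_cancel₀ hα0, one_smul] at h'
    rw [hu3, act_add, hv3, show α⁻¹ * (α / σ α) = (σ α)⁻¹ by field_simp, hinv'] at h'
    have h2 := eq_sub_of_add_eq' h'
    rw [h2, he1]
    match_scalars
    · linear_combination -μ * i * h5
    · linear_combination (4 - 2 * i) * (2 * i) * mul_inv_cancel₀ hμ0 - 4 * hi + (i - 2) * h5
    · linear_combination -(1 + i) * h5
  have hΦU : ∀ c, u ⋆ Φ c = Φ (k5U c) := by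
    rintro ⟨a, b, d⟩
    have e : k5val (F := F) i (4, 0) = 4 := by simpa using cv 4 0
    simp only [hΦ, act_add, act_smul, hu1, hu2, hu3, k5U, k5val_add, k5val_mul i hi, e]
    module
  have hΦV : ∀ c, v ⋆ Φ c = Φ (k5V c) := by
    rintro ⟨a, b, d⟩
    have e1' : k5val (F := F) i (0, 2) = 2 * i := by simpa using cv 0 2
    have e2' : k5val (F := F) i (4, 1) = 4 + i := by simpa using cv 4 1
    have e3' : k5val (F := F) i (2, 3) = 2 + 3 * i := by simpa using cv 2 3
    have e4' : k5val (F := F) i (3, 2) = 3 + 2 * i := by simpa using cv 3 2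
    have e5' : k5val (F := F) i (3, 1) = 3 + i := by simpa using cv 3 1
    have e6' : k5val (F := F) i (1, 1) = 1 + i := by simpa using cv 1 1
    have e7' : k5val (F := F) i (1, 2) = 1 + 2 * i := by simpa using cv 1 2
    simp only [hΦ, act_add, act_smul, hv1, hv2, hv3, k5V, k5val_add, k5val_mul i hi, e1', e2', e3', e4',
      e5', e6', e7']
    module
  set w := v * u * v * u * v with hw
  have hΦw : ∀ c, (w * w) ⋆ Φ c = Φ ((k5V ∘ k5U ∘ k5V ∘ k5U ∘ k5V) ((k5V ∘ k5U ∘ k5V ∘ k5U ∘ k5V) c)) := by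
    intro c
    simp only [hw, act_mul, hΦV, hΦU, Function.comp]
  have h1 : (w * w) ⋆ e1 = e1 := by
    have h := hΦw ((1, 0), (0, 0), (0, 0))
    rw [show (k5V ∘ k5U ∘ k5V ∘ k5U ∘ k5V) ((k5V ∘ k5U ∘ k5V ∘ k5U ∘ k5V) ((1, 0), (0, 0), (0, 0))) =
      ((1, 0), (0, 0), (0, 0)) by decide] at h
    simpa [hΦ, k5val] using h
  have h2 : (w * w) ⋆ e2 = e2 := by
    have h := hΦw ((0, 0), (1, 0), (0, 0))
    rw [show (k5V ∘ k5U ∘ k5V ∘ k5U ∘ k5V) ((k5V ∘ k5U ∘ k5V ∘ k5U ∘ k5V) ((0, 0), (1, 0), (0, 0))) =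
      ((0, 0), (1, 0), (0, 0)) by decide] at h
    simpa [hΦ, k5val] using h
  have h3 : (w * w) ⋆ D = D + (3 * i) • e1 := by
    have h := hΦw ((0, 0), (0, 0), (1, 0))
    rw [show (k5V ∘ k5U ∘ k5V ∘ k5U ∘ k5V) ((k5V ∘ k5U ∘ k5V ∘ k5U ∘ k5V) ((0, 0), (0, 0), (1, 0))) =
      ((0, 3), (0, 0), (1, 0)) by decide] at h
    have e : k5val (F := F) i (0, 3) = 3 * i := by simpa using cv 0 3
    simp only [hΦ, e] at h
    simp [k5val] at h
    rw [h]; abel
  refine ext_mulVec fun x => ?_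
  show (w * w) ⋆ x = _
  obtain ⟨a, b, hx⟩ := R.exists_coords hf x
  have hE1 : (w * w) ⋆ E = E := by
    have h := congrArg (fun x => μ⁻¹ • x) h1
    simpa [he1, act_smul, smul_smul, inv_mul_cancel₀ hμ0] using h
  rw [hx, ← he2, act_add, act_add, act_smul, act_smul, act_smul, hE1, h2, h3, uT_mulVec, hf.add_left,
    hf.add_left, hf.smul_left, hf.smul_left, hf.smul_left, R.pair' hf, R.isoE hf,
    show f e2 E = 0 from R.form_nil_E hf D, he1]
  module

end Reg

end CfsgLib.SURegGen
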