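import Cfsg.Agent.SURegGen.Element
import Cfsg.Agent.SURegGen.Centres
import Cfsg.Agent.Classical.UnitCentresStd
import Cfsg.Agent.Classical.Unitary.RegularUnipotent

/-!
Passing between the special unitary group and isometries inside the general linear group.
-/

set_option autoImplicit false

namespace CfsgLib.SURegGen

open Matrix CfsgLib.TransvGL CfsgLib.UnitCentres

variable {F : Type*} [Field F] [Fintype F] {n q : ℕ}

/-- The inclusion of the special unitary group. -/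
def toG : ↥(Cfsg.SU n F q) →* GL (Fin n) F :=
  (Cfsg.GU n F q).subtype.comp CfsgLib.Unitary.suToGU

lemma toG_injective : Function.Injective (toG : ↥(Cfsg.SU n F q) → GL (Fin n) F) :=
  fun _ _ h => CfsgLib.Unitary.suToGU_injective (Subtype.ext h)

lemma exists_toG {g : GL (Fin n) F} (hg : Iso (Cfsg.hermForm n F q) g)
    (hdet : (g : Matrix (Fin n) (Fin n) F).det = 1) : ∃ A : ↥(Cfsg.SU n F q), toG A = g :=
  ⟨⟨⟨(g : Matrix (Fin n) (Fin n) F), hdet⟩, hg⟩, Units.ext rfl⟩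

/-- A subgroup with all centres is everything. -/
lemma eq_top_of_centres (hF : Fintype.card F = q ^ 2) (h32 : ¬ (n = 3 ∧ q = 2)) {σ : F ≃+* F}
    (hσ : ∀ x, σ x = x ^ q) (hf : Cfsg.Geo.IsUnitaryForm σ (Cfsg.hermForm n F q))
    (H : Subgroup ↥(Cfsg.SU n F q))
    (h : ∀ v, Cfsg.hermForm n F q v v = 0 → Centre hf (H.map toG) v) : H = ⊤ := by
  rw [eq_top_iff, ← CfsgLib.Unitary.transvGroup_eq_top hF h32, CfsgLib.Unitary.transvGroup, Subgroup.closure_le]
  rintro B ⟨v, c, hv, hB⟩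
  obtain ⟨c', hc', rfl, -⟩ := CfsgLib.Unitary.eq_transvSU_of_matrix_eq hF hv hB
  obtain ⟨hv', hM⟩ := h v hv
  obtain ⟨A, hA, hAe⟩ := Subgroup.mem_map.1 (hM c' (by rw [hσ]; exact hc'))
  have : A = CfsgLib.Unitary.transvSU hF v c' hv hc' := toG_injective (by
    rw [hAe]
    exact ext_mulVec fun x => (uT_mulVec hf hv' c' x).trans (CfsgLib.Unitary.sv_transvSU hF hv hc' x).symm)
  rwa [← this]

/-- A regular unipotent element of the special unitary group with a cyclic vector datum. -/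
lemma exists_regular_SU (hF : Fintype.card F = q ^ 2) {σ : F ≃+* F}
    (hf : Cfsg.Geo.IsUnitaryForm σ (Cfsg.hermForm n F q)) (hn : 3 ≤ n) :
    ∃ (u : ↥(Cfsg.SU n F q)) (E D : Fin n → F) (c : F),
      Reg (Cfsg.hermForm n F q) (toG u) E D c ∧
      IsNilpotent (((u : Matrix.SpecialLinearGroup (Fin n) F) : Matrix (Fin n) (Fin n) F) - 1) ∧
      (((u : Matrix.SpecialLinearGroup (Fin n) F) : Matrix (Fin n) (Fin n) F) - 1) ^ (n - 1) ≠ 0 := by
  obtain ⟨k, rfl⟩ : ∃ k, n = k + 1 := ⟨n - 1, by omega⟩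
  obtain ⟨u, hu, h0, hr, hd⟩ := CfsgLib.Unitary.exists_regular_unipotent_GU (k := k) hF
  have h1 := CfsgLib.Unitary.pow_ne_zero_of_rank h0 hr
  obtain ⟨A, rfl⟩ := exists_toG (q := q) (g := u) hu hd
  obtain ⟨E, D, c, R⟩ := exists_reg hf hn hu h0 (by rw [Nat.add_sub_cancel]; exact h1)
  exact ⟨A, E, D, c, R, ⟨k + 1, h0⟩, by rw [Nat.add_sub_cancel]; exact h1⟩

end CfsgLib.SURegGen
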