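import Cfsg.Agent.SURegGen.ThreeCommutator
import Cfsg.Agent.SURegGen.ThreeFive
import Cfsg.Agent.SURegGen.Centres
import Cfsg.Agent.SURegGen.Top

/-!
Two conjugate regular unipotent elements generate `SU_3(q)` for `q ≥ 3`.
-/

set_option autoImplicit false

namespace CfsgLib.SURegGen

open Matrix CfsgLib.TransvGL CfsgLib.UnitCentres

variable {F : Type*} [Field F] [Fintype F] {q : ℕ} {σ : F ≃+* F} {f : (Fin 3 → F) → (Fin 3 → F) → F}

local notation "V" => (Fin 3 → F)
local notation:70 g:71 " ⋆ " x:70 => act g x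

/-- An element of norm one of order `q + 1`. -/
lemma exists_norm_one_generator (hσ : ∀ x, σ x = x ^ q) (hF : Fintype.card F = q ^ 2) :
    ∃ ξ : F, ξ * σ ξ = 1 ∧ ∀ m : ℕ, ξ ^ m = 1 → q + 1 ∣ m := by
  classical
  obtain ⟨g, hg⟩ := IsCyclic.exists_generator (α := Fˣ)
  have hq := CfsgLib.Unitary.two_le_q hF
  have hord : orderOf g = (q - 1) * (q + 1) := by
    rw [orderOf_eq_card_of_forall_mem_zpowers hg, CfsgLib.Unitary.card_units_eq hF]
  refine ⟨((g ^ (q - 1) : Fˣ) : F), ?_, fun m hm => ?_⟩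
  · rw [hσ, ← Units.val_pow_eq_pow_val, ← Units.val_mul, ← pow_succ', ← pow_mul, ← hord,
      pow_orderOf_eq_one, Units.val_one]
  · rw [← Units.val_pow_eq_pow_val, ← pow_mul] at hm
    have h := orderOf_dvd_of_pow_eq_one (Units.ext hm : g ^ ((q - 1) * m) = 1)
    rw [hord] at h
    exact Nat.dvd_of_mul_dvd_mul_left (by omega) h

/-- The eighth-order field: the parameters. -/
lemma exists_params_eight (hσ : ∀ x, σ x = x ^ 8) (hF : Fintype.card F = 8 ^ 2) :
    ∃ p d : F, (2 : F) = 0 ∧ σ p = p ∧ p ^ 3 + p ^ 2 + 1 = 0 ∧ d ^ 2 + d = p ∧ σ d = d + 1 := by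
  have h2 : (2 : F) = 0 := by
    have h := FiniteField.cast_card_eq_zero F
    rw [hF] at h
    push_cast at h
    have h' : (2 : F) ^ 6 = 0 := by rw [← h]; norm_num
    exact pow_eq_zero_iff (by norm_num) |>.1 h'
  obtain ⟨g, hg⟩ := IsCyclic.exists_generator (α := Fˣ)
  have hord : orderOf g = 63 := by
    rw [orderOf_eq_card_of_forall_mem_zpowers hg, CfsgLib.Unitary.card_units_eq hF]
  have hθ : ∀ m : ℕ, ((g : F)) ^ m = 1 ↔ 63 ∣ m := fun m => by
    rw [← Units.val_pow_eq_pow_val, Units.val_eq_one, ← orderOf_dvd_iff_pow_eq_one, hord]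
  set z := (g : F) ^ 9 with hz
  set w := (g : F) ^ 21 with hw
  have hz7 : z ^ 7 = 1 := by rw [hz, ← pow_mul]; exact (hθ _).2 (by norm_num)
  have hw3 : w ^ 3 = 1 := by rw [hw, ← pow_mul]; exact (hθ _).2 (by norm_num)
  have hz1 : z ≠ 1 := fun h => by have := (hθ 9).1 h; omega
  have hw1 : w ≠ 1 := fun h => by have := (hθ 21).1 h; omega
  have hw2 : w ^ 2 + w + 1 = 0 := by
    refine mul_left_cancel₀ (sub_ne_zero.2 hw1) ?_
    linear_combination hw3
  have hz6 : z ^ 6 + z ^ 5 + z ^ 4 + z ^ 3 + z ^ 2 + z + 1 = 0 := by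
    refine mul_left_cancel₀ (sub_ne_zero.2 hz1) ?_
    linear_combination hz7
  obtain ⟨p, hp⟩ : ∃ p : F, p ^ 3 + p ^ 2 + 1 = 0 := by
    by_cases h : z ^ 3 + z ^ 2 + 1 = 0
    · exact ⟨z, h⟩
    · have h' : z ^ 3 + z + 1 = 0 := by
        refine mul_left_cancel₀ h ?_
        rw [mul_zero]
        linear_combination hz6 + z ^ 3 * h2
      have hz0 : z ≠ 0 := fun e => by rw [e] at h'; simp at h'
      refine ⟨z⁻¹, mul_left_cancel₀ (pow_ne_zero 3 hz0) ?_⟩
      field_simp
      linear_combination h'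
  have hp4 : p ^ 4 = p ^ 2 + p + 1 := by linear_combination (p - 1) * hp - p * h2
  have hp8 : p ^ 8 = p := by linear_combination (p ^ 5 - p ^ 4 + p ^ 3 - 2 * p ^ 2 + 3 * p - 4) * hp + (3 * p ^ 2 - 2 * p + 2) * h2 + (0 : F) * hp4
  refine ⟨p, p ^ 2 + w, h2, by rw [hσ, hp8], hp, ?_, ?_⟩
  · linear_combination hp4 + hw2 + (p ^ 2 + p ^ 2 * w) * h2
  · have e1 : (p ^ 2) ^ 8 = p ^ 2 := by rw [← pow_mul, show 2 * 8 = 8 * 2 from rfl, pow_mul, hp8]
    have e2 : w ^ 8 = w + 1 := by linear_combination (w ^ 5 + w ^ 2) * hw3 + hw2 - (w + 1) * h2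
    rw [map_add, hσ, hσ, e1, e2, add_assoc]

namespace Reg

variable {u : GL (Fin 3) F} {E D : Fin 3 → F} {c : F} (R : Reg f u E D c)
  (hf : Cfsg.Geo.IsUnitaryForm σ f)
include R hf

/-- Two conjugates give all centres. -/
theorem exists_two_conjugate (hσ : ∀ x, σ x = x ^ q) (hF : Fintype.card F = q ^ 2) (hq : 3 ≤ q)
    (hud : (u : Matrix (Fin 3) (Fin 3) F).det = 1) :
    ∃ g : GL (Fin 3) F, Iso f g ∧ (g : Matrix (Fin 3) (Fin 3) F).det = 1 ∧
      ∀ H : Subgroup (GL (Fin 3) F), u ∈ H → g * u * g⁻¹ ∈ H → ∀ x, f x x = 0 → Centre hf H x := by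
  suffices h : ∃ (D2 : V) (g : GL (Fin 3) F), Reg f u E D2 c ∧ Iso f g ∧
      (g : Matrix (Fin 3) (Fin 3) F).det = 1 ∧
      ∀ H : Subgroup (GL (Fin 3) F), u ∈ H → g * u * g⁻¹ ∈ H → Centre hf H E ∧ Centre hf H D2 by
    obtain ⟨D2, g, R2, hg, hd, hc⟩ := h
    refine ⟨g, hg, hd, fun H hu hv x hx => ?_⟩
    obtain ⟨hE, hD⟩ := hc H hu hv
    refine R2.all_centres hE hD (fun y hy => R2.trans_all hσ hF hq hu hE hD ⟨1, ?_⟩ hy) hx
    rw [pow_one, ← nilPart_mulVec]
    exact R2.mu_ne hf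
  have hdg : ∀ g : GL (Fin 3) F, ((g * u * g⁻¹ : GL (Fin 3) F) : Matrix (Fin 3) (Fin 3) F).det = 1 := by
    intro g
    rw [Units.val_mul, Units.val_mul, det_mul, det_mul, hud, mul_one, ← det_mul, ← Units.val_mul,
      mul_inv_cancel, Units.val_one, det_one]
  by_cases h8 : q = 8
  · subst h8
    obtain ⟨p, d, h2, hσp, hp, hd, hσd⟩ := exists_params_eight hσ hF
    have hneg : ∀ a : F, -a = a := fun a => by linear_combination -(a * h2)
    have hp0 : p ≠ 0 := fun e => by rw [e] at hp; simp at hp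
    have hd0 : d ≠ 0 := fun e => hp0 (by rw [← hd, e]; ring)
    have hd1 : d + 1 ≠ 0 := fun e => hp0 (by rw [← hd]; linear_combination d * e)
    set μ := f (nilPart u *ᵥ D) (nilPart u *ᵥ D) with hμ
    have hμ0 : μ ≠ 0 := R.mu_ne hf
    have hσμ : σ μ = μ := UnitCentres.norm_fixed hf _
    set ξ := (d + 1) / d with hξ
    have hξn : ξ * σ ξ = 1 := by
      rw [hξ, map_div₀, map_add, map_one, hσd, div_mul_div_comm, div_eq_one_iff_eq (mul_ne_zero hd0 hd1)]
      linear_combination (d + 1) * h2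
    have hξ1 : 1 + ξ ≠ 0 := by
      rw [hξ]
      refine fun e => one_ne_zero (α := F) ?_
      field_simp at e
      linear_combination e - d * h2
    set ρ := p / μ with hρ
    have hρs : ρ + σ ρ = 0 := by rw [hρ, map_div₀, hσp, hσμ]; linear_combination (p / μ) * h2
    obtain ⟨D2, g, α, R2, hμ2, hg, hd2, hα, hα0, hω, hvE, hvu, -⟩ := R.exists_twist_three hf hξn hξ1 hρs
    refine ⟨D2, g, R2, hg, hd2, fun H hu hv => ?_⟩
    have hT : uT hf (R2.isoE hf) μ = u * u := by
      refine ext_mulVec fun x => ?_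
      show _ = (u * u) ⋆ x
      obtain ⟨a, b, hx⟩ := R2.exists_coords hf x
      rw [uT_mulVec, act_mul, act_eq u x, act_add, act_eq u x, act_eq u (nilPart u *ᵥ x)]
      conv_rhs => rw [hx]
      rw [mulVec_add, mulVec_add, mulVec_smul, mulVec_smul, mulVec_smul, R.nil_E, smul_zero, add_zero,
        mulVec_add, mulVec_smul, mulVec_smul, R2.cube_D hf, smul_zero, add_zero, R2.sq_D hf, hμ2, ← hμ]
      conv_lhs => rw [hx]
      simp only [hf.add_left, hf.smul_left, R2.pair' hf, R2.isoE hf, R2.form_ND_E hf]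
      match_scalars
      · ring
      · linear_combination -(f x E) * h2
      · linear_combination (f x E * μ + a * μ) * h2
    refine R2.centres_of_semisimple (hf := hf) (H := H) (lam := μ) (α := α) (ρ := ρ) (κ := 1 + p)
      ((hg.mul R.iso).mul (UnitCentres.Iso.inv hg)) hu hv (by rw [hT]; exact H.mul_mem hu hu) hvE hvu hμ0
      (by rw [hσμ]; linear_combination μ * h2) hρs hα0 ?_ ?_ ?_
    · rw [hρ, mul_div_cancel₀ _ hμ0]; ring
    · have hN : α * σ α = 1 / (μ ^ 2 * p ^ 3) := by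
        have hα' : α = 1 / (μ * (d ^ 2 * (d + 1))) := by
          have h1ξ : 1 + ξ = 1 / d := by
            rw [hξ]
            field_simp
            linear_combination d * h2
          rw [hα, neg_div, hneg, h1ξ, hξ]
          field_simp
          exact div_self hμ0
        rw [hα', map_div₀, map_one, map_mul, map_mul, map_pow, map_add, map_one, hσμ, hσd, ← hd,
          show d + 1 + 1 = d by linear_combination h2]
        field_simp
      rw [hN, hρ]
      field_simp
      linear_combination (-p ^ 2 + p - 1) * hp + (p ^ 2 + 1) * h2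
    · refine fixed_generated hσ hF (by rw [map_pow, map_add, map_one, hσp]) fun k hk2 hk hkd e => ?_
      have : k = 2 := by
        have : k ≤ 2 := by nlinarith
        omega
      subst this
      have h1p : (1 + p) ^ 2 = 1 ∨ (1 + p) ^ 2 = 0 := by
        have : (1 + p) ^ 2 * ((1 + p) ^ 2 - 1) = 0 := by linear_combination e
        rcases mul_eq_zero.1 this with h | h
        · exact Or.inr h
        · exact Or.inl (sub_eq_zero.1 h)
      rcases h1p with h | h
      · exact hp0 (pow_eq_zero_iff two_ne_zero |>.1 (by linear_combination h - p * h2 : p ^ 2 = 0))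
      · have h' := pow_eq_zero_iff two_ne_zero |>.1 h
        exact one_ne_zero (α := F) (by linear_combination hp - p ^ 2 * h')
  by_cases h5 : q = 5
  · subst h5
    have hc5 : CharP F 5 := by
      obtain ⟨p, e, hp, hch, he, hpe⟩ := CfsgLib.Unitary.exists_char hF
      have h5p : (5 : ℕ).Prime := by norm_num
      have : p = 5 := (Nat.prime_dvd_prime_iff_eq hp h5p).1 (hpe ▸ dvd_pow_self p he.ne')
      exact this ▸ hch
    have h5' : (5 : F) = 0 := by exact_mod_cast CharP.cast_eq_zero F 5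
    have h20 : (2 : F) ≠ 0 := fun h => one_ne_zero (α := F) (by linear_combination h5' - 2 * h)
    obtain ⟨i, hi⟩ : ∃ i : F, i ^ 2 = 2 := by
      have hF2 : ringChar F ≠ 2 := by rw [ringChar.eq F 5]; norm_num
      have := (FiniteField.isSquare_iff hF2 h20).2 (by
        rw [hF]; norm_num; linear_combination 819 * h5')
      obtain ⟨i, hi⟩ := this
      exact ⟨i, by rw [hi, pow_two]⟩
    have hσi : σ i = -i := by
      rw [hσ]
      linear_combination (i ^ 3 + 2 * i) * hi + i * h5'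
    set μ := f (nilPart u *ᵥ D) (nilPart u *ᵥ D) with hμ
    have hμ0 : μ ≠ 0 := R.mu_ne hf
    have hσμ : σ μ = μ := UnitCentres.norm_fixed hf _
    have hξn : (3 - 2 * i) * σ (3 - 2 * i) = 1 := by
      rw [map_sub, map_mul, map_ofNat, map_ofNat, hσi]
      linear_combination -4 * hi
    have hξ1 : 1 + (3 - 2 * i) ≠ 0 := fun h => by
      have : (8 : F) = 0 := by linear_combination (4 + 2 * i) * h + 4 * hi
      exact one_ne_zero (α := F) (by linear_combination 2 * this - 3 * h5')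
    have hρs : 2 * i / μ + σ (2 * i / μ) = 0 := by
      rw [map_div₀, map_mul, map_ofNat, hσi, hσμ]; ring
    obtain ⟨D2, g, α, R2, hμ2, hg, hd2, hα, hα0, hω, hvE, hvu, hvD⟩ := R.exists_twist_three hf hξn hξ1 hρs
    refine ⟨D2, g, R2, hg, hd2, fun H hu hv => ?_⟩
    have hαμ : α * μ = 3 + i := by
      rw [hα, ← hμ]
      have h0 : (3 - 2 * i) ≠ 0 := fun h => by rw [h, zero_mul] at hξn; exact zero_ne_one hξn
      field_simp
      linear_combination (8 * i - 46) * hi + (-33 + 23 * i) * h5' + (0 : F) * hξn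
    have hT := R2.five_word hf hi hσi (hμ.trans hμ2.symm) hαμ hvE hvu hvD
    have hw : g * u * g⁻¹ * u * (g * u * g⁻¹) * u * (g * u * g⁻¹) ∈ H :=
      H.mul_mem (H.mul_mem (H.mul_mem (H.mul_mem hv hu) hv) hu) hv
    have hmem : uT hf (R2.isoE hf) (3 * i * μ) ∈ H := hT ▸ H.mul_mem hw hw
    have hi0 : i ≠ 0 := fun h => h20 (by rw [← hi, h]; ring)
    have h30 : (3 : F) ≠ 0 := fun h => one_ne_zero (α := F) (by linear_combination 2 * h - h5')
    have hcE : Centre hf H E := centre_of_stable hf (R2.isoE hf) (skVals hf H (R2.isoE hf))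
      (fun t ht => ht) (a := 3 * i * μ) (k := 1) (mul_ne_zero (mul_ne_zero h30 hi0) hμ0)
      (by rw [map_mul, map_mul, map_ofNat, hσi, hσμ]; ring) hmem (fun x hx => by rwa [one_mul])
      (fixed_generated hσ hF (map_one σ) fun k hk2 hk hkd => by
        have : k ≤ 2 := by nlinarith
        interval_cases k
        omega)
    refine ⟨hcE, ?_⟩
    have hvi : Iso f (g * u * g⁻¹) := (hg.mul R.iso).mul (UnitCentres.Iso.inv hg)
    have h := (hcE.image hv hvi).smul α⁻¹
    rwa [show ((g * u * g⁻¹ : GL (Fin 3) F) : Matrix (Fin 3) (Fin 3) F) *ᵥ E = α • D2 from hvE, smul_smul,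
      inv_mul_cancel₀ hα0, one_smul] at h
  obtain ⟨ξ, hξn, hord⟩ := exists_norm_one_generator hσ hF
  have hξ1 : 1 + ξ ≠ 0 := fun h => by
    have := Nat.le_of_dvd (by norm_num) (hord 2 (by linear_combination (ξ - 1) * h))
    omega
  obtain ⟨D2, g, α, R2, hμ2, hg, hd2, hα, hα0, hω, hvE, hvu, -⟩ :=
    R.exists_twist_three hf hξn hξ1 (ρ := 0) (by rw [map_zero, add_zero])
  refine ⟨D2, g, R2, hg, hd2, fun H hu hv => ?_⟩
  have hξ0 : ξ ≠ 0 := fun h => by rw [h, zero_mul] at hξn; exact zero_ne_one hξn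
  rw [hω, zero_smul, add_zero] at hvu
  refine R2.centres_of_monomial hf ((hg.mul R.iso).mul (UnitCentres.Iso.inv hg)) (hdg g) hud hu hv hvE hvu
    hξn hα0 (fun h => ?_) ?_
  · have h' := hord 6 h
    have := Nat.le_of_dvd (by norm_num) h'
    have hq5 : q ≤ 5 := by omega
    interval_cases q <;> omega
  have hσξ : σ ξ = ξ⁻¹ := eq_inv_of_mul_eq_one_right hξn
  refine fixed_generated hσ hF (by rw [map_add, map_inv₀, map_pow, hσξ, inv_pow, inv_inv, add_comm]) ?_
  intro k hk2 hk hkd e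
  obtain ⟨p, m, hp, hch, hm, hpe⟩ := CfsgLib.Unitary.exists_char hF
  haveI : Fact p.Prime := ⟨hp⟩
  obtain ⟨j, -, rfl⟩ := (Nat.dvd_prime_pow hp).1 (hpe ▸ hkd)
  set z := ξ ^ 3 with hz
  have hz0 : z ≠ 0 := pow_ne_zero _ hξ0
  rw [add_pow_char_pow, inv_pow] at e
  obtain ⟨l, hl⟩ : ∃ l, p ^ j = l + 1 := ⟨p ^ j - 1, by omega⟩
  rw [hl] at e
  have hfac : (z ^ l - 1) * (z ^ (l + 2) - 1) = 0 := by
    have hzl : z ^ (l + 1) ≠ 0 := pow_ne_zero _ hz0
    field_simp at e
    refine mul_left_cancel₀ hz0 ?_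
    linear_combination e
  have hdiv : q + 1 ∣ 3 * l ∨ q + 1 ∣ 3 * (l + 2) := by
    rcases mul_eq_zero.1 hfac with h | h
    · left; apply hord; rw [pow_mul, ← hz]; exact sub_eq_zero.1 h
    · right; apply hord; rw [pow_mul, ← hz]; exact sub_eq_zero.1 h
  rw [hl] at hk2 hk hkd
  have hl2 : l ≤ 2 := by
    rcases hdiv with h | h
    · have := Nat.le_of_dvd (by omega) h; nlinarith
    · have := Nat.le_of_dvd (by omega) h; nlinarith
  have hqb : q ≤ 11 := by
    rcases hdiv with h | h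
    · have := Nat.le_of_dvd (by omega) h; omega
    · have := Nat.le_of_dvd (by omega) h; omega
  interval_cases l <;> interval_cases q <;> omega

end Reg

end CfsgLib.SURegGen
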