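import Cfsg.Agent.SURegGen.Element

/-!
Conjugating elements from Witt's theorem: transvection multiples and twists.
-/

set_option autoImplicit false

namespace CfsgLib.SURegGen

open Matrix CfsgLib.TransvGL CfsgLib.UnitCentres

variable {n : ℕ} {F : Type*} [Field F] {σ : F ≃+* F} {f : (Fin n → F) → (Fin n → F) → F}

local notation "V" => (Fin n → F)
local notation "Mat" => Matrix (Fin n) (Fin n) F
local notation:70 g:71 " ⋆ " x:70 => act g x

namespace Reg

variable {u : GL (Fin n) F} {E D : Fin n → F} {c : F} (R : Reg f u E D c)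
  (hf : Cfsg.Geo.IsUnitaryForm σ f)
include R hf

lemma coeff_three {A A' A'' : F} (h : A • D + A' • (nilPart u *ᵥ D) + A'' • (nilPart u ^ 2 *ᵥ D) = 0) :
    A = 0 ∧ A' = 0 ∧ A'' = 0 := by
  have := R.three_le
  have hli := R.linearIndependent hf
  let e : Fin 3 → Fin n := fun i => ⟨(i : ℕ), by omega⟩
  have h3 := hli.comp e (fun i j hij => Fin.ext (Fin.mk.inj hij))
  rw [Fintype.linearIndependent_iff] at h3
  have h4 := h3 ![A, A', A''] (by simpa [e, Fin.sum_univ_three] using h)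
  exact ⟨h4 0, h4 1, h4 2⟩

/-- Conjugacy from equality of the invariants of the cyclic vectors. -/
theorem exists_conj {u' : GL (Fin n) F} {E' D' : Fin n → F} {c' : F} (R' : Reg f u' E' D' c')
    (h : ∀ k : ℕ, f D ((u ^ k) ⋆ D) = f D' ((u' ^ k) ⋆ D')) :
    ∃ g : GL (Fin n) F, Iso f g ∧ g * u * g⁻¹ = u' ∧
      ∀ i : ℕ, g ⋆ (nilPart u ^ i *ᵥ D) = nilPart u' ^ i *ᵥ D' := by
  have hG : ∀ i j : ℕ, f ((u ^ i) ⋆ D) ((u ^ j) ⋆ D) = f ((u' ^ i) ⋆ D') ((u' ^ j) ⋆ D') := by
    intro i j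
    rcases le_total i j with hij | hij
    · obtain ⟨k, rfl⟩ := Nat.exists_eq_add_of_le hij
      rw [pow_add, pow_add, act_mul, act_mul, form_act (R.iso_pow i), form_act (R'.iso_pow i), h]
    · obtain ⟨k, rfl⟩ := Nat.exists_eq_add_of_le hij
      rw [pow_add, pow_add, act_mul, act_mul, form_act (R.iso_pow j), form_act (R'.iso_pow j), hf.herm, h,
        ← hf.herm]
  have hpow : ∀ (v : GL (Fin n) F) (x : V) (i a : ℕ), nilPart v ^ (i + 1) *ᵥ ((v ^ a) ⋆ x) =
      nilPart v ^ i *ᵥ ((v ^ (a + 1)) ⋆ x) - nilPart v ^ i *ᵥ ((v ^ a) ⋆ x) := by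
    intro v x i a
    rw [pow_succ_mulVec', nilPart_mulVec, ← act_mul, ← pow_succ', mulVec_sub]
  have hN : ∀ i a j b : ℕ, f (nilPart u ^ i *ᵥ ((u ^ a) ⋆ D)) (nilPart u ^ j *ᵥ ((u ^ b) ⋆ D)) =
      f (nilPart u' ^ i *ᵥ ((u' ^ a) ⋆ D')) (nilPart u' ^ j *ᵥ ((u' ^ b) ⋆ D')) := by
    intro i
    induction i with
    | zero =>
      intro a j
      induction j generalizing a with
      | zero => intro b; simp only [pow_zero, one_mulVec]; exact hG a b
      | succ j ih =>
        intro b; rw [hpow, hpow, UnitCentres.sub_right hf, UnitCentres.sub_right hf, ih, ih]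
    | succ i ih =>
      intro a j b
      rw [hpow, hpow, UnitCentres.sub_left hf, UnitCentres.sub_left hf, ih, ih]
  obtain ⟨g, hg, hgD⟩ := CfsgLib.LinAlg.Witt.exists_unitary_family hf
    (R.linearIndependent hf) (R'.linearIndependent hf)
    (fun i j => by simpa [act_one] using hN i 0 j 0)
  have hgD' : ∀ i : ℕ, g ⋆ (nilPart u ^ i *ᵥ D) = nilPart u' ^ i *ᵥ D' := by
    intro i
    by_cases hi : i < n
    · exact hgD ⟨i, hi⟩
    · rw [R.pow_zero' (by omega), R'.pow_zero' (by omega), act, mulVec_zero]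
  refine ⟨g, hg, ?_, hgD'⟩
  rw [mul_inv_eq_iff_eq_mul]
  refine ext_mulVec fun x => ?_
  have hx : x ∈ Submodule.span F (Set.range fun i : Fin n => nilPart u ^ (i : ℕ) *ᵥ D) := by
    rw [R.span_eq_top hf]; trivial
  show (g * u) ⋆ x = (u' * g) ⋆ x
  induction hx using Submodule.span_induction with
  | mem x hx =>
    obtain ⟨i, rfl⟩ := hx
    rw [act_mul, act_mul, hgD', act_eq u, ← pow_succ_mulVec, act_add, hgD', hgD', act_eq u',
      ← pow_succ_mulVec]
  | zero => simp [act]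
  | add x y _ _ hx hy => rw [act_add, act_add, hx, hy]
  | smul r x _ hx => rw [act_smul, act_smul, hx]

/-- A map that is unitriangular along the powers of the nilpotent part has determinant one. -/
lemma det_eq_one_of_flag {g : GL (Fin n) F}
    (h : ∀ i : ℕ, ∃ y, g ⋆ (nilPart u ^ i *ᵥ D) - nilPart u ^ i *ᵥ D = nilPart u ^ (i + 1) *ᵥ y) :
    (g : Matrix (Fin n) (Fin n) F).det = 1 := by
  have step : ∀ (j : ℕ) (y : V), ∃ z, nilPart g *ᵥ (nilPart u ^ j *ᵥ y) = nilPart u ^ (j + 1) *ᵥ z := by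
    intro j y
    have hy : y ∈ Submodule.span F (Set.range fun i : Fin n => nilPart u ^ (i : ℕ) *ᵥ D) := by
      rw [R.span_eq_top hf]; trivial
    induction hy using Submodule.span_induction with
    | mem x hx =>
      obtain ⟨i, rfl⟩ := hx
      obtain ⟨z, hz⟩ := h (j + i)
      refine ⟨nilPart u ^ (i : ℕ) *ᵥ z, ?_⟩
      simp only [mulVec_mulVec, ← pow_add]
      rw [← mulVec_mulVec, nilPart_mulVec, hz, show j + 1 + (i : ℕ) = j + i + 1 by omega]
    | zero => exact ⟨0, by simp⟩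
    | add x y _ _ hx hy =>
      obtain ⟨a, ha⟩ := hx
      obtain ⟨b, hb⟩ := hy
      exact ⟨a + b, by rw [mulVec_add, mulVec_add, mulVec_add, ha, hb]⟩
    | smul r x _ hx =>
      obtain ⟨a, ha⟩ := hx
      exact ⟨r • a, by rw [mulVec_smul, mulVec_smul, mulVec_smul, ha]⟩
  have hpow : ∀ (j : ℕ) (x : V), ∃ z, nilPart g ^ j *ᵥ x = nilPart u ^ j *ᵥ z := by
    intro j
    induction j with
    | zero => exact fun x => ⟨x, by simp⟩
    | succ j ih =>
      intro x
      obtain ⟨y, hy⟩ := ih x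
      rw [pow_succ_mulVec, hy]
      exact step j y
  refine det_eq_one_of_nilpotent ⟨n, Matrix.ext_iff_mulVec.2 fun x => ?_⟩
  obtain ⟨z, hz⟩ := hpow n x
  rw [hz, R.nil, zero_mulVec, zero_mulVec]

/-- A transvection at `E` times `u` is conjugate to `u` by an element of determinant one. -/
theorem exists_conj_transvection {lam : F} (hl : lam + σ lam = 0) :
    ∃ h : GL (Fin n) F, Iso f h ∧ (h : Matrix (Fin n) (Fin n) F).det = 1 ∧
      h * u * h⁻¹ = uT hf (R.isoE hf) lam * u := by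
  set u' := uT hf (R.isoE hf) lam * u with hu'
  have hact : ∀ x, u' ⋆ x = u ⋆ x + (lam * f x E) • E := fun x => by
    rw [hu', act_mul, act, uT_mulVec, R.form_act_E hf]
  have hN1 : ∀ x, nilPart u' *ᵥ x = nilPart u *ᵥ x + (lam * f x E) • E := fun x => by
    rw [nilPart_mulVec, nilPart_mulVec, hact]; abel
  have hN2 : ∀ (j : ℕ) (x : V), nilPart u' ^ (j + 2) *ᵥ x = nilPart u ^ (j + 2) *ᵥ x := by
    intro j
    induction j with
    | zero =>
      intro x
      simp only [pow_succ_mulVec, pow_zero, one_mulVec, hN1, mulVec_add, mulVec_smul, R.nil_E,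
        hf.add_left, hf.smul_left, R.form_nil_E hf, R.isoE hf]
      simp
    | succ j ih =>
      intro x
      rw [pow_succ_mulVec, ih, hN1, show j + 2 = j + 1 + 1 from rfl, R.form_pow_E hf, mul_zero, zero_smul,
        add_zero, ← pow_succ_mulVec]
  have := R.three_le
  obtain ⟨m, hm⟩ : ∃ m, n = m + 3 := ⟨n - 3, by omega⟩
  have hiso : Iso f u' := (uT_iso hf (R.isoE hf) hl).mul R.iso
  obtain ⟨D', hED', hD', hk⟩ := R.exists_shift hf lam hl
  have hD'E : f D' E = 1 := by rw [hf.herm, hED', map_one]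
  have R' : Reg f u' E D' c := by
    refine ⟨R.three_le, hiso, ?_, ?_, hED', hD'⟩
    · refine Matrix.ext_iff_mulVec.2 fun x => ?_
      have e := hN2 (m + 1) x
      rw [show m + 1 + 2 = n by omega] at e
      rw [e, R.nil]
    · have e := hN2 m D'
      rw [show m + 2 = n - 1 by omega] at e
      rw [e]
      exact (R.change hf hED' hD').top
  have hpow : ∀ (k : ℕ) (x : V), (u' ^ k) ⋆ x = (u ^ k) ⋆ x + ((k : F) * lam * f x E) • E := by
    intro k
    induction k with
    | zero => intro x; simp [act_one]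
    | succ k ih =>
      intro x
      rw [pow_succ', act_mul, ih, hact, pow_succ', act_mul, act_add, act_smul, R.fix_E, hf.add_left,
        hf.smul_left, R.isoE hf, R.form_act_pow_E hf]
      push_cast
      module
  obtain ⟨g, hg, hgu, hgD⟩ := R.exists_conj hf R' fun k => by
    rw [hpow, UnitCentres.add_right hf, UnitCentres.smul_right hf, hD'E, hk, map_mul, map_mul, map_natCast,
      map_one]
    linear_combination -(k : F) * hl
  refine ⟨g, hg, R.det_eq_one_of_flag hf fun i => ?_, hgu⟩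
  obtain ⟨y, hy⟩ := R.exists_decomp hf D'
  rw [hD'E, one_smul] at hy
  rw [hgD]
  match i with
  | 0 => exact ⟨y, by rw [pow_zero, pow_zero, zero_add, pow_one, one_mulVec, one_mulVec, hy]; abel⟩
  | 1 =>
    refine ⟨y + (lam * c) • (nilPart u ^ m *ᵥ D), ?_⟩
    rw [pow_one, hN1, hD'E, hy, mulVec_add, mulVec_add, mulVec_smul, pow_one, mul_one,
      show (1 : ℕ) + 1 = 2 from rfl, mulVec_mulVec _ (nilPart u) (nilPart u), ← pow_two,
      mulVec_mulVec _ (nilPart u ^ 2), ← pow_add, show 2 + m = n - 1 by omega, R.top, smul_smul]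
    abel
  | j + 2 =>
    exact ⟨y, by rw [hN2, hy, mulVec_add, ← pow_succ_mulVec', show j + 2 + 1 = j + 3 from rfl]; abel⟩

/-- The twisting element. -/
theorem exists_twist {E' y : Fin n → F} {c' : F} (R' : Reg f u E' y c') {α ρ : F} (hα : α ≠ 0)
    (hy : f (u ⋆ y) y = α) (hρ : ρ + σ ρ = 0)
    (hδ : α ^ 2 * f D (u ⋆ D) = σ (f y ((u ^ 2) ⋆ y)) - ρ * (α / σ α)) :
    ∃ g : GL (Fin n) F, Iso f g ∧ g ⋆ y = E ∧ g ⋆ (u ⋆ y) = α • D ∧
      g ⋆ (u⁻¹ ⋆ y) = σ α • (u ⋆ D) - (ρ / α) • E := by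
  have hσα : σ α ≠ 0 := (map_ne_zero σ).2 hα
  have hyuy : f y (u ⋆ y) = σ α := by rw [hf.herm, hy]
  have hiy : f (u⁻¹ ⋆ y) y = σ α := by rw [form_act_left (UnitCentres.Iso.inv R.iso), inv_inv, hyuy]
  have hyi : f y (u⁻¹ ⋆ y) = α := by rw [hf.herm, hiy, hf.involutive]
  have hii : f (u⁻¹ ⋆ y) (u⁻¹ ⋆ y) = 0 := by rw [form_act (UnitCentres.Iso.inv R.iso), R'.isoD]
  have huu : f (u ⋆ y) (u ⋆ y) = 0 := by rw [form_act R.iso, R'.isoD]
  have huyi : f (u ⋆ y) (u⁻¹ ⋆ y) = σ (f y ((u ^ 2) ⋆ y)) := by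
    rw [form_act_right (UnitCentres.Iso.inv R.iso), inv_inv, ← act_mul, ← pow_two, ← hf.herm]
  set z := (σ α)⁻¹ • (u⁻¹ ⋆ y + (ρ / α) • y) with hz
  have hDD : f D D = 0 := R.isoD
  have hA : LinearIndependent F ![y, α⁻¹ • (u ⋆ y), z] := by
    rw [Fintype.linearIndependent_iff]
    intro a ha
    simp only [Fin.sum_univ_three, Matrix.cons_val_zero, Matrix.cons_val_one, Matrix.cons_val] at ha
    have h := congrArg (fun x => u ⋆ x) ha
    simp only [hz, act_add, act_smul, act_act_inv, act, mulVec_zero] at h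
    simp only [← act.eq_def] at h
    rw [act_eq u (u ⋆ y), act_eq u y] at h
    obtain ⟨h1, h2, h3⟩ := R'.coeff_three hf (A := a 0 + a 1 * α⁻¹ + a 2 * (σ α)⁻¹ * (1 + ρ / α))
      (A' := a 0 + 2 * (a 1 * α⁻¹) + a 2 * (σ α)⁻¹ * (ρ / α)) (A'' := a 1 * α⁻¹) (by
        rw [← h, pow_succ_mulVec, pow_one, mulVec_add]
        module)
    have ha1 : a 1 = 0 := by simpa [hα] using h3
    have ha2 : a 2 = 0 := by
      have e : a 2 * (σ α)⁻¹ = 0 := by rw [ha1] at h1 h2; linear_combination h1 - h2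
      simpa [hσα] using e
    intro i
    fin_cases i
    · simpa [ha1, ha2] using h2
    · exact ha1
    · exact ha2
  have hB : LinearIndependent F ![E, D, u ⋆ D] := by
    rw [Fintype.linearIndependent_iff]
    intro a ha
    simp only [Fin.sum_univ_three, Matrix.cons_val_zero, Matrix.cons_val_one, Matrix.cons_val] at ha
    rw [act_eq u D] at ha
    have h := congrArg (fun x => f x E) ha
    simp only [hf.add_left, hf.smul_left, R.isoE hf, R.pair' hf, R.form_nil_E hf,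
      UnitCentres.zero_left hf, mul_zero, zero_add, add_zero, mul_one] at h
    have h' := congrArg (fun x => nilPart u *ᵥ x) ha
    simp only [mulVec_add, mulVec_smul, mulVec_zero, R.nil_E, smul_zero, zero_add] at h'
    obtain ⟨-, -, h2⟩ := R.coeff_three hf (A := 0) (A' := a 1 + a 2) (A'' := a 2) (by
      rw [← h', pow_succ_mulVec, pow_one]; module)
    have ha1 : a 1 = 0 := by rw [h2, add_zero] at h; exact h
    rw [ha1, h2, zero_smul, zero_smul, add_zero, add_zero, smul_eq_zero] at ha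
    intro i
    fin_cases i
    · exact ha.resolve_right (R.E_ne hf)
    · exact ha1
    · exact h2
  have h1 : f y (α⁻¹ • (u ⋆ y)) = 1 := by
    rw [UnitCentres.smul_right hf, hyuy, map_inv₀, inv_mul_cancel₀ hσα]
  have h2 : f y z = 1 := by
    rw [hz, UnitCentres.smul_right hf, UnitCentres.add_right hf, UnitCentres.smul_right hf, hyi, R'.isoD,
      map_inv₀, hf.involutive, mul_zero, add_zero, inv_mul_cancel₀ hα]
  have h3 : f (α⁻¹ • (u ⋆ y)) z = f D (u ⋆ D) := by
    rw [hz, hf.smul_left, UnitCentres.smul_right hf, UnitCentres.add_right hf, UnitCentres.smul_right hf,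
      huyi, hy, map_inv₀, hf.involutive, map_div₀, eq_neg_of_add_eq_zero_right hρ]
    field_simp
    field_simp at hδ
    linear_combination -hδ
  have h4 : f z z = 0 := by
    rw [hz, hf.smul_left, UnitCentres.smul_right hf, hf.add_left, UnitCentres.add_right hf,
      UnitCentres.add_right hf, hf.smul_left, hf.smul_left, UnitCentres.smul_right hf,
      UnitCentres.smul_right hf, hii, hiy, hyi, R'.isoD, map_div₀, eq_neg_of_add_eq_zero_right hρ]
    field_simp
    ring
  obtain ⟨g, hg, hgi⟩ := CfsgLib.LinAlg.Witt.exists_unitary_family hf hA hB (fun i j => by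
    fin_cases i <;> fin_cases j <;>
      simp only [Fin.zero_eta, Fin.mk_one, Fin.reduceFinMk, Matrix.cons_val_zero, Matrix.cons_val_one,
        Matrix.cons_val]
    · rw [R'.isoD, R.isoE hf]
    · rw [h1, R.pair]
    · rw [h2, R.form_E_act hf, R.pair]
    · rw [hf.herm, h1, map_one, R.pair' hf]
    · rw [hf.smul_left, UnitCentres.smul_right hf, huu, R.isoD, mul_zero, mul_zero]
    · exact h3
    · rw [hf.herm, h2, map_one, R.form_act_E hf, R.pair' hf]
    · rw [hf.herm, h3, ← hf.herm]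
    · rw [h4, form_act R.iso, R.isoD])
  have g0 : g ⋆ y = E := hgi 0
  have g1 : g ⋆ (α⁻¹ • (u ⋆ y)) = D := hgi 1
  have g2 : g ⋆ z = u ⋆ D := hgi 2
  refine ⟨g, hg, g0, ?_, ?_⟩
  · rw [← g1, act_smul, smul_smul, mul_inv_cancel₀ hα, one_smul]
  · rw [← g2, hz, act_smul, smul_smul, mul_inv_cancel₀ hσα, one_smul, act_add, act_smul, g0, add_sub_cancel_right]

/-- The action of the conjugate. -/
lemma twist_act {g : GL (Fin n) F} {y : Fin n → F} {α ρ : F} (hα : α ≠ 0) (g0 : g ⋆ y = E)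
    (g1 : g ⋆ (u ⋆ y) = α • D) (g2 : g ⋆ (u⁻¹ ⋆ y) = σ α • (u ⋆ D) - (ρ / α) • E) :
    (g * u * g⁻¹) ⋆ E = α • D ∧
      (g * u * g⁻¹) ⋆ (u ⋆ ((g * u * g⁻¹) ⋆ E)) = (α / σ α) • (E + ρ • D) := by
  have hσα : σ α ≠ 0 := (map_ne_zero σ).2 hα
  have hv : ∀ x, (g * u * g⁻¹) ⋆ (g ⋆ x) = g ⋆ (u ⋆ x) := fun x => by
    rw [act_mul, act_mul, act_inv_act]
  have hE : (g * u * g⁻¹) ⋆ E = α • D := by rw [← g0, hv, g1]
  refine ⟨hE, ?_⟩
  have hinv : u ⋆ (u⁻¹ ⋆ y) = y := act_act_inv u y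
  have h3 : σ α • ((g * u * g⁻¹) ⋆ (u ⋆ D)) = E + ρ • D := by
    have h := hv (u⁻¹ ⋆ y)
    rw [g2, hinv, g0, act_sub, act_smul, act_smul, hE, smul_smul, div_mul_cancel₀ _ hα, sub_eq_iff_eq_add] at h
    exact h
  rw [hE, act_smul, act_smul, ← h3, smul_smul, div_mul_cancel₀ _ hσα]

end Reg

end CfsgLib.SURegGen
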