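import Cfsg.Agent.Classical.UnitCentres

/-!
Regular unipotent isometries of a unitary form through a cyclic isotropic vector.
-/

set_option autoImplicit false

namespace CfsgLib.SURegGen

open Matrix CfsgLib.TransvGL CfsgLib.UnitCentres

variable {n : ℕ} {F : Type*} [Field F] {σ : F ≃+* F} {f : (Fin n → F) → (Fin n → F) → F}

local notation "V" => (Fin n → F)
local notation "Mat" => Matrix (Fin n) (Fin n) F

/-- The action on vectors. -/
abbrev act (g : GL (Fin n) F) (x : Fin n → F) : Fin n → F := (g : Matrix (Fin n) (Fin n) F) *ᵥ x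

local notation:70 g:71 " ⋆ " x:70 => act g x

lemma act_mul (g h : GL (Fin n) F) (x : V) : (g * h) ⋆ x = g ⋆ (h ⋆ x) := by
  simp [act, Matrix.mulVec_mulVec]

lemma act_one (x : V) : (1 : GL (Fin n) F) ⋆ x = x := by simp [act]

lemma act_add (g : GL (Fin n) F) (x y : V) : g ⋆ (x + y) = g ⋆ x + g ⋆ y := mulVec_add _ _ _

lemma act_sub (g : GL (Fin n) F) (x y : V) : g ⋆ (x - y) = g ⋆ x - g ⋆ y := mulVec_sub _ _ _

lemma act_smul (g : GL (Fin n) F) (a : F) (x : V) : g ⋆ (a • x) = a • (g ⋆ x) := mulVec_smul _ _ _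

lemma act_inv_act (g : GL (Fin n) F) (x : V) : g⁻¹ ⋆ (g ⋆ x) = x := inv_mulVec_mulVec g x

lemma act_act_inv (g : GL (Fin n) F) (x : V) : g ⋆ (g⁻¹ ⋆ x) = x := mulVec_inv_mulVec g x

lemma form_act {g : GL (Fin n) F} (hg : Iso f g) (x y : V) : f (g ⋆ x) (g ⋆ y) = f x y := hg x y

lemma form_act_left {g : GL (Fin n) F} (hg : Iso f g) (x y : V) : f (g ⋆ x) y = f x (g⁻¹ ⋆ y) := by
  rw [← form_act hg x (g⁻¹ ⋆ y), act_act_inv]

lemma form_act_right {g : GL (Fin n) F} (hg : Iso f g) (x y : V) : f x (g ⋆ y) = f (g⁻¹ ⋆ x) y := by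
  rw [← form_act hg (g⁻¹ ⋆ x) y, act_act_inv]

/-- `u - 1`. -/
abbrev nilPart (u : GL (Fin n) F) : Matrix (Fin n) (Fin n) F := (u : Matrix (Fin n) (Fin n) F) - 1

lemma nilPart_mulVec (u : GL (Fin n) F) (x : V) : nilPart u *ᵥ x = u ⋆ x - x := by
  rw [sub_mulVec, one_mulVec]

lemma act_eq (u : GL (Fin n) F) (x : V) : u ⋆ x = x + nilPart u *ᵥ x := by
  rw [nilPart_mulVec]; abel

lemma pow_succ_mulVec (N : Mat) (j : ℕ) (x : V) : N ^ (j + 1) *ᵥ x = N *ᵥ (N ^ j *ᵥ x) := by
  rw [mulVec_mulVec, pow_succ']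

lemma pow_succ_mulVec' (N : Mat) (j : ℕ) (x : V) : N ^ (j + 1) *ᵥ x = N ^ j *ᵥ (N *ᵥ x) := by
  rw [mulVec_mulVec, pow_succ]

lemma commute_inv_nilPart (u : GL (Fin n) F) :
    Commute ((u⁻¹ : GL (Fin n) F) : Mat) (nilPart u) := by
  refine Commute.sub_right ?_ (Commute.one_right _)
  show _ * _ = _ * _
  rw [← Units.val_mul, ← Units.val_mul, inv_mul_cancel, mul_inv_cancel]

/-- A nilpotent perturbation of one has determinant one. -/
lemma det_eq_one_of_nilpotent {A : Mat} (h : IsNilpotent (A - 1)) : A.det = 1 := by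
  have h1 := (Matrix.isNilpotent_charpoly_sub_pow_of_isNilpotent h).eq_zero
  rw [sub_eq_zero, Fintype.card_fin] at h1
  have h2 := congrArg (Polynomial.eval (-1 : F)) h1
  rw [Matrix.eval_charpoly, Polynomial.eval_pow, Polynomial.eval_X] at h2
  have h3 : Matrix.scalar (Fin n) (-1 : F) - (A - 1) = -A := by
    rw [map_neg, map_one]; abel
  rw [h3, Matrix.det_neg, Fintype.card_fin] at h2
  exact mul_left_cancel₀ (pow_ne_zero _ (neg_ne_zero.2 one_ne_zero)) (by rw [h2, mul_one])

lemma linearIndependent_of_top {u : GL (Fin n) F} {D : Fin n → F} {d : ℕ}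
    (hd : nilPart u ^ d = 0) (hD : nilPart u ^ (d - 1) *ᵥ D ≠ 0) :
    LinearIndependent F (fun i : Fin d => nilPart u ^ (i : ℕ) *ᵥ D) := by
  rw [Fintype.linearIndependent_iff]
  intro x hx i
  induction hi : (i : ℕ) using Nat.strong_induction_on generalizing i with
  | _ k ih =>
    have h := congrArg (fun y => nilPart u ^ (d - 1 - (i : ℕ)) *ᵥ y) hx
    simp only [mulVec_sum, mulVec_smul, mulVec_mulVec, ← pow_add, mulVec_zero] at h
    rw [Finset.sum_eq_single i] at h
    · rw [show d - 1 - (i : ℕ) + (i : ℕ) = d - 1 by omega, smul_eq_zero] at h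
      exact h.resolve_right hD
    · intro j _ hj
      rcases lt_or_gt_of_ne (Fin.val_ne_iff.2 hj) with h' | h'
      · rw [ih (j : ℕ) (by omega) j rfl, zero_smul]
      · rw [show d - 1 - (i : ℕ) + (j : ℕ) = d + ((j : ℕ) - (i : ℕ) - 1) by omega, pow_add, hd, zero_mul,
          zero_mulVec, smul_zero]
    · simp

section Form

variable (hf : Cfsg.Geo.IsUnitaryForm σ f)
include hf

lemma form_nilPart_left {u : GL (Fin n) F} (hu : Iso f u) (x y : V) :
    f (nilPart u *ᵥ x) y = -f x (nilPart u *ᵥ (u⁻¹ ⋆ y)) := by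
  rw [nilPart_mulVec, nilPart_mulVec, UnitCentres.sub_left hf, form_act_left hu, act_act_inv,
    UnitCentres.sub_right hf]
  ring

/-- Powers of the nilpotent part are adjoint to each other up to a unit. -/
lemma form_pow_pow {u : GL (Fin n) F} (hu : Iso f u) {d : ℕ} (hd : nilPart u ^ d = 0) :
    ∀ (a b : ℕ), d ≤ a + b → ∀ x y : V, f (nilPart u ^ a *ᵥ x) (nilPart u ^ b *ᵥ y) = 0 := by
  intro a
  induction a with
  | zero =>
    intro b hb x y
    rw [show b = d + (b - d) by omega, pow_add, hd, zero_mul, zero_mulVec, UnitCentres.zero_right hf]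
  | succ a ih =>
    intro b hb x y
    rw [pow_succ_mulVec, form_nilPart_left hf hu]
    have e : nilPart u *ᵥ (u⁻¹ ⋆ (nilPart u ^ b *ᵥ y)) = nilPart u ^ (b + 1) *ᵥ (u⁻¹ ⋆ y) := by
      simp only [act, mulVec_mulVec, ((commute_inv_nilPart u).pow_right b).eq, pow_succ', mul_assoc]
    rw [e, ih (b + 1) (by omega), neg_zero]

/-- The basic relation of the defect. -/
lemma form_nilPart_defect {u : GL (Fin n) F} (hu : Iso f u) (x y : V) :
    f (nilPart u *ᵥ x) y + f x (nilPart u *ᵥ y) + f (nilPart u *ᵥ x) (nilPart u *ᵥ y) = 0 := by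
  have h := form_act hu x y
  rw [act_eq u x, act_eq u y, hf.add_left, UnitCentres.add_right hf, UnitCentres.add_right hf] at h
  linear_combination h

end Form

/-- A regular unipotent isometry with fixed vector `E` and cyclic isotropic vector `D`. -/
structure Reg (f : (Fin n → F) → (Fin n → F) → F) (u : GL (Fin n) F) (E D : Fin n → F) (c : F) : Prop where
  three_le : 3 ≤ n
  iso : Iso f u
  nil : nilPart u ^ n = 0
  top : E = c • (nilPart u ^ (n - 1) *ᵥ D)
  pair : f E D = 1
  isoD : f D D = 0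

namespace Reg

variable {u : GL (Fin n) F} {E D : Fin n → F} {c : F} (R : Reg f u E D c)
  (hf : Cfsg.Geo.IsUnitaryForm σ f)
include R

lemma nil_E : nilPart u *ᵥ E = 0 := by
  have := R.three_le
  rw [R.top, mulVec_smul, ← pow_succ_mulVec, show n - 1 + 1 = n by omega, R.nil, zero_mulVec, smul_zero]

lemma fix_E : u ⋆ E = E := by rw [act_eq, R.nil_E, add_zero]

lemma inv_fix_E : u⁻¹ ⋆ E = E := by
  conv_lhs => rw [← R.fix_E]
  rw [act_inv_act]

lemma act_pow_E (k : ℕ) : (u ^ k) ⋆ E = E := by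
  induction k with
  | zero => rw [pow_zero, act_one]
  | succ k ih => rw [pow_succ, act_mul, R.fix_E, ih]

lemma iso_pow (k : ℕ) : Iso f (u ^ k) := by
  induction k with
  | zero => intro x y; simp
  | succ k ih => rw [pow_succ]; exact ih.mul R.iso

/-- Powers vanish from `n` on. -/
lemma pow_zero' {j : ℕ} (hj : n ≤ j) (x : V) : nilPart u ^ j *ᵥ x = 0 := by
  rw [show j = n + (j - n) by omega, pow_add, R.nil, zero_mul, zero_mulVec]

include hf

lemma c_ne : c ≠ 0 := fun h => by
  have := R.pair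
  rw [R.top, h, zero_smul, UnitCentres.zero_left hf] at this
  exact zero_ne_one this

lemma top_ne : nilPart u ^ (n - 1) *ᵥ D ≠ 0 := fun h => by
  have := R.pair
  rw [R.top, h, smul_zero, UnitCentres.zero_left hf] at this
  exact zero_ne_one this

lemma E_ne : E ≠ 0 := by
  rw [R.top]; exact smul_ne_zero (R.c_ne hf) (R.top_ne hf)

lemma pair' : f D E = 1 := by rw [hf.herm, R.pair, map_one]

lemma form_act_E (x : V) : f (u ⋆ x) E = f x E := by
  conv_lhs => rw [← R.fix_E]
  rw [form_act R.iso]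

lemma form_act_inv_E (x : V) : f (u⁻¹ ⋆ x) E = f x E := by
  conv_lhs => rw [← R.inv_fix_E]
  rw [form_act (UnitCentres.Iso.inv R.iso)]

lemma form_act_pow_E (x : V) (k : ℕ) : f ((u ^ k) ⋆ x) E = f x E := by
  conv_lhs => rw [← R.act_pow_E k]
  rw [form_act (R.iso_pow k)]

lemma form_E_act (x : V) : f E (u ⋆ x) = f E x := by rw [hf.herm, R.form_act_E hf, ← hf.herm]

lemma form_E_act_pow (x : V) (k : ℕ) : f E ((u ^ k) ⋆ x) = f E x := by
  rw [hf.herm, R.form_act_pow_E hf, ← hf.herm]

lemma form_nil_E (x : V) : f (nilPart u *ᵥ x) E = 0 := by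
  rw [nilPart_mulVec, UnitCentres.sub_left hf, R.form_act_E hf, sub_self]

lemma form_pow_E (x : V) (j : ℕ) : f (nilPart u ^ (j + 1) *ᵥ x) E = 0 := by
  rw [pow_succ_mulVec, R.form_nil_E hf]

lemma isoE : f E E = 0 := by
  have := R.three_le
  rw [R.top, hf.smul_left, UnitCentres.smul_right hf, form_pow_pow hf R.iso R.nil _ _ (by omega)]
  ring

lemma linearIndependent : LinearIndependent F (fun i : Fin n => nilPart u ^ (i : ℕ) *ᵥ D) :=
  linearIndependent_of_top R.nil (R.top_ne hf)

lemma span_eq_top : Submodule.span F (Set.range fun i : Fin n => nilPart u ^ (i : ℕ) *ᵥ D) = ⊤ := by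
  have := R.three_le
  have : Nonempty (Fin n) := ⟨⟨0, by omega⟩⟩
  exact (R.linearIndependent hf).span_eq_top_of_card_eq_finrank (by simp)

/-- Every vector is a multiple of `D` modulo the image of the nilpotent part. -/
lemma exists_decomp (x : V) : ∃ y, x = f x E • D + nilPart u *ᵥ y := by
  suffices h : ∀ x ∈ Submodule.span F (Set.range fun i : Fin n => nilPart u ^ (i : ℕ) *ᵥ D),
      ∃ y, x = f x E • D + nilPart u *ᵥ y from h x (by rw [R.span_eq_top hf]; trivial)
  intro x hx
  induction hx using Submodule.span_induction with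
  | mem x hx =>
    obtain ⟨⟨i, hi⟩, rfl⟩ := hx
    cases i with
    | zero => exact ⟨0, by simp [R.pair' hf]⟩
    | succ j => exact ⟨nilPart u ^ j *ᵥ D, by simp only; rw [R.form_pow_E hf, zero_smul, zero_add, pow_succ_mulVec]⟩
  | zero => exact ⟨0, by simp [UnitCentres.zero_left hf]⟩
  | add x y _ _ hx hy =>
    obtain ⟨a, ha⟩ := hx
    obtain ⟨b, hb⟩ := hy
    refine ⟨a + b, ?_⟩
    rw [hf.add_left, add_smul, mulVec_add]
    nth_rewrite 1 [ha, hb]
    abel
  | smul r x _ hx =>
    obtain ⟨a, ha⟩ := hx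
    refine ⟨r • a, ?_⟩
    rw [hf.smul_left, mul_smul, mulVec_smul, ← smul_add, ← ha]

/-- Change of the cyclic vector. -/
lemma change {D' : V} (h : f E D' = 1) (h' : f D' D' = 0) : Reg f u E D' c := by
  refine ⟨R.three_le, R.iso, R.nil, ?_, h, h'⟩
  obtain ⟨y, hy⟩ := R.exists_decomp hf D'
  have := R.three_le
  rw [hy, show f D' E = 1 by rw [hf.herm, h, map_one], one_smul, mulVec_add, ← pow_succ_mulVec',
    R.pow_zero' (j := n - 1 + 1) (by omega), add_zero]
  exact R.top

/-- A vector with `N w = E`. -/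
lemma exists_w2 : ∃ w : V, nilPart u *ᵥ w = E ∧ f w E = 0 := by
  have := R.three_le
  refine ⟨c • (nilPart u ^ (n - 2) *ᵥ D), ?_, ?_⟩
  · rw [R.top, mulVec_smul, ← pow_succ_mulVec, show n - 2 + 1 = n - 1 by omega]
  · rw [hf.smul_left, show n - 2 = n - 3 + 1 by omega, R.form_pow_E hf, mul_zero]

/-- Isotropic correction along `E`. -/
lemma exists_iso_shift {x : V} (hx : f x E = 1) : ∃ s : F, f (x + s • E) (x + s • E) = 0 := by
  obtain ⟨a, ha⟩ := UnitCentres.exists_trace hf (r := -f x x)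
    (by rw [map_neg, UnitCentres.norm_fixed hf])
  refine ⟨a, ?_⟩
  rw [norm_add_smul hf, hx, R.isoE hf, show f E x = 1 by rw [hf.herm, hx, map_one]]
  linear_combination ha

/-- A change of `D` moving all invariants linearly. -/
lemma exists_shift (d : F) (hd : d + σ d = 0) :
    ∃ D' : V, f E D' = 1 ∧ f D' D' = 0 ∧
      ∀ k : ℕ, f D' ((u ^ k) ⋆ D') = f D ((u ^ k) ⋆ D) + (k : F) * d := by
  obtain ⟨w, hw, hwE⟩ := R.exists_w2 hf
  obtain ⟨a, ha⟩ := UnitCentres.exists_trace_one hf
  set t := -(d * a) with ht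
  have htd : σ t - t = d := by
    rw [ht, map_neg, map_mul]
    linear_combination d * ha - σ a * hd
  obtain ⟨s, hs⟩ := R.exists_iso_shift hf (x := D + t • w)
    (by rw [hf.add_left, hf.smul_left, hwE, R.pair' hf, mul_zero, add_zero])
  set x := t • w + s • E with hx
  have hxE : f x E = 0 := by
    rw [hx, hf.add_left, hf.smul_left, hf.smul_left, hwE, R.isoE hf, mul_zero, mul_zero, add_zero]
  have hEx : f E x = 0 := UnitCentres.orth_comm hf hxE
  have hD' : D + t • w + s • E = D + x := by rw [hx]; abel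
  rw [hD'] at hs
  refine ⟨D + x, by rw [UnitCentres.add_right hf, R.pair, hEx, add_zero], hs, fun k => ?_⟩
  have hact : ∀ k : ℕ, (u ^ k) ⋆ x = x + ((k : F) * t) • E := by
    intro k
    induction k with
    | zero => simp [act_one]
    | succ k ih =>
      rw [pow_succ', act_mul, ih, act_add, act_smul, R.fix_E, act_eq u x,
        show nilPart u *ᵥ x = t • E by
          rw [hx, mulVec_add, mulVec_smul, mulVec_smul, hw, R.nil_E, smul_zero, add_zero]]
      push_cast
      module
  have hxk : f x ((u ^ k) ⋆ D) = f x D - (k : F) * t := by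
    have h := form_act (R.iso_pow k) x D
    rw [hact, hf.add_left, hf.smul_left, R.form_E_act_pow hf, R.pair] at h
    linear_combination h
  clear_value x
  have h0 : f D x + f x D + f x x = 0 := by
    have h := hs
    simp only [hf.add_left, UnitCentres.add_right hf, R.isoD] at h
    linear_combination h
  have e : f (D + x) ((u ^ k) ⋆ D + (x + ((k : F) * t) • E)) =
      f D ((u ^ k) ⋆ D) + (f D x + σ ((k : F) * t)) + (f x ((u ^ k) ⋆ D) + f x x) := by
    simp only [hf.add_left, UnitCentres.add_right hf, UnitCentres.smul_right hf, R.pair' hf, hxE]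
    ring
  rw [act_add, hact, e, hxk, map_mul, map_natCast]
  linear_combination h0 + (k : F) * htd

end Reg

/-- Existence of a cyclic vector datum. -/
lemma exists_reg (hf : Cfsg.Geo.IsUnitaryForm σ f) [Finite F] {u : GL (Fin n) F} (hn : 3 ≤ n)
    (hu : Iso f u) (h0 : nilPart u ^ n = 0) (h1 : nilPart u ^ (n - 1) ≠ 0) :
    ∃ E D c, Reg f u E D c := by
  obtain ⟨D, hD⟩ : ∃ D : V, nilPart u ^ (n - 1) *ᵥ D ≠ 0 := by
    by_contra h
    push Not at h
    exact h1 (Matrix.ext_iff_mulVec.2 fun x => by rw [h x, zero_mulVec])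
  set T := nilPart u ^ (n - 1) *ᵥ D with hT
  have hTT : f T T = 0 := by rw [hT]; exact form_pow_pow hf hu h0 _ _ (by omega) D D
  have hTD : f T D ≠ 0 := by
    intro hc
    obtain ⟨-, y, hy⟩ := hf.nondegenerate T hD
    refine hy ?_
    have hli : LinearIndependent F (fun i : Fin n => nilPart u ^ (i : ℕ) *ᵥ D) :=
      linearIndependent_of_top h0 hD
    have : Nonempty (Fin n) := ⟨⟨0, by omega⟩⟩
    have htop := hli.span_eq_top_of_card_eq_finrank (by simp)
    have hyin : y ∈ Submodule.span F (Set.range fun i : Fin n => nilPart u ^ (i : ℕ) *ᵥ D) := by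
      rw [htop]; trivial
    clear hy
    induction hyin using Submodule.span_induction with
    | mem x hx =>
      obtain ⟨⟨i, hi⟩, rfl⟩ := hx
      cases i with
      | zero => simpa using hc
      | succ j => rw [hT]; exact form_pow_pow hf hu h0 _ _ (by simp; omega) _ _
    | zero => exact UnitCentres.zero_right hf _
    | add x y _ _ hx hy' => rw [UnitCentres.add_right hf, hx, hy', add_zero]
    | smul r x _ hx => rw [UnitCentres.smul_right hf, hx, mul_zero]
  set E := (f T D)⁻¹ • T with hE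
  have hED : f E D = 1 := by rw [hE, hf.smul_left, inv_mul_cancel₀ hTD]
  have hEE : f E E = 0 := by rw [hE, hf.smul_left, UnitCentres.smul_right hf, hTT, mul_zero, mul_zero]
  obtain ⟨t, ht⟩ := UnitCentres.exists_isotropic_shift hf hEE (d := D) (by rw [hED]; exact one_ne_zero)
  have hNT : nilPart u *ᵥ T = 0 := by
    rw [hT, ← pow_succ_mulVec, show n - 1 + 1 = n by omega, h0, zero_mulVec]
  refine ⟨E, D + t • E, (f T D)⁻¹, hn, hu, h0, ?_, ?_, ht⟩
  · have : nilPart u ^ (n - 1) *ᵥ E = 0 := by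
      rw [hE, mulVec_smul, show n - 1 = n - 2 + 1 by omega, pow_succ_mulVec', hNT, mulVec_zero, smul_zero]
    rw [mulVec_add, mulVec_smul, this, smul_zero, add_zero]
  · rw [UnitCentres.add_right hf, UnitCentres.smul_right hf, hEE, hED, mul_zero, add_zero]

end CfsgLib.SURegGen
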