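import Cfsg.Agent.SURegGen.Conj

/-!
Facts for odd dimension at least five: the middle norm, free invariants, determinant adjustment.
-/

set_option autoImplicit false

namespace CfsgLib.SURegGen

open Matrix CfsgLib.TransvGL CfsgLib.UnitCentres

variable {n : ℕ} {F : Type*} [Field F] {σ : F ≃+* F} {f : (Fin n → F) → (Fin n → F) → F}

local notation "V" => (Fin n → F)
local notation:70 g:71 " ⋆ " x:70 => act g x

/-- A quasi-reflection fixing three vectors corrects the determinant. -/
theorem exists_det_one [Finite F] (hf : Cfsg.Geo.IsUnitaryForm σ f) (hn : 5 ≤ n) {g : GL (Fin n) F}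
    (hg : Iso f g) (A : Fin 3 → Fin n → F) (x0 : Fin n → F)
    (hrad : ∀ a : Fin 3 → F, (∀ j, f (∑ i, a i • A i) (A j) = 0) → ∃ k : F, ∑ i, a i • A i = k • x0) :
    ∃ g' : GL (Fin n) F, Iso f g' ∧ (g' : Matrix (Fin n) (Fin n) F).det = 1 ∧
      ∀ y i, g ⋆ y = A i → g' ⋆ y = A i := by
  classical
  -- a unit vector orthogonal to the three vectors
  let L : V →ₗ[F] (Fin 3 → F) := LinearMap.pi fun i => upair hf (A i)
  have hker : ∀ x, x ∈ LinearMap.ker L ↔ ∀ i, f x (A i) = 0 := by
    intro x
    rw [LinearMap.mem_ker, funext_iff]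
    exact ⟨fun hx i => hx i, fun hx i => hx i⟩
  obtain ⟨w, hw, hww⟩ : ∃ w, (∀ i, f w (A i) = 0) ∧ f w w ≠ 0 := by
    by_contra hno
    push Not at hno
    have hle : LinearMap.ker L ≤ Submodule.span F {x0} := by
      intro x hx
      have hxS : x ∈ Submodule.span F (Set.range A) := by
        by_contra hxS
        obtain ⟨d, hd, hxd⟩ := exists_orth_sep hf hxS
        refine hxd (orth_of_isotropic hf (fun z hz => hno z ((hker z).1 hz)) hx ?_)
        exact (hker d).2 fun i => orth_comm hf (hd (A i) (Submodule.subset_span ⟨i, rfl⟩))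
      obtain ⟨a, rfl⟩ := Submodule.mem_span_range_iff_exists_fun F |>.1 hxS
      obtain ⟨k, hk⟩ := hrad a ((hker _).1 hx)
      rw [hk]
      exact Submodule.mem_span_singleton.2 ⟨k, rfl⟩
    have h1 := LinearMap.finrank_range_add_finrank_ker L
    have h2 : Module.finrank F (LinearMap.range L) ≤ 3 := (Submodule.finrank_le _).trans (by simp)
    have h3 : Module.finrank F V = n := by simp
    have h4 := Submodule.finrank_mono hle
    have h5 : Module.finrank F (Submodule.span F ({x0} : Set V)) ≤ 1 :=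
      (finrank_span_le_card _).trans (by simp)
    omega
  obtain ⟨a, ha⟩ := UnitCentres.exists_norm hf (r := (f w w)⁻¹) (by rw [map_inv₀, norm_fixed hf])
  set e := a • w with he
  have hee : f e e = 1 := by
    rw [he, hf.smul_left, UnitCentres.smul_right hf, ← mul_assoc, ha, inv_mul_cancel₀ hww]
  have heA : ∀ i, f (A i) e = 0 := fun i => by
    rw [he, UnitCentres.smul_right hf, orth_comm hf (hw i), mul_zero]
  clear_value e
  set d := (g : Matrix (Fin n) (Fin n) F).det with hd
  have hdn : d * σ d = 1 := det_norm hf hg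
  have hd0 : d ≠ 0 := fun h => by rw [h, zero_mul] at hdn; exact zero_ne_one hdn
  set Q := LinearMap.toMatrix' (LinearMap.transvection ((d⁻¹ - 1) • upair hf e) e) with hQ
  have hQdet : Q.det = d⁻¹ := by
    rw [hQ, LinearMap.det_toMatrix', LinearMap.transvection.det]
    simp [hee]
  have hQmul : ∀ x, Q *ᵥ x = x + ((d⁻¹ - 1) * f x e) • e := fun x => by
    rw [hQ, LinearMap.toMatrix'_mulVec, LinearMap.transvection.apply]; rfl
  set r : GL (Fin n) F := Matrix.GeneralLinearGroup.mkOfDetNeZero Q
    (by rw [hQdet]; exact inv_ne_zero hd0) with hr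
  have hrQ : (r : Matrix (Fin n) (Fin n) F) = Q := rfl
  refine ⟨r * g, Iso.mul ?_ hg, ?_, fun y i hy => ?_⟩
  · intro x y
    rw [hrQ, hQmul, hQmul, hf.add_left, add_right hf, add_right hf, hf.smul_left, hf.smul_left,
      smul_right hf, smul_right hf, hee, map_mul, map_sub, map_one, map_inv₀, ← hf.herm e y,
      eq_inv_of_mul_eq_one_right hdn, inv_inv]
    linear_combination (f x e * f e y) * (inv_mul_cancel₀ hd0)
  · rw [Units.val_mul, det_mul, hrQ, hQdet, ← hd, inv_mul_cancel₀ hd0]
  · rw [act_mul, hy, act, hrQ, hQmul, heA, mul_zero, zero_smul, add_zero]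

namespace Reg

variable {u : GL (Fin n) F} {E D : Fin n → F} {c : F} (R : Reg f u E D c)
  (hf : Cfsg.Geo.IsUnitaryForm σ f)
include R hf

lemma form_mid (h : ℕ) (hn : n = 2 * h + 1) : ∀ j, j ≤ h →
    f (nilPart u ^ (h + j) *ᵥ D) (nilPart u ^ (h - j) *ᵥ D) =
      (-1) ^ j * f (nilPart u ^ h *ᵥ D) (nilPart u ^ h *ᵥ D) := by
  intro j
  induction j with
  | zero => simp
  | succ j ih =>
    intro hj
    have h' := form_nilPart_defect hf R.iso (nilPart u ^ (h + j) *ᵥ D) (nilPart u ^ (h - (j + 1)) *ᵥ D)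
    rw [← pow_succ_mulVec, ← pow_succ_mulVec, show h + j + 1 = h + (j + 1) by omega,
      show h - (j + 1) + 1 = h - j by omega, ih (by omega),
      form_pow_pow hf R.iso R.nil (h + (j + 1)) (h - j) (by omega)] at h'
    linear_combination h'

/-- The middle norm. -/
lemma mid_ne (h : ℕ) (hn : n = 2 * h + 1) : f (nilPart u ^ h *ᵥ D) (nilPart u ^ h *ᵥ D) ≠ 0 := by
  intro h0
  have h1 := R.form_mid hf h hn h le_rfl
  rw [h0, mul_zero, Nat.sub_self, pow_zero, one_mulVec, show h + h = n - 1 by omega] at h1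
  have := R.pair
  rw [R.top, hf.smul_left, h1, mul_zero] at this
  exact zero_ne_one this

/-- Some translate of `D` by a power of `u` differs from it by an anisotropic vector. -/
lemma exists_aniso_power (h : ℕ) (hn : n = 2 * h + 1) :
    ∃ k : ℕ, f ((u ^ k) ⋆ D - D) ((u ^ k) ⋆ D - D) ≠ 0 := by
  by_contra hno
  push Not at hno
  suffices key : ∀ m, f (nilPart u ^ m *ᵥ D) (nilPart u ^ m *ᵥ D) = 0 ∧
      ∀ k : ℕ, f (nilPart u ^ m *ᵥ D) ((u ^ k) ⋆ (nilPart u ^ m *ᵥ D)) +
        σ (f (nilPart u ^ m *ᵥ D) ((u ^ k) ⋆ (nilPart u ^ m *ᵥ D))) = 0 from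
    R.mid_ne hf h hn (key h).1
  intro m
  induction m with
  | zero =>
    simp only [pow_zero, one_mulVec]
    refine ⟨R.isoD, fun k => ?_⟩
    have h1 := hno k
    rw [UnitCentres.sub_left hf, UnitCentres.sub_right hf, UnitCentres.sub_right hf, form_act (R.iso_pow k),
      R.isoD, hf.herm ((u ^ k) ⋆ D) D] at h1
    linear_combination -h1
  | succ m ih =>
    obtain ⟨h0, hk⟩ := ih
    set a := nilPart u ^ m *ᵥ D with ha
    have hNa : nilPart u ^ (m + 1) *ᵥ D = u ⋆ a - a := by rw [pow_succ_mulVec, ← ha, nilPart_mulVec]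
    rw [hNa]
    refine ⟨?_, fun k => ?_⟩
    · have h1 := hk 1
      rw [pow_one, ← hf.herm] at h1
      rw [UnitCentres.sub_left hf, UnitCentres.sub_right hf, UnitCentres.sub_right hf, form_act R.iso, h0]
      linear_combination -h1
    · cases k with
      | zero =>
        have h1 := hk 1
        rw [pow_one, ← hf.herm] at h1
        rw [pow_zero, act_one, norm_fixed hf, UnitCentres.sub_left hf, UnitCentres.sub_right hf,
          UnitCentres.sub_right hf, form_act R.iso, h0]
        linear_combination -2 * h1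
      | succ k =>
        have e : f (u ⋆ a - a) ((u ^ (k + 1)) ⋆ (u ⋆ a - a)) =
            2 * f a ((u ^ (k + 1)) ⋆ a) - f a ((u ^ k) ⋆ a) - f a ((u ^ (k + 2)) ⋆ a) := by
          rw [act_sub, ← act_mul, ← pow_succ, UnitCentres.sub_left hf, UnitCentres.sub_right hf,
            UnitCentres.sub_right hf]
          have e1 : f (u ⋆ a) ((u ^ (k + 2)) ⋆ a) = f a ((u ^ (k + 1)) ⋆ a) := by
            rw [pow_succ', act_mul, form_act R.iso]
          have e2 : f (u ⋆ a) ((u ^ (k + 1)) ⋆ a) = f a ((u ^ k) ⋆ a) := by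
            rw [pow_succ', act_mul, form_act R.iso]
          rw [e1, e2]
          ring
        rw [e, map_sub, map_sub, map_mul, map_ofNat]
        linear_combination 2 * hk (k + 1) - hk k - hk (k + 2)

/-- Any first invariant is attained. -/
lemma exists_delta (hn : 5 ≤ n) (τ : F) : ∃ D' : V, f E D' = 1 ∧ f D' D' = 0 ∧ f D' (u ⋆ D') = τ := by
  set w := c • (nilPart u ^ (n - 3) *ᵥ D) with hw
  set γ := f D (nilPart u *ᵥ w) with hγ
  have hwE : f w E = 0 := by
    rw [hw, hf.smul_left, show n - 3 = n - 4 + 1 by omega, R.form_pow_E hf, mul_zero]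
  have hNNw : nilPart u *ᵥ (nilPart u *ᵥ w) = E := by
    rw [hw, mulVec_smul, mulVec_smul, ← pow_succ_mulVec, ← pow_succ_mulVec,
      show n - 3 + 1 + 1 = n - 1 by omega, R.top]
  have hwNw : f w (nilPart u *ᵥ w) = 0 := by
    rw [hw, mulVec_smul, hf.smul_left, UnitCentres.smul_right hf, ← pow_succ_mulVec,
      form_pow_pow hf R.iso R.nil _ _ (by omega), mul_zero, mul_zero]
  set t := τ - f D (u ⋆ D) with ht
  clear_value w γ t
  obtain ⟨s, hs⟩ := R.exists_iso_shift hf (x := D + t • w)
    (by rw [hf.add_left, hf.smul_left, hwE, R.pair' hf, mul_zero, add_zero])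
  set x := t • w + s • E with hx
  have hxE : f x E = 0 := by
    rw [hx, hf.add_left, hf.smul_left, hf.smul_left, hwE, R.isoE hf, mul_zero, mul_zero, add_zero]
  have hEx : f E x = 0 := UnitCentres.orth_comm hf hxE
  have hxNw : f x (nilPart u *ᵥ w) = 0 := by
    rw [hx, hf.add_left, hf.smul_left, hf.smul_left, hwNw,
      UnitCentres.orth_comm hf (R.form_nil_E hf w), mul_zero, mul_zero, add_zero]
  rw [show D + t • w + s • E = D + x by rw [hx]; abel] at hs
  have hux : u ⋆ x = x + t • (nilPart u *ᵥ w) := by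
    rw [act_eq u x, hx, mulVec_add, mulVec_smul, mulVec_smul, R.nil_E, smul_zero, add_zero]
  clear_value x
  have R1 := R.change hf (D' := D + x) (by rw [UnitCentres.add_right hf, R.pair, hEx, add_zero]) hs
  have hNwuD : f (nilPart u *ᵥ w) (u ⋆ D) = σ γ - 1 := by
    have h := form_act R.iso (nilPart u *ᵥ w) D
    rw [act_eq u (nilPart u *ᵥ w), hNNw, hf.add_left, R.form_E_act hf, R.pair,
      hf.herm (nilPart u *ᵥ w) D, ← hγ] at h
    linear_combination h
  have hxuD : f x (u ⋆ D) = f x D - t * (σ γ - 1) := by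
    have h := form_act R.iso x D
    rw [hux, hf.add_left, hf.smul_left, hNwuD] at h
    linear_combination h
  have hδ : f (D + x) (u ⋆ (D + x)) = τ + (σ t * γ - t * σ γ) := by
    have h0 : f D x + f x D + f x x = 0 := by
      have h := hs
      simp only [hf.add_left, UnitCentres.add_right hf, R.isoD] at h
      linear_combination h
    rw [act_add, hux, hf.add_left, UnitCentres.add_right hf, UnitCentres.add_right hf,
      UnitCentres.add_right hf, UnitCentres.add_right hf, UnitCentres.smul_right hf,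
      UnitCentres.smul_right hf, hxuD, hxNw, ← hγ]
    linear_combination h0 + ht
  obtain ⟨D', hD', hD'', hk⟩ := R1.exists_shift hf (-(σ t * γ - t * σ γ)) (by
    rw [map_neg, map_sub, map_mul, map_mul, hf.involutive, hf.involutive]; ring)
  refine ⟨D', hD', hD'', ?_⟩
  have h1 := hk 1
  rw [pow_one, Nat.cast_one, one_mul, hδ] at h1
  rw [h1]
  ring

end Reg

end CfsgLib.SURegGen
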