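import Cfsg.Agent.SURegGen.Odd

/-!
The field with four elements: the vector used for twisting.
-/

set_option autoImplicit false

namespace CfsgLib.SURegGen

open Matrix CfsgLib.TransvGL CfsgLib.UnitCentres

variable {n : ℕ} {F : Type*} [Field F] {σ : F ≃+* F} {f : (Fin n → F) → (Fin n → F) → F}

local notation "V" => (Fin n → F)
local notation:70 g:71 " ⋆ " x:70 => act g x

/-- Four elements: basic facts. -/
lemma four_facts [Fintype F] (hσ : ∀ x, σ x = x ^ 2) (hF : Fintype.card F = 2 ^ 2) :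
    (2 : F) = 0 ∧ (∀ x : F, x ≠ 0 → x * σ x = 1) ∧ ∀ x : F, σ x = x → x = 0 ∨ x = 1 := by
  refine ⟨?_, fun x hx => ?_, fun x hx => ?_⟩
  · have h := FiniteField.cast_card_eq_zero F
    rw [hF] at h
    push_cast at h
    have h' : (2 : F) ^ 2 = 0 := by rw [← h]; norm_num
    exact pow_eq_zero_iff (by norm_num) |>.1 h'
  · have h := FiniteField.pow_card_sub_one_eq_one x hx
    rw [hF] at h
    rw [hσ, ← pow_succ']
    simpa using h
  · rw [hσ] at hx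
    rcases mul_eq_zero.1 (show x * (x - 1) = 0 by linear_combination hx) with h | h
    · exact Or.inl h
    · exact Or.inr (sub_eq_zero.1 h)

/-- The Gram relations of a vector whose nilpotent powers pair to zero from weight five on. -/
lemma gram_five (hf : Cfsg.Geo.IsUnitaryForm σ f) {u : GL (Fin n) F} (hu : Iso f u) (h2 : (2 : F) = 0)
    {y : Fin n → F}
    (h5 : ∀ a b : ℕ, 5 ≤ a + b → f (nilPart u ^ a *ᵥ y) (nilPart u ^ b *ᵥ y) = 0)
    (hmid : f (nilPart u ^ 2 *ᵥ y) (nilPart u ^ 2 *ᵥ y) = 1) :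
    f (nilPart u ^ 3 *ᵥ y) (nilPart u ^ 1 *ᵥ y) = 1 ∧ f (nilPart u ^ 4 *ᵥ y) y = 1 ∧
    f (nilPart u ^ 1 *ᵥ y) (nilPart u ^ 2 *ᵥ y) + f (nilPart u ^ 2 *ᵥ y) (nilPart u ^ 1 *ᵥ y) = 1 ∧
    f (nilPart u ^ 3 *ᵥ y) y = f (nilPart u ^ 1 *ᵥ y) (nilPart u ^ 2 *ᵥ y) ∧
    f (nilPart u ^ 2 *ᵥ y) y + f (nilPart u ^ 1 *ᵥ y) (nilPart u ^ 1 *ᵥ y) +
      f (nilPart u ^ 2 *ᵥ y) (nilPart u ^ 1 *ᵥ y) = 0 ∧
    f (nilPart u ^ 1 *ᵥ y) y + f y (nilPart u ^ 1 *ᵥ y) +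
      f (nilPart u ^ 1 *ᵥ y) (nilPart u ^ 1 *ᵥ y) = 0 := by
  have D0 : ∀ a b : ℕ, f (nilPart u ^ (a + 1) *ᵥ y) (nilPart u ^ b *ᵥ y) +
      f (nilPart u ^ a *ᵥ y) (nilPart u ^ (b + 1) *ᵥ y) +
      f (nilPart u ^ (a + 1) *ᵥ y) (nilPart u ^ (b + 1) *ᵥ y) = 0 := by
    intro a b
    rw [pow_succ_mulVec, pow_succ_mulVec]
    exact form_nilPart_defect hf hu _ _
  have d21 := D0 2 1
  have d30 := D0 3 0
  have d11 := D0 1 1
  have d20 := D0 2 0
  have d10 := D0 1 0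
  have d00 := D0 0 0
  norm_num only at d21 d30 d11 d20 d10 d00
  simp only [pow_zero, one_mulVec] at d30 d20 d10 d00
  rw [h5 3 2 (by norm_num), hmid] at d21
  rw [h5 4 1 (by norm_num)] at d30
  rw [hmid] at d11
  refine ⟨?_, ?_, ?_, ?_, ?_, ?_⟩
  · linear_combination d21 - h2
  · linear_combination d30 - d21 + (0 : F) * h2
  · linear_combination d11 - h2
  · linear_combination d20 - d11 - d21 + h2
  · linear_combination d10
  · linear_combination d00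

namespace Reg

variable {u : GL (Fin n) F} {E D : Fin n → F} {c : F} (R : Reg f u E D c)
  (hf : Cfsg.Geo.IsUnitaryForm σ f)
include R hf

/-- An isotropic vector `y` with `f y (u y) = 1`, `f y (u³ y) = 0` and suitable independence. -/
theorem exists_witness_two [Fintype F] (hσ : ∀ x, σ x = x ^ 2) (hF : Fintype.card F = 2 ^ 2) {h : ℕ}
    (hn : n = 2 * h + 1) (hh : 2 ≤ h) :
    ∃ (y : V) (r : F), r + σ r = 1 ∧ f y y = 0 ∧ f y (u ⋆ y) = 1 ∧ f y (u ⋆ (u ⋆ (u ⋆ y))) = 0 ∧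
      f (u ⋆ y) (u ⋆ (u ⋆ (u ⋆ y))) = r ∧
      LinearIndependent F ![y, u ⋆ y, u ⋆ (u ⋆ (u ⋆ y))] := by
  obtain ⟨h2, hN, hfix⟩ := four_facts hσ hF
  have h5 : ∀ (a b : ℕ) (A B : V), 5 ≤ a + b →
      f (nilPart u ^ a *ᵥ (nilPart u ^ (h - 2) *ᵥ A)) (nilPart u ^ b *ᵥ (nilPart u ^ (h - 2) *ᵥ B)) = 0 := by
    intro a b A B hab
    simp only [mulVec_mulVec, ← pow_add]
    exact form_pow_pow hf R.iso R.nil _ _ (by omega) A B
  have hmid0 : ∀ A : V, f (nilPart u ^ h *ᵥ A) (nilPart u ^ h *ᵥ A) ≠ 0 →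
      f (nilPart u ^ 2 *ᵥ (nilPart u ^ (h - 2) *ᵥ A)) (nilPart u ^ 2 *ᵥ (nilPart u ^ (h - 2) *ᵥ A)) = 1 := by
    intro A hA
    rw [mulVec_mulVec, ← pow_add, show 2 + (h - 2) = h by omega]
    exact (hfix _ (norm_fixed hf _)).resolve_left hA
  set y0 := nilPart u ^ (h - 2) *ᵥ D with hy0
  obtain ⟨g31, g40, g12, g30, g20, g10⟩ := gram_five hf R.iso h2 (y := y0) (fun a b hab => h5 a b D D hab)
    (hmid0 D (R.mid_ne hf h hn))
  set r0 := f (nilPart u ^ 1 *ᵥ y0) (nilPart u ^ 2 *ᵥ y0) with hr0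
  rw [hf.herm (nilPart u ^ 2 *ᵥ y0) (nilPart u ^ 1 *ᵥ y0)] at g12
  -- the coefficients
  set d := 1 - f y0 (nilPart u ^ 1 *ᵥ y0) with hd
  obtain ⟨b, hb⟩ := UnitCentres.exists_trace hf (r := d + σ d) (by rw [map_add, hf.involutive, add_comm])
  obtain ⟨c', hc⟩ := UnitCentres.exists_trace hf (r := d - (d + σ d) * σ r0) (by
    rw [map_sub, map_mul, map_add, hf.involutive, hf.involutive]
    linear_combination -(d + σ d) * g12 + (σ d + (-1 - σ d + σ d * σ r0 + f y0 (nilPart u ^ 1 *ᵥ y0) -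
      f y0 (nilPart u ^ 1 *ᵥ y0) * σ r0 + σ r0)) * h2)
  obtain ⟨e, he⟩ := UnitCentres.exists_trace hf
    (r := f (y0 + b • (nilPart u ^ 2 *ᵥ y0) + c' • (nilPart u ^ 3 *ᵥ y0))
      (y0 + b • (nilPart u ^ 2 *ᵥ y0) + c' • (nilPart u ^ 3 *ᵥ y0))) (norm_fixed hf _)
  set D' := D + b • (nilPart u ^ 2 *ᵥ D) + c' • (nilPart u ^ 3 *ᵥ D) + e • (nilPart u ^ 4 *ᵥ D) with hD'
  set y := nilPart u ^ (h - 2) *ᵥ D' with hy
  have hyy0 : y = y0 + b • (nilPart u ^ 2 *ᵥ y0) + c' • (nilPart u ^ 3 *ᵥ y0) + e • (nilPart u ^ 4 *ᵥ y0) := by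
    simp only [hy, hD', hy0, mulVec_add, mulVec_smul, mulVec_mulVec, ← pow_add, add_comm (h - 2)]
  have hy5 : ∀ a b : ℕ, 5 ≤ a + b → f (nilPart u ^ a *ᵥ y) (nilPart u ^ b *ᵥ y) = 0 :=
    fun a b hab => h5 a b D' D' hab
  have z5 : ∀ a b : ℕ, 5 ≤ a + b → f (nilPart u ^ a *ᵥ y0) (nilPart u ^ b *ᵥ y0) = 0 :=
    fun a b hab => h5 a b D D hab
  have z0 : ∀ a : ℕ, 5 ≤ a → f (nilPart u ^ a *ᵥ y0) y0 = 0 ∧ f y0 (nilPart u ^ a *ᵥ y0) = 0 := fun a ha =>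
    ⟨by simpa using z5 a 0 (by omega), by simpa using z5 0 a (by omega)⟩
  have g13 : f (nilPart u ^ 1 *ᵥ y0) (nilPart u ^ 3 *ᵥ y0) = 1 := by rw [hf.herm, g31, map_one]
  have g04 : f y0 (nilPart u ^ 4 *ᵥ y0) = 1 := by rw [hf.herm, g40, map_one]
  have g03 : f y0 (nilPart u ^ 3 *ᵥ y0) = σ r0 := by rw [hf.herm, g30]
  have g21 : f (nilPart u ^ 2 *ᵥ y0) (nilPart u ^ 1 *ᵥ y0) = σ r0 := by rw [hf.herm, hr0]
  have hmy : f (nilPart u ^ 2 *ᵥ y) (nilPart u ^ 2 *ᵥ y) = 1 := by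
    rw [hyy0]
    simp only [mulVec_add, mulVec_smul, mulVec_mulVec, ← pow_add]
    simp only [hf.add_left, hf.smul_left, UnitCentres.add_right hf, UnitCentres.smul_right hf,
      z5 2 (2 + 2) (by norm_num), z5 2 (2 + 3) (by norm_num), z5 2 (2 + 4) (by norm_num),
      z5 (2 + 2) 2 (by norm_num), z5 (2 + 2) (2 + 2) (by norm_num), z5 (2 + 2) (2 + 3) (by norm_num),
      z5 (2 + 2) (2 + 4) (by norm_num), z5 (2 + 3) 2 (by norm_num), z5 (2 + 3) (2 + 2) (by norm_num),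
      z5 (2 + 3) (2 + 3) (by norm_num), z5 (2 + 3) (2 + 4) (by norm_num), z5 (2 + 4) 2 (by norm_num),
      z5 (2 + 4) (2 + 2) (by norm_num), z5 (2 + 4) (2 + 3) (by norm_num), z5 (2 + 4) (2 + 4) (by norm_num)]
    rw [show f (nilPart u ^ 2 *ᵥ y0) (nilPart u ^ 2 *ᵥ y0) = 1 from hmid0 D (R.mid_ne hf h hn)]
    ring
  have hyN : f y (nilPart u ^ 1 *ᵥ y) = 1 := by
    rw [hyy0]
    simp only [mulVec_add, mulVec_smul, mulVec_mulVec, ← pow_add]
    simp only [hf.add_left, hf.smul_left, UnitCentres.add_right hf, UnitCentres.smul_right hf,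
      g21, g31, show (1 : ℕ) + 2 = 3 from rfl, show (1 : ℕ) + 3 = 4 from rfl, show (1 : ℕ) + 4 = 5 from rfl,
      g03, g04, (z0 5 le_rfl).2, z5 2 3 (by norm_num), z5 2 4 (by norm_num), z5 2 5 (by norm_num),
      z5 3 3 (by norm_num), z5 3 4 (by norm_num), z5 3 5 (by norm_num), z5 4 1 (by norm_num),
      z5 4 3 (by norm_num), z5 4 4 (by norm_num), z5 4 5 (by norm_num)]
    linear_combination (σ r0) * hb + hc + hd
  have hyy : f y y = 0 := by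
    rw [hyy0]
    rw [norm_add_smul hf, z5 4 4 (by norm_num)]
    simp only [hf.add_left, hf.smul_left, UnitCentres.add_right hf, UnitCentres.smul_right hf,
      g04, g40, z5 2 4 (by norm_num), z5 3 4 (by norm_num), z5 4 2 (by norm_num), z5 4 3 (by norm_num)] at he ⊢
    linear_combination -he + (e + σ e) * h2
  obtain ⟨m31, m40, m12, m30, m20, m10⟩ := gram_five hf R.iso h2 hy5 hmy
  clear_value y
  set r := f (nilPart u ^ 1 *ᵥ y) (nilPart u ^ 2 *ᵥ y) with hr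
  rw [hf.herm (nilPart u ^ 2 *ᵥ y) (nilPart u ^ 1 *ᵥ y)] at m12
  have m21 : f (nilPart u ^ 2 *ᵥ y) (nilPart u ^ 1 *ᵥ y) = σ r := by rw [hf.herm]
  have hNy : f (nilPart u ^ 1 *ᵥ y) y = 1 := by rw [hf.herm, hyN, map_one]
  have h11 : f (nilPart u ^ 1 *ᵥ y) (nilPart u ^ 1 *ᵥ y) = 0 := by linear_combination m10 - hNy - hyN - h2
  have m02 : f y (nilPart u ^ 2 *ᵥ y) = r := by
    rw [hf.herm, show f (nilPart u ^ 2 *ᵥ y) y = σ r by
      linear_combination m20 - h11 - m21 - σ r * h2, hf.involutive]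
  have m03 : f y (nilPart u ^ 3 *ᵥ y) = σ r := by rw [hf.herm, m30]
  have m04 : f y (nilPart u ^ 4 *ᵥ y) = 1 := by rw [hf.herm, m40, map_one]
  have m13 : f (nilPart u ^ 1 *ᵥ y) (nilPart u ^ 3 *ᵥ y) = 1 := by rw [hf.herm, m31, map_one]
  have hu1 : u ⋆ y = y + nilPart u ^ 1 *ᵥ y := by rw [pow_one]; exact act_eq u y
  have hu3 : u ⋆ (u ⋆ (u ⋆ y)) =
      y + nilPart u ^ 1 *ᵥ y + nilPart u ^ 2 *ᵥ y + nilPart u ^ 3 *ᵥ y := by
    have e : u ⋆ (u ⋆ (u ⋆ y)) = (1 : F) • y + (3 : F) • (nilPart u ^ 1 *ᵥ y) +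
        (3 : F) • (nilPart u ^ 2 *ᵥ y) + nilPart u ^ 3 *ᵥ y := by
      simp only [act_eq u, mulVec_add, pow_succ_mulVec, pow_zero, one_mulVec]
      module
    rw [e, show (3 : F) = 1 by linear_combination h2, one_smul, one_smul, one_smul]
  have f1 : f y (u ⋆ y) = 1 := by rw [hu1, UnitCentres.add_right hf, hyy, hyN, zero_add]
  have f3 : f y (u ⋆ (u ⋆ (u ⋆ y))) = 0 := by
    rw [hu3, UnitCentres.add_right hf, UnitCentres.add_right hf, UnitCentres.add_right hf, hyy, hyN, m02, m03]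
    linear_combination m12 + h2
  have f13 : f (u ⋆ y) (u ⋆ (u ⋆ (u ⋆ y))) = r := by
    have f3' := f3
    rw [hu3] at f3' ⊢
    rw [hu1, hf.add_left, f3', UnitCentres.add_right hf, UnitCentres.add_right hf, UnitCentres.add_right hf, hNy, h11, m13,
      ← hr]
    linear_combination h2
  have hr1 : σ r - 1 ≠ 0 := fun e' => by
    have h' := congrArg σ e'
    rw [map_sub, hf.involutive, map_one, map_zero] at h'
    exact one_ne_zero (α := F) (by linear_combination m12 - e' - h')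
  refine ⟨y, r, m12, hyy, f1, f3, f13, ?_⟩
  rw [Fintype.linearIndependent_iff]
  intro a ha
  simp only [Fin.sum_univ_three, Matrix.cons_val_zero, Matrix.cons_val_one, Matrix.cons_val] at ha
  have k0 := congrArg (fun x => f x y) ha
  have k4 := congrArg (fun x => f x (nilPart u ^ 4 *ᵥ y)) ha
  have k1 := congrArg (fun x => f x (u ⋆ y)) ha
  simp only [hf.add_left, hf.smul_left, UnitCentres.zero_left hf, hyy, f1,
    show f (u ⋆ y) y = 1 by rw [hf.herm, f1, map_one],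
    show f (u ⋆ (u ⋆ (u ⋆ y))) y = 0 from orth_comm hf f3,
    show f (u ⋆ y) (u ⋆ y) = 0 by rw [form_act R.iso, hyy],
    show f (u ⋆ (u ⋆ (u ⋆ y))) (u ⋆ y) = σ r by rw [hf.herm, f13],
    show f (u ⋆ y) (nilPart u ^ 4 *ᵥ y) = 1 by
      rw [hu1, hf.add_left, m04, hy5 1 4 (by norm_num), add_zero],
    show f (u ⋆ (u ⋆ (u ⋆ y))) (nilPart u ^ 4 *ᵥ y) = 1 by
      rw [hu3, hf.add_left, hf.add_left, hf.add_left, m04, hy5 1 4 (by norm_num), hy5 2 4 (by norm_num),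
        hy5 3 4 (by norm_num)]; ring,
    m04] at k0 k1 k4
  have e2 : a 2 = 0 := by
    refine (mul_eq_zero.1 (show a 2 * (σ r - 1) = 0 by linear_combination k1 - k4 + k0)).resolve_right hr1
  intro i
  fin_cases i
  · simp only [e2, zero_mul, mul_zero, add_zero, mul_one, zero_add] at k1
    simpa using k1
  · simpa [e2] using k0
  · exact e2

end Reg

end CfsgLib.SURegGen
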