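import Cfsg.Agent.SURegGen.ThreeTwist
import Cfsg.Agent.SURegGen.Full

/-!
Dimension three: transvections from commutators with the stabiliser of the fixed line.
-/

set_option autoImplicit false

namespace CfsgLib.SURegGen

open Matrix CfsgLib.TransvGL CfsgLib.UnitCentres

variable {F : Type*} [Field F] {σ : F ≃+* F} {f : (Fin 3 → F) → (Fin 3 → F) → F}

local notation "V" => (Fin 3 → F)
local notation:70 g:71 " ⋆ " x:70 => act g x

namespace Reg

variable {u : GL (Fin 3) F} {E D : Fin 3 → F} {c : F} (R : Reg f u E D c)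
  (hf : Cfsg.Geo.IsUnitaryForm σ f)
include R hf

lemma form_ND_E : f (nilPart u *ᵥ D) E = 0 := R.form_nil_E hf D

/-- A unitriangular isometry commutes with `u` up to a transvection. -/
lemma commutator_eq {w : GL (Fin 3) F} {a b e : F} (hw : Iso f w) (hwE : w ⋆ E = E)
    (hwN : w ⋆ (nilPart u *ᵥ D) = nilPart u *ᵥ D + e • E)
    (hwD : w ⋆ D = D + a • (nilPart u *ᵥ D) + b • E) :
    w * u * w⁻¹ * u⁻¹ = uT hf (R.isoE hf) (f (nilPart u *ᵥ D) (nilPart u *ᵥ D) * (a - σ a)) := by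
  set N1 := nilPart u *ᵥ D with hN1
  set μ := f N1 N1 with hμ
  have hNE : f N1 E = 0 := R.form_ND_E hf
  have hEN : f E N1 = 0 := UnitCentres.orth_comm hf hNE
  have he : e = -(σ a * μ) := by
    have h := form_act hw N1 D
    rw [hwN, hwD] at h
    simp only [hf.add_left, hf.smul_left, UnitCentres.add_right hf, UnitCentres.smul_right hf, hNE, hEN,
      R.isoE hf, R.pair, ← hμ] at h
    linear_combination h
  have huN : u ⋆ N1 = N1 + (-μ) • E := by rw [act_eq u N1, hN1, R.sq_D hf]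
  have huD : u ⋆ D = D + N1 := act_eq u D
  rw [mul_inv_eq_iff_eq_mul, mul_inv_eq_iff_eq_mul, mul_assoc]
  refine ext_mulVec fun x => ?_
  show (w * u) ⋆ x = (uT hf (R.isoE hf) (μ * (a - σ a)) * (u * w)) ⋆ x
  obtain ⟨p, q', hx⟩ := R.exists_coords hf x
  rw [hx, ← hN1]
  simp only [act_mul, act_add, act_smul, R.fix_E, hwE, hwN, hwD, huN, huD]
  simp only [act, uT_mulVec, mulVec_add, mulVec_smul, hf.add_left, hf.smul_left, hNE, R.isoE hf, R.pair' hf]
  subst he
  module

/-- Centres from the stabiliser of the fixed line. -/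
theorem centres_of_monomial {H : Subgroup (GL (Fin 3) F)} {v : GL (Fin 3) F} {α ξ : F} (hv : Iso f v)
    (hvd : (v : Matrix (Fin 3) (Fin 3) F).det = 1) (hud : (u : Matrix (Fin 3) (Fin 3) F).det = 1)
    (hu : u ∈ H) (hvH : v ∈ H) (hvE : v ⋆ E = α • D) (hX : v ⋆ (u ⋆ (v ⋆ E)) = ξ • E)
    (hξ : ξ * σ ξ = 1) (hα : α ≠ 0) (h6 : ξ ^ 6 ≠ 1)
    (hgen : ∀ K : Subring F, ξ ^ 3 + (ξ ^ 3)⁻¹ ∈ K → ∀ x, σ x = x → x ∈ K) :
    Centre hf H E ∧ Centre hf H D := by
  set N1 := nilPart u *ᵥ D with hN1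
  set μ := f N1 N1 with hμ
  have hμ0 : μ ≠ 0 := R.mu_ne hf
  have hξ0 : ξ ≠ 0 := fun h => by rw [h, zero_mul] at hξ; exact zero_ne_one hξ
  have hNE : f N1 E = 0 := R.form_ND_E hf
  set X := v * u * v with hXdef
  have hXi : Iso f X := (hv.mul R.iso).mul hv
  have hXH : X ∈ H := H.mul_mem (H.mul_mem hvH hu) hvH
  have hXE : X ⋆ E = ξ • E := by rw [hXdef, act_mul, act_mul, hX]
  -- the action of `X`
  obtain ⟨pD, τD, hXD⟩ := R.exists_coords hf (X ⋆ D)
  have hψ : f (X ⋆ D) E = ξ := by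
    have h := form_act hXi D E
    rw [hXE, UnitCentres.smul_right hf, R.pair' hf] at h
    linear_combination ξ * h - f (X ⋆ D) E * hξ
  rw [hψ] at hXD
  obtain ⟨χ, τN, hXN⟩ := R.exists_coords hf (X ⋆ N1)
  have hN0 : f (X ⋆ N1) E = 0 := by
    have h := form_act hXi N1 E
    rw [hXE, UnitCentres.smul_right hf, hNE] at h
    exact (mul_eq_zero.1 h).resolve_left ((map_ne_zero σ).2 hξ0)
  rw [hN0, zero_smul, zero_add, ← hN1] at hXN
  rw [← hN1] at hXD
  have hE2 : E = (-μ⁻¹) • (nilPart u *ᵥ N1) := by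
    rw [hN1, R.sq_D hf, smul_smul, neg_mul_neg, inv_mul_cancel₀ hμ0, one_smul]
  have hN2 : nilPart u *ᵥ N1 = (-μ) • E := R.sq_D hf
  have hχ : χ * ξ ^ 2 = 1 := by
    have h := R.det_rel hf (g := X) 1
      !![ξ, 0, 0; pD, χ, 0; -μ⁻¹ * τD, -μ⁻¹ * τN, ξ] (by
        intro j
        fin_cases j <;>
          simp [Fin.sum_univ_three, Matrix.one_apply, pow_two, ← mulVec_mulVec, ← hN1]
        · conv_lhs => rw [hXD, hE2]
          module
        · conv_lhs => rw [hXN, hE2]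
          module
        · rw [hN2, act_smul, hXE]
          module)
    have hdX : (X : Matrix (Fin 3) (Fin 3) F).det = 1 := by
      rw [hXdef, Units.val_mul, Units.val_mul, det_mul, det_mul, hvd, hud]; ring
    rw [det_one, mul_one, hdX, Matrix.det_fin_three] at h
    simp at h
    linear_combination -h
  set ζ := (ξ ^ 3)⁻¹ with hζ
  have hχξ : χ / ξ = ζ := by
    rw [hζ, div_eq_iff hξ0]
    field_simp
    linear_combination hχ
  -- the conjugates of `u`
  have key : ∀ j : ℕ, ∃ b e : F, X ^ j * u * (X ^ j)⁻¹ ∈ H ∧ Iso f (X ^ j * u * (X ^ j)⁻¹) ∧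
      (X ^ j * u * (X ^ j)⁻¹) ⋆ E = E ∧ (X ^ j * u * (X ^ j)⁻¹) ⋆ N1 = N1 + e • E ∧
      (X ^ j * u * (X ^ j)⁻¹) ⋆ D = D + ζ ^ j • N1 + b • E := by
    intro j
    induction j with
    | zero =>
      refine ⟨0, -μ, ?_⟩
      simp only [pow_zero, one_mul, inv_one, mul_one, one_smul, zero_smul, add_zero]
      exact ⟨hu, R.iso, R.fix_E, by rw [act_eq u N1, hN2], act_eq u D⟩
    | succ j ih =>
      obtain ⟨b, e, hH, hI, hE, hN, hD⟩ := ih
      set w := X ^ j * u * (X ^ j)⁻¹ with hw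
      have hw' : X ^ (j + 1) * u * (X ^ (j + 1))⁻¹ = X * w * X⁻¹ := by
        rw [hw, pow_succ']; group
      rw [hw']
      have hact : ∀ x, (X * w * X⁻¹) ⋆ (X ⋆ x) = X ⋆ (w ⋆ x) := fun x => by
        rw [act_mul, act_mul, act_inv_act]
      have hE' : (X * w * X⁻¹) ⋆ E = E := by
        have h := hact E
        rw [hE, hXE, act_smul] at h
        have h' := congrArg (fun x => ξ⁻¹ • x) h
        simpa [smul_smul, inv_mul_cancel₀ hξ0] using h'
      have hχ0 : χ ≠ 0 := fun h => by rw [h, zero_mul] at hχ; exact zero_ne_one hχ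
      have hN' : (X * w * X⁻¹) ⋆ N1 = N1 + (e * ξ / χ) • E := by
        have h := hact N1
        rw [hN, act_add X, act_smul X e, hXE, hXN, act_add, act_smul, act_smul, hE'] at h
        have h2 := congrArg (fun x => χ⁻¹ • (x - τN • E)) h
        simp only [add_sub_cancel_right, smul_smul, inv_mul_cancel₀ hχ0, one_smul] at h2
        rw [h2]
        match_scalars <;> field_simp <;> ring
      refine ⟨(ζ ^ j * τN + b * ξ - pD * (e * ξ / χ)) / ξ, e * ξ / χ,
        H.mul_mem (H.mul_mem hXH hH) (H.inv_mem hXH), (hXi.mul hI).mul (UnitCentres.Iso.inv hXi), hE', hN', ?_⟩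
      have h := hact D
      rw [hD, act_add X, act_add X, act_smul X, act_smul X, hXE, hXN, hXD, act_add, act_add, act_smul, act_smul,
        act_smul, hE', hN'] at h
      have h3 := (eq_sub_of_add_eq (eq_sub_of_add_eq h))
      have h2 := congrArg (fun x => ξ⁻¹ • x) h3
      simp only [smul_smul, inv_mul_cancel₀ hξ0, one_smul] at h2
      rw [h2, pow_succ, ← hχξ]
      match_scalars <;> field_simp <;> ring
  -- the transvection values
  have hζn : ζ * σ ζ = 1 := by rw [hζ, map_inv₀, map_pow, ← mul_inv, ← mul_pow, hξ, one_pow, inv_one]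
  have hζ0 : ζ ≠ 0 := inv_ne_zero (pow_ne_zero _ hξ0)
  have hσζ : σ ζ = ζ⁻¹ := eq_inv_of_mul_eq_one_right hζn
  set s : ℕ → F := fun j => μ * (ζ ^ j - ζ⁻¹ ^ j) with hs
  have hmem : ∀ j, uT hf (R.isoE hf) (s j) ∈ H := fun j => by
    obtain ⟨b, e, hH, hI, hE, hN, hD⟩ := key j
    have h := R.commutator_eq hf hI hE hN hD
    rw [← hN1, ← hμ, map_pow, hσζ] at h
    show uT hf (R.isoE hf) (μ * (ζ ^ j - ζ⁻¹ ^ j)) ∈ H
    rw [← h]
    exact H.mul_mem (H.mul_mem (H.mul_mem hH hu) (H.inv_mem hH)) (H.inv_mem hu)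
  set κ := ξ ^ 3 + (ξ ^ 3)⁻¹ with hκ
  have hκζ : κ = ζ + ζ⁻¹ := by rw [hκ, hζ, inv_inv]; ring
  set A := AddSubgroup.closure (Set.range s) with hA
  have hAle : ∀ t ∈ A, uT hf (R.isoE hf) t ∈ H := by
    have : A ≤ skVals hf H (R.isoE hf) := (AddSubgroup.closure_le _).2 (by rintro _ ⟨j, rfl⟩; exact hmem j)
    exact fun t ht => this ht
  have hstab : ∀ x ∈ A, κ * x ∈ A := by
    intro x hx
    induction hx using AddSubgroup.closure_induction with
    | mem x hx =>
      obtain ⟨j, rfl⟩ := hx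
      cases j with
      | zero => simp [hs]
      | succ i =>
        have e : κ * s (i + 1) = s (i + 2) + s i := by
          rw [hκζ]
          simp only [hs]
          linear_combination (μ * (ζ ^ i - ζ⁻¹ ^ i)) * mul_inv_cancel₀ hζ0
        rw [e]
        exact A.add_mem (AddSubgroup.subset_closure ⟨_, rfl⟩) (AddSubgroup.subset_closure ⟨_, rfl⟩)
    | zero => rw [mul_zero]; exact A.zero_mem
    | add x y _ _ hx hy => rw [mul_add]; exact A.add_mem hx hy
    | neg x _ hx => rw [mul_neg]; exact A.neg_mem hx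
  have hs1 : s 1 ≠ 0 := by
    simp only [hs, pow_one]
    refine mul_ne_zero hμ0 (sub_ne_zero.2 fun h => h6 ?_)
    have h2 : ζ * ζ = 1 := by
      nth_rewrite 2 [h]
      exact mul_inv_cancel₀ hζ0
    rw [hζ, ← mul_inv, ← pow_add, inv_eq_one] at h2
    exact h2
  have hss : s 1 + σ (s 1) = 0 := by
    simp only [hs, pow_one]
    rw [map_mul, map_sub, map_inv₀ σ ζ, hσζ, inv_inv, show σ μ = μ from UnitCentres.norm_fixed hf N1]
    ring
  have hcE : Centre hf H E :=
    centre_of_stable hf (R.isoE hf) A hAle hs1 hss (AddSubgroup.subset_closure ⟨1, rfl⟩) hstab hgen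
  refine ⟨hcE, ?_⟩
  have h := (hcE.image hvH hv).smul α⁻¹
  rwa [show (v : Matrix (Fin 3) (Fin 3) F) *ᵥ E = α • D from hvE, smul_smul, inv_mul_cancel₀ hα,
    one_smul] at h

end Reg

end CfsgLib.SURegGen
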