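import Cfsg.Agent.SURegGen.Conj

/-!
Dimension three: the twisting element with determinant one.
-/

set_option autoImplicit false

namespace CfsgLib.SURegGen

open Matrix CfsgLib.TransvGL CfsgLib.UnitCentres

variable {F : Type*} [Field F] {σ : F ≃+* F} {f : (Fin 3 → F) → (Fin 3 → F) → F}

local notation "V" => (Fin 3 → F)
local notation:70 g:71 " ⋆ " x:70 => act g x

namespace Reg

variable {u : GL (Fin 3) F} {E D : Fin 3 → F} {c : F} (R : Reg f u E D c)
  (hf : Cfsg.Geo.IsUnitaryForm σ f)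
include R hf

lemma mu_mul : c * f (nilPart u *ᵥ D) (nilPart u *ᵥ D) = -1 := by
  have h := form_nilPart_defect hf R.iso (nilPart u *ᵥ D) D
  have h0 : f (nilPart u *ᵥ (nilPart u *ᵥ D)) (nilPart u *ᵥ D) = 0 := by
    have := form_pow_pow hf R.iso R.nil 2 1 le_rfl D D
    rwa [pow_succ_mulVec, pow_one] at this
  have hp := R.pair
  rw [R.top, hf.smul_left, show (3 : ℕ) - 1 = 1 + 1 from rfl, pow_succ_mulVec, pow_one] at hp
  linear_combination c * h - hp - c * h0

lemma mu_ne : f (nilPart u *ᵥ D) (nilPart u *ᵥ D) ≠ 0 := fun h => by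
  have := R.mu_mul hf
  rw [h, mul_zero] at this
  exact neg_ne_zero.2 one_ne_zero this.symm

/-- The square of the nilpotent part. -/
lemma sq_D : nilPart u *ᵥ (nilPart u *ᵥ D) = (-f (nilPart u *ᵥ D) (nilPart u *ᵥ D)) • E := by
  rw [R.top, smul_smul, show (3 : ℕ) - 1 = 1 + 1 from rfl, pow_succ_mulVec, pow_one,
    show -f (nilPart u *ᵥ D) (nilPart u *ᵥ D) * c = 1 by linear_combination -R.mu_mul hf, one_smul]

lemma cube_D : nilPart u *ᵥ (nilPart u *ᵥ (nilPart u *ᵥ D)) = 0 := by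
  rw [R.sq_D hf, mulVec_smul, R.nil_E, smul_zero]

lemma delta_trace : f D (u ⋆ D) + σ (f D (u ⋆ D)) = -f (nilPart u *ᵥ D) (nilPart u *ᵥ D) := by
  have h := form_nilPart_defect hf R.iso D D
  rw [act_eq u D, UnitCentres.add_right hf, R.isoD, zero_add, ← hf.herm]
  linear_combination h

/-- Every vector in coordinates. -/
lemma exists_coords (x : V) : ∃ a b : F, x = f x E • D + a • (nilPart u *ᵥ D) + b • E := by
  obtain ⟨y, hy⟩ := R.exists_decomp hf x
  obtain ⟨z, hz⟩ := R.exists_decomp hf y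
  obtain ⟨w, hw⟩ := R.exists_decomp hf z
  refine ⟨f y E, f z E * -f (nilPart u *ᵥ D) (nilPart u *ᵥ D), ?_⟩
  have e : nilPart u *ᵥ (nilPart u *ᵥ (nilPart u *ᵥ w)) = 0 := by
    have := R.pow_zero' (j := 1 + 1 + 1) le_rfl w
    rwa [pow_succ_mulVec, pow_succ_mulVec, pow_one] at this
  conv_lhs => rw [hy, hz, hw]
  simp only [mulVec_add, mulVec_smul, e, R.sq_D hf, smul_smul, add_zero]
  rw [add_assoc]

/-- The determinant of a map given on a combination of the basis. -/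
lemma det_rel {g : GL (Fin 3) F} (S T : Matrix (Fin 3) (Fin 3) F)
    (h : ∀ j, g ⋆ (∑ k : Fin 3, S k j • (nilPart u ^ (k : ℕ) *ᵥ D)) =
      ∑ k : Fin 3, T k j • (nilPart u ^ (k : ℕ) *ᵥ D)) :
    (g : Matrix (Fin 3) (Fin 3) F).det * S.det = T.det := by
  set M : Matrix (Fin 3) (Fin 3) F := Matrix.of fun i j => (nilPart u ^ (j : ℕ) *ᵥ D) i with hM
  have hMu : M.det ≠ 0 := by
    refine ((Matrix.isUnit_iff_isUnit_det M).1 (Matrix.linearIndependent_cols_iff_isUnit.1 ?_)).ne_zero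
    exact R.linearIndependent hf
  have hcol : ∀ (S : Matrix (Fin 3) (Fin 3) F) (j : Fin 3),
      (∑ k : Fin 3, S k j • (nilPart u ^ (k : ℕ) *ᵥ D)) = (M * S) *ᵥ Pi.single j 1 := by
    intro S j
    funext i
    simp [hM, Matrix.mul_apply, Finset.sum_apply, mul_comm]
  have e : (g : Matrix (Fin 3) (Fin 3) F) * (M * S) = M * T := by
    refine Matrix.ext_iff_mulVec.2 fun x => ?_
    have hj : ∀ j, ((g : Matrix (Fin 3) (Fin 3) F) * (M * S)) *ᵥ Pi.single j 1 = (M * T) *ᵥ Pi.single j 1 := by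
      intro j
      rw [← mulVec_mulVec, ← hcol, ← hcol]
      exact h j
    conv_lhs => rw [pi_eq_sum_univ' x]
    conv_rhs => rw [pi_eq_sum_univ' x]
    simp only [mulVec_sum, mulVec_smul, hj]
  have := congrArg Matrix.det e
  rw [det_mul, det_mul, det_mul] at this
  exact mul_left_cancel₀ hMu (by linear_combination this)

set_option maxHeartbeats 1000000 in
/-- The twist in dimension three, for a norm one parameter `ξ` and a skew parameter `ρ`. -/
theorem exists_twist_three {ξ ρ : F} (hξ : ξ * σ ξ = 1) (hξ1 : 1 + ξ ≠ 0) (hρ : ρ + σ ρ = 0) :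
    ∃ (D2 : V) (g : GL (Fin 3) F) (α : F), Reg f u E D2 c ∧
      f (nilPart u *ᵥ D2) (nilPart u *ᵥ D2) = f (nilPart u *ᵥ D) (nilPart u *ᵥ D) ∧
      Iso f g ∧ (g : Matrix (Fin 3) (Fin 3) F).det = 1 ∧
      α = -(1 + ξ) ^ 3 / (f (nilPart u *ᵥ D) (nilPart u *ᵥ D) * ξ) ∧ α ≠ 0 ∧ α / σ α = ξ ∧
      (g * u * g⁻¹) ⋆ E = α • D2 ∧
      (g * u * g⁻¹) ⋆ (u ⋆ ((g * u * g⁻¹) ⋆ E)) = (α / σ α) • (E + ρ • D2) ∧
      (g * u * g⁻¹) ⋆ D2 = (3 : F) • D2 - (3 / α + ρ / α ^ 2) • E + (σ α / α) • (u ⋆ D2) := by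
  set μ := f (nilPart u *ᵥ D) (nilPart u *ᵥ D) with hμ
  have hμ0 : μ ≠ 0 := R.mu_ne hf
  have hσμ : σ μ = μ := UnitCentres.norm_fixed hf _
  have hξ0 : ξ ≠ 0 := fun h => by rw [h, zero_mul] at hξ; exact zero_ne_one hξ
  have hσξ : σ ξ = ξ⁻¹ := eq_inv_of_mul_eq_one_right hξ
  have h1ξ : ξ + 1 ≠ 0 := by rwa [add_comm]
  have hσρ : σ ρ = -ρ := eq_neg_of_add_eq_zero_right hρ
  -- the source
  obtain ⟨D1, hD1, hD1', hk⟩ := R.exists_shift hf (-μ / (1 + ξ) - f D (u ⋆ D)) (by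
    rw [map_sub, map_div₀, map_neg, hσμ, map_add, map_one, hσξ]
    have := R.delta_trace hf
    rw [← hμ] at this
    rw [show σ (f D (u ⋆ D)) = -μ - f D (u ⋆ D) by linear_combination this]
    field_simp
    ring)
  have R1 := R.change hf hD1 hD1'
  have hμ1 : f (nilPart u *ᵥ D1) (nilPart u *ᵥ D1) = μ :=
    mul_left_cancel₀ (R.c_ne hf) (by rw [R1.mu_mul hf, R.mu_mul hf])
  have hδ1 : f D1 (u ⋆ D1) = -μ / (1 + ξ) := by
    have := hk 1
    rw [pow_one, Nat.cast_one, one_mul] at this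
    rw [this]; ring
  set a := (1 + ξ) ^ 2 / (μ * ξ) with ha
  have ha0 : a ≠ 0 := div_ne_zero (pow_ne_zero _ hξ1) (mul_ne_zero hμ0 hξ0)
  have hσa : σ a = a := by
    rw [ha, map_div₀, map_pow, map_add, map_one, map_mul, hσμ, hσξ]
    field_simp
    ring
  have R' : Reg f u (a⁻¹ • E) (a • D1) (c / a ^ 2) := by
    refine ⟨le_rfl, R.iso, R.nil, ?_, ?_, ?_⟩
    · rw [R1.top, mulVec_smul, smul_smul, smul_smul]
      congr 1
      field_simp
    · rw [hf.smul_left, UnitCentres.smul_right hf, hσa, hD1, mul_one, inv_mul_cancel₀ ha0]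
    · rw [hf.smul_left, UnitCentres.smul_right hf, R1.isoD, mul_zero, mul_zero]
  set α := -(1 + ξ) ^ 3 / (μ * ξ) with hα
  have hα0 : α ≠ 0 := div_ne_zero (neg_ne_zero.2 (pow_ne_zero _ hξ1)) (mul_ne_zero hμ0 hξ0)
  have hσα : σ α = -(1 + ξ) ^ 3 / (μ * ξ ^ 2) := by
    rw [hα, map_div₀, map_neg, map_pow, map_add, map_one, map_mul, hσμ, hσξ]
    field_simp
    ring
  have hω : α / σ α = ξ := by rw [hσα, hα]; field_simp
  have hy : f (u ⋆ (a • D1)) (a • D1) = α := by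
    rw [act_smul, hf.smul_left, UnitCentres.smul_right hf, hσa, hf.herm, hδ1, map_div₀, map_neg, hσμ,
      map_add, map_one, hσξ, ha, hα]
    field_simp
    ring
  -- the target
  set δ := -((3 * ξ + 1) * μ / (1 + ξ) ^ 3) - ρ * μ ^ 2 * ξ ^ 3 / (1 + ξ) ^ 6 with hδ
  obtain ⟨D2, hD2, hD2', hk2⟩ := R.exists_shift hf (δ - f D (u ⋆ D)) (by
    rw [hδ, map_sub, map_sub, map_neg, map_div₀, map_div₀, map_mul, map_mul, map_mul, map_pow, map_pow,
      map_pow, map_pow, map_add, map_add, map_mul, map_one, map_ofNat, hσμ, hσξ, hσρ]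
    have := R.delta_trace hf
    rw [← hμ] at this
    rw [show σ (f D (u ⋆ D)) = -μ - f D (u ⋆ D) by linear_combination this]
    field_simp
    ring)
  have R2 := R.change hf hD2 hD2'
  have hμ2 : f (nilPart u *ᵥ D2) (nilPart u *ᵥ D2) = μ :=
    mul_left_cancel₀ (R.c_ne hf) (by rw [R2.mu_mul hf, R.mu_mul hf])
  have hδ2 : f D2 (u ⋆ D2) = δ := by
    have := hk2 1
    rw [pow_one, Nat.cast_one, one_mul] at this
    rw [this]; ring
  have hβ : f (a • D1) ((u ^ 2) ⋆ (a • D1)) = a ^ 2 * (2 * f D1 (u ⋆ D1) - μ) := by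
    rw [pow_two u, act_mul, act_smul, act_smul, hf.smul_left, UnitCentres.smul_right hf, hσa, act_eq u D1,
      act_add, act_eq u D1, act_eq u (nilPart u *ᵥ D1), R1.sq_D hf, hμ1]
    simp only [UnitCentres.add_right hf, UnitCentres.smul_right hf, R1.isoD, R1.pair' hf, map_neg, hσμ]
    ring
  obtain ⟨g, hg, g0, g1, g2⟩ := R2.exists_twist hf R' hα0 hy hρ (by
    rw [hδ2, hβ, hω, map_mul, map_pow, hσa, map_sub, map_mul, map_ofNat, hδ1, map_div₀, map_neg, hσμ,
      map_add, map_one, hσξ, hδ, hα, ha]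
    field_simp
    ring)
  have hu2 : u ⋆ D2 = D2 + nilPart u *ᵥ D2 := act_eq u D2
  -- the determinant
  obtain ⟨b, b', hb⟩ := R1.exists_coords hf D2
  rw [R2.pair' hf, one_smul] at hb
  have hE' : E = (-μ⁻¹) • (nilPart u *ᵥ (nilPart u *ᵥ D1)) := by
    rw [R1.sq_D hf, hμ1, smul_smul, neg_mul_neg, inv_mul_cancel₀ hμ0, one_smul]
  have hNb : nilPart u *ᵥ D2 = nilPart u *ᵥ D1 + b • (nilPart u *ᵥ (nilPart u *ᵥ D1)) := by
    rw [hb, mulVec_add, mulVec_add, mulVec_smul, mulVec_smul, R.nil_E, smul_zero, add_zero]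
  have hdet : (g : Matrix (Fin 3) (Fin 3) F).det = -1 := by
    have h := R1.det_rel hf (g := g)
      !![a, a, a; 0, a, -a; 0, 0, a]
      !![0, α, σ α; 0, α * b, σ α * (b + 1); -μ⁻¹, α * (-b' * μ⁻¹), σ α * (-b' * μ⁻¹ + b) + ρ / α * μ⁻¹]
      (by
        intro j
        fin_cases j <;> simp only [Fin.sum_univ_three, Fin.zero_eta, Fin.mk_one, Fin.reduceFinMk,
          Matrix.of_apply, Matrix.cons_val', Matrix.cons_val_zero, Matrix.cons_val_one, Matrix.cons_val,
          Matrix.empty_val', Matrix.cons_val_fin_one, Fin.val_zero, Fin.val_one, Fin.val_two, pow_zero,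
          one_mulVec, pow_one, pow_two, ← mulVec_mulVec, zero_smul, zero_add, add_zero]
        · rw [g0, hE']
        · rw [← smul_add, ← act_eq u D1, ← act_smul u, g1, hb, hE']
          module
        · have e : a • D1 + -a • (nilPart u *ᵥ D1) + a • (nilPart u *ᵥ (nilPart u *ᵥ D1)) = u⁻¹ ⋆ (a • D1) := by
            have e' : u ⋆ (a • D1 + -a • (nilPart u *ᵥ D1) + a • (nilPart u *ᵥ (nilPart u *ᵥ D1))) = a • D1 := by
              rw [act_eq u, mulVec_add, mulVec_add, mulVec_smul, mulVec_smul, mulVec_smul, R1.cube_D hf]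
              module
            conv_rhs => rw [← e']
            rw [act_inv_act]
          rw [e, g2, hu2, hNb, hb, hE']
          module)
    generalize (g : Matrix (Fin 3) (Fin 3) F).det = G at h ⊢
    rw [Matrix.det_fin_three, Matrix.det_fin_three] at h
    simp only [Matrix.of_apply, Matrix.cons_val', Matrix.cons_val_zero, Matrix.cons_val_one, Matrix.cons_val,
      Matrix.empty_val', Matrix.cons_val_fin_one] at h
    have hN : α * σ α = μ * a ^ 3 := by
      rw [hσα, hα, ha]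
      field_simp
    clear_value a α
    field_simp at h
    refine mul_right_cancel₀ (mul_ne_zero hμ0 (pow_ne_zero 3 ha0)) ?_
    linear_combination h - hN
  have hconj : -g * u * (-g)⁻¹ = g * u * g⁻¹ := by
    rw [inv_neg, neg_mul, neg_mul_neg]
  obtain ⟨hv1, hv2⟩ := R2.twist_act hf hα0 g0 g1 g2
  refine ⟨D2, -g, α, R2, hμ2, ?_, ?_, rfl, hα0, hω, ?_, ?_, ?_⟩
  · intro x y
    rw [Units.val_neg, neg_mulVec, neg_mulVec, ← neg_one_smul F ((g : Matrix (Fin 3) (Fin 3) F) *ᵥ x),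
      ← neg_one_smul F ((g : Matrix (Fin 3) (Fin 3) F) *ᵥ y), hf.smul_left, UnitCentres.smul_right hf,
      map_neg, map_one, hg x y]
    ring
  · rw [Units.val_neg, Matrix.det_neg, hdet, Fintype.card_fin]; norm_num
  · rw [hconj]; exact hv1
  · rw [hconj]; exact hv2
  · rw [hconj]
    have e : u ⋆ (u ⋆ (a • D1)) = (3 : F) • (u ⋆ (a • D1)) - (3 : F) • (a • D1) + u⁻¹ ⋆ (a • D1) := by
      have e' : u ⋆ (u ⋆ (u ⋆ (a • D1))) =
          u ⋆ ((3 : F) • (u ⋆ (a • D1)) - (3 : F) • (a • D1)) + a • D1 := by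
        simp only [act_eq u, mulVec_add, mulVec_sub, mulVec_smul, R1.cube_D hf]
        module
      have := congrArg (fun x => u⁻¹ ⋆ x) e'
      simpa only [act_add, act_inv_act] using this
    have h1 : (g * u * g⁻¹) ⋆ (α • D2) = g ⋆ (u ⋆ (u ⋆ (a • D1))) := by
      rw [← g1, act_mul, act_mul, act_inv_act]
    rw [e, act_add, act_sub, act_smul g (3 : F), act_smul g (3 : F), g1, g2, g0, act_smul] at h1
    have h2 := congrArg (fun x => α⁻¹ • x) h1
    simp only [smul_smul, inv_mul_cancel₀ hα0, one_smul] at h2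
    rw [h2]
    match_scalars <;> field_simp <;> ring

end Reg

end CfsgLib.SURegGen
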